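import Mathlib
import Cfsg.Agent.Lib.Helper18.LSDefs

/-!
# S2333 (project LS, helper18), piece LS-CHARFORM

Every complex character of the additive group of symmetric matrices has the shape
`S ↦ ψ (trace (S * M))`.
-/

set_option autoImplicit false

namespace Cfsg.Agent.Lib.Helper18.LS

open Matrix

universe u

variable {F : Type u} [Field F] {n : ℕ}

/-- the symmetrisation `X ↦ (X (min i j) (max i j))` -/
private def charformTheta (X : Matrix (Fin n) (Fin n) F) : Matrix (Fin n) (Fin n) F :=
  Matrix.of fun i j => X (min i j) (max i j)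

private theorem charformTheta_add (X Y : Matrix (Fin n) (Fin n) F) :
    charformTheta (X + Y) = charformTheta X + charformTheta Y := by
  ext i j
  simp [charformTheta]

private theorem charformTheta_zero : charformTheta (0 : Matrix (Fin n) (Fin n) F) = 0 := by
  ext i j
  simp [charformTheta]

omit [Field F] in
private theorem charformTheta_isSymm (X : Matrix (Fin n) (Fin n) F) :
    (charformTheta X).IsSymm := by
  ext i j
  simp [charformTheta, min_comm, max_comm]

omit [Field F] in
private theorem charformTheta_of_isSymm {S : Matrix (Fin n) (Fin n) F} (hS : S.IsSymm) :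
    charformTheta S = S := by
  ext i j
  simp only [charformTheta, Matrix.of_apply]
  rcases le_total i j with h | h
  · rw [min_eq_left h, max_eq_right h]
  · rw [min_eq_right h, max_eq_left h]
    exact hS.apply i j

private theorem charform_map_sum {A : Type*} [AddCommMonoid A] {ι : Type*} (φ : AddChar A ℂ)
    (s : Finset ι) (f : ι → A) : φ (∑ i ∈ s, f i) = ∏ i ∈ s, φ (f i) := by
  classical
  induction s using Finset.induction_on with
  | empty => simp
  | insert a s ha ih =>
    rw [Finset.sum_insert ha, Finset.prod_insert ha, AddChar.map_add_eq_mul, ih]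

-- piece CHARFORM
theorem char_form [Fintype F] (ψ : AddChar F ℂ)
    (hψ : ∀ φ : AddChar F ℂ, ∃ c : F, ∀ x : F, φ x = ψ (c * x))
    (χ : Matrix (Fin n) (Fin n) F → ℂ) (h0 : χ 0 = 1)
    (hadd : ∀ S T : Matrix (Fin n) (Fin n) F, S.IsSymm → T.IsSymm → χ (S + T) = χ S * χ T) :
    ∃ M : Matrix (Fin n) (Fin n) F,
      ∀ S : Matrix (Fin n) (Fin n) F, S.IsSymm → χ S = ψ (trace (S * M)) := by
  -- the character of all matrices
  let Φ : AddChar (Matrix (Fin n) (Fin n) F) ℂ :=
    { toFun := fun X => χ (charformTheta X)
      map_zero_eq_one' := by rw [charformTheta_zero]; exact h0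
      map_add_eq_mul' := fun X Y => by
        rw [charformTheta_add]
        exact hadd _ _ (charformTheta_isSymm X) (charformTheta_isSymm Y) }
  have hΦ : ∀ X, Φ X = χ (charformTheta X) := fun X => rfl
  -- its restriction to each coordinate
  have hcoord : ∀ i j : Fin n, ∃ c : F, ∀ x : F, Φ (Matrix.single i j x) = ψ (c * x) := by
    intro i j
    let φ : AddChar F ℂ :=
      { toFun := fun x => Φ (Matrix.single i j x)
        map_zero_eq_one' := by
          rw [Matrix.single_zero]
          exact Φ.map_zero_eq_one
        map_add_eq_mul' := fun x y => by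
          rw [Matrix.single_add]
          exact Φ.map_add_eq_mul _ _ }
    obtain ⟨c, hc⟩ := hψ φ
    exact ⟨c, fun x => hc x⟩
  choose m hm using hcoord
  refine ⟨Matrix.of fun j i => m i j, ?_⟩
  intro S hS
  have h1 : χ S = Φ S := by rw [hΦ, charformTheta_of_isSymm hS]
  rw [h1]
  conv_lhs => rw [Matrix.matrix_eq_sum_single S]
  rw [charform_map_sum]
  have h2 : ∀ i : Fin n, Φ (∑ j, Matrix.single i j (S i j)) = ψ (∑ j, m i j * S i j) := by
    intro i
    rw [charform_map_sum, charform_map_sum]
    exact Finset.prod_congr rfl fun j _ => hm i j (S i j)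
  rw [Finset.prod_congr rfl fun i _ => h2 i, ← charform_map_sum]
  congr 1
  rw [Matrix.trace]
  refine Finset.sum_congr rfl fun i _ => ?_
  rw [Matrix.diag_apply, Matrix.mul_apply]
  refine Finset.sum_congr rfl fun j _ => ?_
  rw [Matrix.of_apply, mul_comm]

end Cfsg.Agent.Lib.Helper18.LS
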