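import Mathlib
import Cfsg.Agent.Lib.Helper18.LSDefs

/-!
# S2333 (project LS, helper18), piece LS-NPAIRS

There are at least `(q^n - 1) (q^n - q)` linearly independent pairs of vectors in `F^n`.
-/

set_option autoImplicit false

namespace Cfsg.Agent.Lib.Helper18.LS

open Matrix

universe u

variable {F : Type u} [Field F] {n : ℕ}

-- piece NPAIRS
theorem card_indep [Fintype F] :
    (Fintype.card F ^ n - 1) * (Fintype.card F ^ n - Fintype.card F) ≤
      Nat.card {p : (Fin n → F) × (Fin n → F) | Indep p.1 p.2} := by
  classical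
  have hcardV : Nat.card (Fin n → F) = Fintype.card F ^ n := by
    rw [Nat.card_eq_fintype_card, Fintype.card_fun, Fintype.card_fin]
  have hline : ∀ u : Fin n → F, u ≠ 0 →
      Nat.card {v : Fin n → F // v ∉ Set.range (fun c : F => c • u)} =
        Fintype.card F ^ n - Fintype.card F := by
    intro u hu
    have hinj : Function.Injective (fun c : F => c • u) := by
      intro c d hcd
      simp only at hcd
      by_contra hne
      have h0 : (c - d) • u = 0 := by rw [sub_smul, hcd, sub_self]
      rcases smul_eq_zero.mp h0 with h | h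
      · exact hne (sub_eq_zero.mp h)
      · exact hu h
    have h1 : Nat.card {v : Fin n → F // v ∉ Set.range (fun c : F => c • u)} =
        (Set.range (fun c : F => c • u))ᶜ.ncard := rfl
    rw [h1, Set.ncard_compl, hcardV]
    congr 1
    rw [← Set.image_univ, Set.ncard_image_of_injective _ hinj, Set.ncard_univ,
      Nat.card_eq_fintype_card]
  have hne0 : Nat.card {u : Fin n → F // u ≠ 0} = Fintype.card F ^ n - 1 := by
    have h1 : Nat.card {u : Fin n → F // u ≠ 0} = ({0} : Set (Fin n → F))ᶜ.ncard := rfl
    rw [h1, Set.ncard_compl, hcardV, Set.ncard_singleton]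
  -- the injection
  let f : (Σ u : {u : Fin n → F // u ≠ 0},
      {v : Fin n → F // v ∉ Set.range (fun c : F => c • u.1)}) →
      {p : (Fin n → F) × (Fin n → F) | Indep p.1 p.2} :=
    fun x => ⟨(x.1.1, x.2.1), by
      intro a c hac
      have hu := x.1.2
      have hv := x.2.2
      by_cases hc : c = 0
      · subst hc
        rw [zero_smul, add_zero] at hac
        rcases smul_eq_zero.mp hac with h | h
        · exact ⟨h, rfl⟩
        · exact absurd h hu
      · exfalso
        apply hv
        refine ⟨-(c⁻¹ * a), ?_⟩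
        have h2 : c • x.2.1 = -(a • x.1.1) := eq_neg_of_add_eq_zero_right hac
        show (-(c⁻¹ * a)) • x.1.1 = x.2.1
        rw [neg_smul, mul_smul, ← smul_neg, ← h2, smul_smul, inv_mul_cancel₀ hc, one_smul]⟩
  have hf : Function.Injective f := by
    rintro ⟨⟨u, hu⟩, ⟨v, hv⟩⟩ ⟨⟨u', hu'⟩, ⟨v', hv'⟩⟩ h
    simp only [f, Subtype.mk.injEq, Prod.mk.injEq] at h
    obtain ⟨rfl, rfl⟩ := h
    rfl
  calc (Fintype.card F ^ n - 1) * (Fintype.card F ^ n - Fintype.card F)
      = Nat.card (Σ u : {u : Fin n → F // u ≠ 0},
          {v : Fin n → F // v ∉ Set.range (fun c : F => c • u.1)}) := by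
        have hne0' : Fintype.card {u : Fin n → F // u ≠ 0} = Fintype.card F ^ n - 1 := by
          rw [← Nat.card_eq_fintype_card]
          exact hne0
        rw [Nat.card_sigma, Finset.sum_congr rfl (fun u _ => hline u.1 u.2), Finset.sum_const,
          Finset.card_univ, smul_eq_mul, hne0']
    _ ≤ _ := Nat.card_le_card_of_injective f hf

end Cfsg.Agent.Lib.Helper18.LS
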