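import Mathlib
import Cfsg.Agent.Lib.Helper18.LSDefs
import Cfsg.Agent.Lib.Helper18.WRDefs

/-!
# Project WR (helper18, S2347), piece WPAR: the parity operator and the Weyl operators
-/

set_option autoImplicit false

namespace Cfsg.Agent.Lib.Helper18.WR

open Matrix

universe u

variable {F : Type u} [Field F] {n : ℕ}

-- piece WPAR
theorem par_mul_W (ψ : AddChar F ℂ) (v : Fin n ⊕ Fin n → F) :
    par * W ψ v = W ψ (-v) * par := by
  apply LinearMap.ext
  intro f
  funext x
  rw [Module.End.mul_apply, Module.End.mul_apply, par_apply, W_apply, W_apply, par_apply]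
  have h1 : ((-v) ∘ Sum.inr : Fin n → F) = -(v ∘ Sum.inr) := rfl
  have h2 : ((-v) ∘ Sum.inl : Fin n → F) = -(v ∘ Sum.inl) := rfl
  simp only [h1, h2, neg_dotProduct, dotProduct_neg, neg_neg, neg_add]

-- piece WPAR
theorem par_mul_par : (par : Module.End ℂ ((Fin n → F) → ℂ)) * par = 1 := by
  apply LinearMap.ext
  intro f
  funext x
  rw [Module.End.mul_apply, par_apply, par_apply, neg_neg, Module.End.one_apply]

end Cfsg.Agent.Lib.Helper18.WR
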