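import Mathlib
import Cfsg.Agent.Lib.Helper49.Sp4Base

/-!
# S2460 piece GL2 (helper60): non-scalar `2 × 2` matrices with equal trace and determinant are
conjugate

A non-scalar `A` has a cyclic vector `v`; with `P = [v | A v]` one has `A P = P C` for the
companion matrix `C` of the characteristic polynomial.
-/

set_option autoImplicit false
set_option linter.unusedSimpArgs false

namespace Cfsg.Agent.Lib.Helper60.Sp4T

open Matrix
open Cfsg.Agent.Lib.Helper49.Sp4T

variable {F : Type*} [Field F]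

/-- a non-scalar matrix is conjugate to the companion matrix of its characteristic polynomial -/
theorem gl2_conj_cyclic (A : M2 F) (hA : ∀ c : F, A ≠ c • (1 : M2 F)) :
    ∃ P : M2 F, P.det ≠ 0 ∧ A * P = P * !![0, -A.det; 1, A.trace] := by
  by_cases hc : A 1 0 = 0
  · by_cases hb : A 0 1 = 0
    · have had : A 1 1 - A 0 0 ≠ 0 := by
        intro h
        apply hA (A 0 0)
        ext i j
        fin_cases i <;> fin_cases j
        · simp
        · simp [hb]
        · simp [hc]
        · simp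
          linear_combination h
      refine ⟨!![1, A 0 0 + A 0 1; 1, A 1 0 + A 1 1], ?_, ?_⟩
      · rw [Matrix.det_fin_two_of, hb, hc]
        intro h
        apply had
        linear_combination h
      · ext i j
        fin_cases i <;> fin_cases j <;>
          simp [Matrix.mul_apply, Fin.sum_univ_two, Matrix.det_fin_two, Matrix.trace_fin_two] <;>
          ring
    · refine ⟨!![0, A 0 1; 1, A 1 1], ?_, ?_⟩
      · rw [Matrix.det_fin_two_of]
        intro h
        apply hb
        linear_combination -h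
      · ext i j
        fin_cases i <;> fin_cases j <;>
          simp [Matrix.mul_apply, Fin.sum_univ_two, Matrix.det_fin_two, Matrix.trace_fin_two] <;>
          ring
  · refine ⟨!![1, A 0 0; 0, A 1 0], ?_, ?_⟩
    · rw [Matrix.det_fin_two_of]
      intro h
      apply hc
      linear_combination h
    · ext i j
      fin_cases i <;> fin_cases j <;>
        simp [Matrix.mul_apply, Fin.sum_univ_two, Matrix.det_fin_two, Matrix.trace_fin_two] <;>
        ring

/-- PIECE GL2 -/
theorem gl2_conj (A A0 : M2 F) (htr : A.trace = A0.trace) (hdet : A.det = A0.det)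
    (hA : ∀ c : F, A ≠ c • (1 : M2 F)) (hA0 : ∀ c : F, A0 ≠ c • (1 : M2 F)) :
    ∃ B : M2 F, IsUnit B.det ∧ B * A = A0 * B := by
  obtain ⟨P, hPdet, hP⟩ := gl2_conj_cyclic A hA
  obtain ⟨P0, hP0det, hP0⟩ := gl2_conj_cyclic A0 hA0
  rw [← htr, ← hdet] at hP0
  set C : M2 F := !![0, -A.det; 1, A.trace] with hC
  have hPu : IsUnit P.det := isUnit_iff_ne_zero.2 hPdet
  have hP0u : IsUnit P0.det := isUnit_iff_ne_zero.2 hP0det
  have h1 : P⁻¹ * P = 1 := Matrix.nonsing_inv_mul P hPu
  have h2 : P * P⁻¹ = 1 := Matrix.mul_nonsing_inv P hPu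
  have h3 : P⁻¹ * A = C * P⁻¹ := by
    calc P⁻¹ * A = P⁻¹ * A * (P * P⁻¹) := by rw [h2, Matrix.mul_one]
      _ = P⁻¹ * (A * P) * P⁻¹ := by simp only [Matrix.mul_assoc]
      _ = P⁻¹ * (P * C) * P⁻¹ := by rw [hP]
      _ = (P⁻¹ * P) * C * P⁻¹ := by simp only [Matrix.mul_assoc]
      _ = C * P⁻¹ := by rw [h1, Matrix.one_mul]
  refine ⟨P0 * P⁻¹, ?_, ?_⟩
  · rw [Matrix.det_mul]
    refine IsUnit.mul hP0u ?_
    rw [Matrix.det_nonsing_inv, Ring.inverse_eq_inv']
    exact isUnit_iff_ne_zero.2 (inv_ne_zero hPdet)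
  · calc P0 * P⁻¹ * A = P0 * (P⁻¹ * A) := by rw [Matrix.mul_assoc]
      _ = P0 * (C * P⁻¹) := by rw [h3]
      _ = (P0 * C) * P⁻¹ := by rw [Matrix.mul_assoc]
      _ = (A0 * P0) * P⁻¹ := by rw [hP0]
      _ = A0 * (P0 * P⁻¹) := by rw [Matrix.mul_assoc]

end Cfsg.Agent.Lib.Helper60.Sp4T
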