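import Mathlib
import Cfsg.Agent.Lib.Helper49.Sp4Base

/-!
# S2460 piece B (helper60): `h = g + g⁻¹` with two distinct eigenvalues

`V = V₁ ⊕ V₂` (eigenspaces of `h`), orthogonal, both nondegenerate and `g`-invariant.  On each
`V_i` either some nonzero vector is not a `g`-eigenvector, or `g = ±1` there.
-/

set_option autoImplicit false
set_option linter.style.haveILetI false
set_option linter.unusedSectionVars false
set_option linter.unusedVariables false

namespace Cfsg.Agent.Lib.Helper60.Sp4T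

open Cfsg.Agent.Lib.Helper49.Sp4T

variable {F : Type*} [Field F] {V : Type*} [AddCommGroup V] [Module F V]
  (ω : LinearMap.BilinForm F V) (g : V ≃ₗ[F] V)

theorem tame_B_hh_sub (v w : V) : hh g (v - w) = hh g v - hh g w := by
  unfold hh
  rw [map_sub, map_sub]
  abel

/-- on an eigenspace of `h` which is nonzero and nondegenerate: some nonzero vector is not a
`g`-eigenvector, or `g = 1`, or `g = -1` there -/
theorem tame_B_tri (hg : Isom ω g) (μ : F) (hne : ∃ v, hh g v = μ • v ∧ v ≠ 0)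
    (hnd : ∀ x, hh g x = μ • x → x ≠ 0 → ∃ y, hh g y = μ • y ∧ ω x y ≠ 0) :
    (∀ ε : F, ∃ v, hh g v = μ • v ∧ v ≠ 0 ∧ (g v ∈ Submodule.span F {v} → g v = ε • v)) ∨
    (∀ v, hh g v = μ • v → g v = (1 : F) • v) ∨ (∀ v, hh g v = μ • v → g v = (-1 : F) • v) := by
  by_cases hE : ∀ v, hh g v = μ • v → v ≠ 0 → g v ∈ Submodule.span F {v}
  · right
    obtain ⟨u0, hu0, hu0ne⟩ := hne
    obtain ⟨lam, hlam⟩ := Submodule.mem_span_singleton.1 (hE u0 hu0 hu0ne)
    have hall : ∀ w, hh g w = μ • w → g w = lam • w := by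
      intro w hw
      by_cases hw0 : w = 0
      · rw [hw0, map_zero, smul_zero]
      obtain ⟨β, hβ⟩ := Submodule.mem_span_singleton.1 (hE w hw hw0)
      by_cases hmem : w ∈ Submodule.span F {u0}
      · obtain ⟨c, rfl⟩ := Submodule.mem_span_singleton.1 hmem
        rw [map_smul, ← hlam, smul_comm]
      · have huw : u0 + w ≠ 0 := by
          intro h
          apply hmem
          rw [Submodule.mem_span_singleton]
          refine ⟨-1, ?_⟩
          rw [neg_one_smul]
          exact (eq_neg_of_add_eq_zero_right h).symm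
        have huwV : hh g (u0 + w) = μ • (u0 + w) := by
          rw [hh_add, hu0, hw, smul_add]
        obtain ⟨γ, hγ⟩ := Submodule.mem_span_singleton.1 (hE _ huwV huw)
        have e : (lam - γ) • u0 + (β - γ) • w = 0 := by
          have h1 : g (u0 + w) = g u0 + g w := map_add _ _ _
          rw [← hγ, ← hlam, ← hβ] at h1
          linear_combination (norm := module) -h1
        by_cases hβγ : β = γ
        · have h2 : (lam - γ) • u0 = 0 := by
            rw [hβγ, sub_self, zero_smul, add_zero] at e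
            exact e
          have h3 : lam = γ := by
            rcases smul_eq_zero.1 h2 with h | h
            · exact sub_eq_zero.1 h
            · exact absurd h hu0ne
          rw [← hβ, hβγ, h3]
        · exfalso
          apply hmem
          rw [Submodule.mem_span_singleton]
          refine ⟨-(β - γ)⁻¹ * (lam - γ), ?_⟩
          have hne' : β - γ ≠ 0 := sub_ne_zero.2 hβγ
          have h4 : (β - γ)⁻¹ • ((lam - γ) • u0 + (β - γ) • w) = 0 := by
            rw [e, smul_zero]
          rw [smul_add, smul_smul, smul_smul, inv_mul_cancel₀ hne', one_smul] at h4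
          linear_combination (norm := module) -h4
    obtain ⟨y, hy, hxy⟩ := hnd u0 hu0 hu0ne
    have hlam2 : lam * lam = 1 := by
      have h1 := hg u0 y
      rw [← hlam, hall y hy, map_smul, map_smul, LinearMap.smul_apply, smul_eq_mul,
        smul_eq_mul] at h1
      have h2 : (lam * lam - 1) * ω u0 y = 0 := by linear_combination h1
      rcases mul_eq_zero.1 h2 with h | h
      · linear_combination h
      · exact absurd h hxy
    have hcase : lam = 1 ∨ lam = -1 := by
      have h1 : (lam - 1) * (lam + 1) = 0 := by linear_combination hlam2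
      rcases mul_eq_zero.1 h1 with h | h
      · left
        linear_combination h
      · right
        linear_combination h
    rcases hcase with h | h
    · left
      intro v hv
      rw [hall v hv, h]
    · right
      intro v hv
      rw [hall v hv, h]
  · left
    push Not at hE
    obtain ⟨v, hv, hv0, hnot⟩ := hE
    intro ε
    exact ⟨v, hv, hv0, fun h => absurd h hnot⟩

/-- eigenvectors of `h` for distinct eigenvalues with the eigenvector property span a tame plane -/
theorem tame_B_K (hω : Symp ω) (hg : Isom ω g) (μ1 μ2 : F) (hne : μ1 ≠ μ2) (ε : F) (v1 v2 : V)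
    (h1 : hh g v1 = μ1 • v1) (h2 : hh g v2 = μ2 • v2) (hv1 : v1 ≠ 0) (hv2 : v2 ≠ 0)
    (hp1 : g v1 ∈ Submodule.span F {v1} → g v1 = ε • v1)
    (hp2 : g v2 ∈ Submodule.span F {v2} → g v2 = ε • v2) : TameE ω g ε := by
  have hd : μ1 - μ2 ≠ 0 := sub_ne_zero.2 hne
  have horth : ω v1 v2 = 0 := by
    have e := hg.hh_adj v1 v2
    rw [h1, h2, map_smul, map_smul, LinearMap.smul_apply, smul_eq_mul, smul_eq_mul] at e
    have e2 : (μ1 - μ2) * ω v1 v2 = 0 := by linear_combination e
    rcases mul_eq_zero.1 e2 with h | h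
    · exact absurd h hd
    · exact h
  refine ⟨v1, v2, ?_, horth, ?_, ?_⟩
  · rw [LinearIndependent.pair_iff]
    intro s t hst
    have e1 : hh g (s • v1 + t • v2) = 0 := by
      rw [hst]
      unfold hh
      rw [map_zero, map_zero, add_zero]
    rw [hh_add, hh_smul, hh_smul, h1, h2] at e1
    have e2 : (s * (μ1 - μ2)) • v1 = 0 := by
      linear_combination (norm := module) e1 - μ2 • hst
    have hs : s = 0 := by
      rcases smul_eq_zero.1 e2 with h | h
      · rcases mul_eq_zero.1 h with h' | h'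
        · exact h'
        · exact absurd h' hd
      · exact absurd h hv1
    refine ⟨hs, ?_⟩
    rw [hs, zero_smul, zero_add] at hst
    rcases smul_eq_zero.1 hst with h | h
    · exact h
    · exact absurd h hv2
  · rw [← hg.hh_left, h1, map_smul, LinearMap.smul_apply, horth, smul_zero]
  · intro a b hmem
    obtain ⟨a', b', hab⟩ := Submodule.mem_span_pair.1 hmem
    rw [map_add, map_smul, map_smul] at hab ⊢
    -- the `V₁`-component of the difference
    set d : V := a • g v1 - a' • v1 with hd_def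
    have hd2 : d = b' • v2 - b • g v2 := by
      rw [hd_def]
      linear_combination (norm := module) -hab
    have hgv1 : hh g (g v1) = μ1 • g v1 := by rw [hh_comm, h1, map_smul]
    have hgv2 : hh g (g v2) = μ2 • g v2 := by rw [hh_comm, h2, map_smul]
    have hd1 : hh g d = μ1 • d := by
      rw [hd_def, tame_B_hh_sub, hh_smul, hh_smul, hgv1, h1]
      module
    have hd3 : hh g d = μ2 • d := by
      rw [hd2, tame_B_hh_sub, hh_smul, hh_smul, hgv2, h2]
      module
    have hd0 : d = 0 := by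
      have e : (μ1 - μ2) • d = 0 := by
        rw [sub_smul, ← hd1, ← hd3, sub_self]
      rcases smul_eq_zero.1 e with h | h
      · exact absurd h hd
      · exact h
    have ea : a • g v1 = a' • v1 := by
      rw [hd_def] at hd0
      exact sub_eq_zero.1 hd0
    have eb : b • g v2 = b' • v2 := by
      rw [hd0] at hd2
      exact (sub_eq_zero.1 hd2.symm).symm
    have ea' : a • g v1 = ε • a • v1 := by
      by_cases ha : a = 0
      · rw [ha, zero_smul, zero_smul, smul_zero]
      · have hm : g v1 ∈ Submodule.span F {v1} := by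
          rw [Submodule.mem_span_singleton]
          refine ⟨a⁻¹ * a', ?_⟩
          rw [mul_smul, ← ea, smul_smul, inv_mul_cancel₀ ha, one_smul]
        rw [hp1 hm, smul_comm]
    have eb' : b • g v2 = ε • b • v2 := by
      by_cases hb : b = 0
      · rw [hb, zero_smul, zero_smul, smul_zero]
      · have hm : g v2 ∈ Submodule.span F {v2} := by
          rw [Submodule.mem_span_singleton]
          refine ⟨b⁻¹ * b', ?_⟩
          rw [mul_smul, ← eb, smul_smul, inv_mul_cancel₀ hb, one_smul]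
        rw [hp2 hm, smul_comm]
    rw [ea', eb', smul_add]

/-- PIECE B -/
theorem tame_B (hω : Symp ω) (hg : Isom ω g) (μ1 μ2 : F) (hne : μ1 ≠ μ2)
    (hB : ∀ v, hh g (hh g v) = (μ1 + μ2) • hh g v - (μ1 * μ2) • v)
    (hns1 : ∃ v, hh g v ≠ μ1 • v) (hns2 : ∃ v, hh g v ≠ μ2 • v) :
    TameE ω g 1 ∨ TameE ω g (-1) ∨ ((2 : F) ≠ 0 ∧ ∀ v, g (g v) = v) := by
  have hd : μ1 - μ2 ≠ 0 := sub_ne_zero.2 hne
  have hd' : μ2 - μ1 ≠ 0 := sub_ne_zero.2 (Ne.symm hne)
  have hq1 : ∀ z, hh g (hh g z - μ2 • z) = μ1 • (hh g z - μ2 • z) := by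
    intro z
    rw [tame_B_hh_sub, hh_smul, hB z]
    module
  have hq2 : ∀ z, hh g (hh g z - μ1 • z) = μ2 • (hh g z - μ1 • z) := by
    intro z
    rw [tame_B_hh_sub, hh_smul, hB z]
    module
  have hdec : ∀ z : V,
      z = (μ1 - μ2)⁻¹ • ((hh g z - μ2 • z) - (hh g z - μ1 • z)) := by
    intro z
    have e : (hh g z - μ2 • z) - (hh g z - μ1 • z) = (μ1 - μ2) • z := by module
    rw [e, smul_smul, inv_mul_cancel₀ hd, one_smul]
  obtain ⟨z2, hz2⟩ := hns2
  obtain ⟨z1, hz1⟩ := hns1
  have hne1 : ∃ v, hh g v = μ1 • v ∧ v ≠ 0 := ⟨_, hq1 z2, sub_ne_zero.2 hz2⟩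
  have hne2 : ∃ v, hh g v = μ2 • v ∧ v ≠ 0 := ⟨_, hq2 z1, sub_ne_zero.2 hz1⟩
  have hnd1 : ∀ x, hh g x = μ1 • x → x ≠ 0 → ∃ y, hh g y = μ1 • y ∧ ω x y ≠ 0 := by
    intro x hx hx0
    have hz : ∃ z, ω x z ≠ 0 := by
      by_contra hcon
      push Not at hcon
      exact hx0 (hω.nondeg x hcon)
    obtain ⟨z, hz⟩ := hz
    refine ⟨hh g z - μ2 • z, hq1 z, ?_⟩
    rw [map_sub, map_smul, ← hg.hh_adj, hx, map_smul, LinearMap.smul_apply, smul_eq_mul,
      smul_eq_mul, ← sub_mul]
    exact mul_ne_zero hd hz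
  have hnd2 : ∀ x, hh g x = μ2 • x → x ≠ 0 → ∃ y, hh g y = μ2 • y ∧ ω x y ≠ 0 := by
    intro x hx hx0
    have hz : ∃ z, ω x z ≠ 0 := by
      by_contra hcon
      push Not at hcon
      exact hx0 (hω.nondeg x hcon)
    obtain ⟨z, hz⟩ := hz
    refine ⟨hh g z - μ1 • z, hq2 z, ?_⟩
    rw [map_sub, map_smul, ← hg.hh_adj, hx, map_smul, LinearMap.smul_apply, smul_eq_mul,
      smul_eq_mul, ← sub_mul]
    exact mul_ne_zero hd' hz
  have T1 := tame_B_tri ω g hg μ1 hne1 hnd1
  have T2 := tame_B_tri ω g hg μ2 hne2 hnd2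
  have K : ∀ ε : F,
      (∃ v, hh g v = μ1 • v ∧ v ≠ 0 ∧ (g v ∈ Submodule.span F {v} → g v = ε • v)) →
      (∃ v, hh g v = μ2 • v ∧ v ≠ 0 ∧ (g v ∈ Submodule.span F {v} → g v = ε • v)) →
      TameE ω g ε := by
    rintro ε ⟨v1, h1, hv1, hp1⟩ ⟨v2, h2, hv2, hp2⟩
    exact tame_B_K ω g hω hg μ1 μ2 hne ε v1 v2 h1 h2 hv1 hv2 hp1 hp2
  have SP1 : ∀ ε : F, (∀ v, hh g v = μ1 • v → g v = ε • v) →
      ∃ v, hh g v = μ1 • v ∧ v ≠ 0 ∧ (g v ∈ Submodule.span F {v} → g v = ε • v) := by
    intro ε hS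
    obtain ⟨v, hv, hv0⟩ := hne1
    exact ⟨v, hv, hv0, fun _ => hS v hv⟩
  have SP2 : ∀ ε : F, (∀ v, hh g v = μ2 • v → g v = ε • v) →
      ∃ v, hh g v = μ2 • v ∧ v ≠ 0 ∧ (g v ∈ Submodule.span F {v} → g v = ε • v) := by
    intro ε hS
    obtain ⟨v, hv, hv0⟩ := hne2
    exact ⟨v, hv, hv0, fun _ => hS v hv⟩
  -- `g² = 1` when `g = ε₁` on `V₁` and `g = ε₂` on `V₂`
  have mixed : ∀ ε1 ε2 : F, ε1 * ε1 = 1 → ε2 * ε2 = 1 →
      (∀ v, hh g v = μ1 • v → g v = ε1 • v) → (∀ v, hh g v = μ2 • v → g v = ε2 • v) →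
      ∀ v, g (g v) = v := by
    intro ε1 ε2 hε1 hε2 hS1 hS2 v
    have e1 : g (g (hh g v - μ2 • v)) = hh g v - μ2 • v := by
      rw [hS1 _ (hq1 v), map_smul, hS1 _ (hq1 v), smul_smul, hε1, one_smul]
    have e2 : g (g (hh g v - μ1 • v)) = hh g v - μ1 • v := by
      rw [hS2 _ (hq2 v), map_smul, hS2 _ (hq2 v), smul_smul, hε2, one_smul]
    have e3 : g (g ((μ1 - μ2)⁻¹ • ((hh g v - μ2 • v) - (hh g v - μ1 • v)))) =
        (μ1 - μ2)⁻¹ • ((hh g v - μ2 • v) - (hh g v - μ1 • v)) := by
      rw [map_smul, map_smul, map_sub, map_sub, e1, e2]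
    rw [← hdec v] at e3
    exact e3
  rcases T1 with hP1 | hS1 | hS1
  · rcases T2 with hP2 | hS2 | hS2
    · left
      exact K 1 (hP1 1) (hP2 1)
    · left
      exact K 1 (hP1 1) (SP2 1 hS2)
    · right
      left
      exact K (-1) (hP1 (-1)) (SP2 (-1) hS2)
  · rcases T2 with hP2 | hS2 | hS2
    · left
      exact K 1 (SP1 1 hS1) (hP2 1)
    · left
      exact K 1 (SP1 1 hS1) (SP2 1 hS2)
    · by_cases h2 : (2 : F) = 0
      · have h11 : (-1 : F) = 1 := by linear_combination -h2
        rw [h11] at hS2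
        left
        exact K 1 (SP1 1 hS1) (SP2 1 hS2)
      · right
        right
        exact ⟨h2, mixed 1 (-1) (by ring) (by ring) hS1 hS2⟩
  · rcases T2 with hP2 | hS2 | hS2
    · right
      left
      exact K (-1) (SP1 (-1) hS1) (hP2 (-1))
    · by_cases h2 : (2 : F) = 0
      · have h11 : (-1 : F) = 1 := by linear_combination -h2
        rw [h11] at hS1
        left
        exact K 1 (SP1 1 hS1) (SP2 1 hS2)
      · right
        right
        exact ⟨h2, mixed (-1) 1 (by ring) (by ring) hS1 hS2⟩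
    · right
      left
      exact K (-1) (SP1 (-1) hS1) (SP2 (-1) hS2)

end Cfsg.Agent.Lib.Helper60.Sp4T
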