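import Mathlib
import Cfsg.Agent.Lib.Helper49.Sp4Base

/-!
# S2460 piece D2 (helper60): `(g - a)(g - a⁻¹) = 0` with `a² ≠ 1`

The two eigenspaces `V_a`, `V_b` (`b = a⁻¹`) are totally isotropic and in duality.  Two
hyperbolic pairs `(x₁, y₁)`, `(x₂, y₂)` with `x_i ∈ V_a`, `y_i ∈ V_b` give the tame Lagrangian
`⟨x₁ + y₁, x₂ + y₂⟩`.
-/

set_option autoImplicit false
set_option linter.style.haveILetI false
set_option linter.unusedSectionVars false
set_option linter.unusedVariables false

namespace Cfsg.Agent.Lib.Helper60.Sp4T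

open Cfsg.Agent.Lib.Helper49.Sp4T

variable {F : Type*} [Field F] {V : Type*} [AddCommGroup V] [Module F V]
  (ω : LinearMap.BilinForm F V) (g : V ≃ₗ[F] V)

theorem tame_D2_eig (a b : F) (hrel : ∀ v, g (g v) = (a + b) • g v - (a * b) • v) (v : V) :
    g (g v - b • v) = a • (g v - b • v) := by
  rw [map_sub, map_smul, hrel]
  module

theorem tame_D2_eig' (a b : F) (hrel : ∀ v, g (g v) = (a + b) • g v - (a * b) • v) (v : V) :
    g (g v - a • v) = b • (g v - a • v) := by
  rw [map_sub, map_smul, hrel]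
  module

theorem tame_D2_iso (hg : Isom ω g) (a : F) (ha2 : a * a ≠ 1) {x x' : V} (hx : g x = a • x)
    (hx' : g x' = a • x') : ω x x' = 0 := by
  have h := hg x x'
  rw [hx, hx', map_smul, map_smul, LinearMap.smul_apply, smul_eq_mul, smul_eq_mul] at h
  have h2 : (a * a - 1) * ω x x' = 0 := by linear_combination h
  rcases mul_eq_zero.1 h2 with h3 | h3
  · exact absurd h3 (sub_ne_zero.2 ha2)
  · exact h3

theorem tame_D2_partner (hω : Symp ω) (hg : Isom ω g) (a b : F) (hab : a ≠ b)
    (hrel : ∀ v, g (g v) = (a + b) • g v - (a * b) • v) (ha2 : a * a ≠ 1) {u : V}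
    (hu : g u = a • u) (hu0 : u ≠ 0) : ∃ w, g w = b • w ∧ ω u w ≠ 0 := by
  have hz : ∃ z, ω u z ≠ 0 := by
    by_contra hcon
    push Not at hcon
    exact hu0 (hω.nondeg u hcon)
  obtain ⟨z, hz⟩ := hz
  refine ⟨g z - a • z, tame_D2_eig' g a b hrel z, ?_⟩
  have iso := tame_D2_iso ω g hg a ha2 hu (tame_D2_eig g a b hrel z)
  rw [map_sub, map_smul, smul_eq_mul] at iso ⊢
  have e : ω u (g z) - a * ω u z = -((a - b) * ω u z) := by linear_combination iso
  rw [e]
  exact neg_ne_zero.2 (mul_ne_zero (sub_ne_zero.2 hab) hz)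

theorem tame_D2_second (hω : Symp ω) (hg : Isom ω g) (a b : F) (hab : a ≠ b)
    (hrel : ∀ v, g (g v) = (a + b) • g v - (a * b) • v) (ha2 : a * a ≠ 1) {x1 y1 u : V}
    (hy1 : g y1 = b • y1) (hc : ω x1 y1 ≠ 0) (hu : g u = a • u)
    (hu0 : u ≠ 0) (huy : ω u y1 = 0) : ∃ w, g w = b • w ∧ ω w x1 = 0 ∧ ω u w ≠ 0 := by
  obtain ⟨w0, hw0, huw0⟩ := tame_D2_partner ω g hω hg a b hab hrel ha2 hu hu0
  have hc' : ω y1 x1 ≠ 0 := by
    rw [hω.swap y1 x1]
    exact neg_ne_zero.2 hc
  refine ⟨w0 - (ω w0 x1 / ω y1 x1) • y1, ?_, ?_, ?_⟩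
  · rw [map_sub, map_smul, hw0, hy1]
    module
  · rw [map_sub, map_smul, LinearMap.sub_apply, LinearMap.smul_apply, smul_eq_mul]
    field_simp
    ring
  · rw [map_sub, map_smul, huy, smul_zero, sub_zero]
    exact huw0

theorem tame_D2_first (hω : Symp ω) (hg : Isom ω g) (a b : F) (hab : a ≠ b)
    (hrel : ∀ v, g (g v) = (a + b) • g v - (a * b) • v) (ha2 : a * a ≠ 1) (hb2 : b * b ≠ 1) :
    ∃ x1 y1 : V, g x1 = a • x1 ∧ g y1 = b • y1 ∧ ω x1 y1 ≠ 0 := by
  have hrel' : ∀ v, g (g v) = (b + a) • g v - (b * a) • v := by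
    intro v
    rw [add_comm, mul_comm]
    exact hrel v
  have hv : ∃ v : V, v ≠ 0 := by
    by_contra hcon
    push Not at hcon
    haveI : Subsingleton V := ⟨fun x y => by rw [hcon x, hcon y]⟩
    have h4 := hω.dim
    rw [Module.finrank_zero_of_subsingleton] at h4
    omega
  obtain ⟨v, hv⟩ := hv
  by_cases h : g v - b • v = 0
  · have h' : g v - a • v ≠ 0 := by
      intro h'
      have e : (a - b) • v = 0 := by
        linear_combination (norm := module) h - h'
      rcases smul_eq_zero.1 e with h3 | h3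
      · exact sub_ne_zero.2 hab h3
      · exact hv h3
    obtain ⟨x1, hx1, hx1y⟩ := tame_D2_partner ω g hω hg b a (Ne.symm hab) hrel' hb2
      (tame_D2_eig' g a b hrel v) h'
    refine ⟨x1, g v - a • v, hx1, tame_D2_eig' g a b hrel v, ?_⟩
    rw [hω.swap]
    exact neg_ne_zero.2 hx1y
  · obtain ⟨y1, hy1, hxy1⟩ := tame_D2_partner ω g hω hg a b hab hrel ha2
      (tame_D2_eig g a b hrel v) h
    exact ⟨g v - b • v, y1, tame_D2_eig g a b hrel v, hy1, hxy1⟩

theorem tame_D2_frame (hω : Symp ω) (hg : Isom ω g) (a b : F) (hab : a ≠ b)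
    (hrel : ∀ v, g (g v) = (a + b) • g v - (a * b) • v) (ha2 : a * a ≠ 1) (hb2 : b * b ≠ 1) :
    ∃ x1 y1 x2 y2 : V, g x1 = a • x1 ∧ g y1 = b • y1 ∧ g x2 = a • x2 ∧ g y2 = b • y2 ∧
      ω x1 y1 ≠ 0 ∧ ω x2 y2 ≠ 0 ∧ ω x2 y1 = 0 ∧ ω y2 x1 = 0 := by
  have hrel' : ∀ v, g (g v) = (b + a) • g v - (b * a) • v := by
    intro v
    rw [add_comm, mul_comm]
    exact hrel v
  obtain ⟨x1, y1, hx1, hy1, hc⟩ := tame_D2_first ω g hω hg a b hab hrel ha2 hb2
  have hc' : ω y1 x1 ≠ 0 := by
    rw [hω.swap y1 x1]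
    exact neg_ne_zero.2 hc
  have hv : ∃ v, v ∉ Submodule.span F {x1, y1} := by
    by_contra hcon
    push Not at hcon
    have htop : Submodule.span F {x1, y1} = ⊤ := Submodule.eq_top_iff'.2 hcon
    have h1 : Module.finrank F (Submodule.span F ({x1, y1} : Set V)) ≤ 2 := by
      classical
      have h2 := finrank_span_finset_le_card (R := F) ({x1, y1} : Finset V)
      rw [Finset.coe_pair] at h2
      exact h2.trans Finset.card_le_two
    rw [htop, finrank_top, hω.dim] at h1
    omega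
  obtain ⟨v, hv⟩ := hv
  set x2' : V := (g v - b • v) - (ω (g v - b • v) y1 / ω x1 y1) • x1 with hx2'
  set y2' : V := (g v - a • v) - (ω (g v - a • v) x1 / ω y1 x1) • y1 with hy2'
  have hgx2 : g x2' = a • x2' := by
    rw [hx2', map_sub, map_smul, tame_D2_eig g a b hrel v, hx1]
    module
  have hgy2 : g y2' = b • y2' := by
    rw [hy2', map_sub, map_smul, tame_D2_eig' g a b hrel v, hy1]
    module
  have hx2y1 : ω x2' y1 = 0 := by
    rw [hx2', map_sub, map_smul, LinearMap.sub_apply, LinearMap.smul_apply, smul_eq_mul]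
    field_simp
    ring
  have hy2x1 : ω y2' x1 = 0 := by
    rw [hy2', map_sub, map_smul, LinearMap.sub_apply, LinearMap.smul_apply, smul_eq_mul]
    field_simp
    ring
  by_cases hx2 : x2' = 0
  · have hy2 : y2' ≠ 0 := by
      intro hy2
      apply hv
      have e : (a - b) • v = (ω (g v - b • v) y1 / ω x1 y1) • x1
          - (ω (g v - a • v) x1 / ω y1 x1) • y1 := by
        have e1 : x2' - y2' = 0 := by rw [hx2, hy2, sub_zero]
        rw [hx2', hy2'] at e1
        linear_combination (norm := module) e1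
      have e2 : v = (a - b)⁻¹ • ((a - b) • v) := by
        rw [smul_smul, inv_mul_cancel₀ (sub_ne_zero.2 hab), one_smul]
      rw [e2, e]
      apply Submodule.smul_mem
      apply Submodule.sub_mem
      · exact Submodule.smul_mem _ _ (Submodule.subset_span (by simp))
      · exact Submodule.smul_mem _ _ (Submodule.subset_span (by simp))
    obtain ⟨w, hw, hwy1, hyw⟩ := tame_D2_second ω g hω hg b a (Ne.symm hab) hrel' hb2
      (x1 := y1) (y1 := x1) (u := y2') hx1 hc' hgy2 hy2 hy2x1
    refine ⟨x1, y1, w, y2', hx1, hy1, hw, hgy2, hc, ?_, hwy1, hy2x1⟩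
    rw [hω.swap]
    exact neg_ne_zero.2 hyw
  · obtain ⟨w, hw, hwx1, hxw⟩ := tame_D2_second ω g hω hg a b hab hrel ha2
      (x1 := x1) (y1 := y1) (u := x2') hy1 hc hgx2 hx2 hx2y1
    exact ⟨x1, y1, x2', w, hx1, hy1, hgx2, hw, hc, hxw, hx2y1, hwx1⟩

/-- PIECE D2 -/
theorem tame_D2 (hω : Symp ω) (hg : Isom ω g) (μ a : F) (hD : ∀ v, hh g v = μ • v)
    (ha : a * a - μ * a + 1 = 0) (ha2 : a * a ≠ 1) : TameE ω g 1 := by
  set b : F := μ - a with hb
  have hab1 : a * b = 1 := by
    rw [hb]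
    linear_combination -ha
  have hsum : a + b = μ := by
    rw [hb]
    ring
  have hab : a ≠ b := by
    intro h
    apply ha2
    rw [← hab1, ← h]
  have hb2 : b * b ≠ 1 := by
    intro h
    apply ha2
    have e : (a * b) * (a * b) = 1 := by rw [hab1, one_mul]
    have e2 : a * a * (b * b) = 1 := by linear_combination e
    rw [h, mul_one] at e2
    exact e2
  have hrel : ∀ v, g (g v) = (a + b) • g v - (a * b) • v := by
    intro v
    have h := hD (g v)
    unfold hh at h
    rw [LinearEquiv.symm_apply_apply] at h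
    rw [hsum, hab1, one_smul, ← h]
    abel
  obtain ⟨x1, y1, x2, y2, hx1, hy1, hx2, hy2, hc1, hc2, hx2y1, hy2x1⟩ :=
    tame_D2_frame ω g hω hg a b hab hrel ha2 hb2
  have hx1x2 : ω x1 x2 = 0 := tame_D2_iso ω g hg a ha2 hx1 hx2
  have hx2x1 : ω x2 x1 = 0 := tame_D2_iso ω g hg a ha2 hx2 hx1
  have hy1y2 : ω y1 y2 = 0 := tame_D2_iso ω g hg b hb2 hy1 hy2
  have hy2y1 : ω y2 y1 = 0 := tame_D2_iso ω g hg b hb2 hy2 hy1
  have hx1y2 : ω x1 y2 = 0 := by rw [hω.swap, hy2x1, neg_zero]
  have hy1x2 : ω y1 x2 = 0 := by rw [hω.swap, hx2y1, neg_zero]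
  have hy1x1 : ω y1 x1 = -ω x1 y1 := hω.swap y1 x1
  have hy2x2 : ω y2 x2 = -ω x2 y2 := hω.swap y2 x2
  have hdab : a - b ≠ 0 := sub_ne_zero.2 hab
  have horth : ω (x1 + y1) (x2 + y2) = 0 := by
    simp only [map_add, LinearMap.add_apply]
    rw [hx1x2, hx1y2, hy1x2, hy1y2]
    ring
  refine ⟨x1 + y1, x2 + y2, ?_, horth, ?_, ?_⟩
  · rw [LinearIndependent.pair_iff]
    intro s t hst
    have e1 := congrArg (fun z => ω z y1) hst
    have e2 := congrArg (fun z => ω z y2) hst
    simp only [map_add, map_smul, LinearMap.add_apply, LinearMap.smul_apply, smul_eq_mul,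
      map_zero, LinearMap.zero_apply] at e1 e2
    rw [hω.alt y1, hx2y1, hy2y1] at e1
    rw [hω.alt y2, hx1y2, hy1y2] at e2
    constructor
    · have e : s * ω x1 y1 = 0 := by linear_combination e1
      rcases mul_eq_zero.1 e with h | h
      · exact h
      · exact absurd h hc1
    · have e : t * ω x2 y2 = 0 := by linear_combination e2
      rcases mul_eq_zero.1 e with h | h
      · exact h
      · exact absurd h hc2
  · rw [← hg.hh_left, hD, map_smul, LinearMap.smul_apply, horth, smul_zero]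
  · intro α β hmem
    obtain ⟨α', β', hE⟩ := Submodule.mem_span_pair.1 hmem
    rw [map_add, map_smul, map_smul, map_add, map_add, hx1, hy1, hx2, hy2] at hE
    have e1 := congrArg (fun z => ω z y1) hE
    have e2 := congrArg (fun z => ω z y2) hE
    have e3 := congrArg (fun z => ω z x1) hE
    have e4 := congrArg (fun z => ω z x2) hE
    simp only [map_add, map_smul, LinearMap.add_apply, LinearMap.smul_apply, smul_eq_mul]
      at e1 e2 e3 e4
    rw [hω.alt y1, hx2y1, hy2y1] at e1
    rw [hω.alt y2, hx1y2, hy1y2] at e2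
    rw [hω.alt x1, hx2x1, hy2x1, hy1x1] at e3
    rw [hω.alt x2, hx1x2, hy1x2, hy2x2] at e4
    have f1 : α' = a * α := by
      have e : (α' - a * α) * ω x1 y1 = 0 := by linear_combination e1
      rcases mul_eq_zero.1 e with h | h
      · exact sub_eq_zero.1 h
      · exact absurd h hc1
    have f2 : β' = a * β := by
      have e : (β' - a * β) * ω x2 y2 = 0 := by linear_combination e2
      rcases mul_eq_zero.1 e with h | h
      · exact sub_eq_zero.1 h
      · exact absurd h hc2
    have f3 : α' = b * α := by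
      have e : (α' - b * α) * ω x1 y1 = 0 := by linear_combination -e3
      rcases mul_eq_zero.1 e with h | h
      · exact sub_eq_zero.1 h
      · exact absurd h hc1
    have f4 : β' = b * β := by
      have e : (β' - b * β) * ω x2 y2 = 0 := by linear_combination -e4
      rcases mul_eq_zero.1 e with h | h
      · exact sub_eq_zero.1 h
      · exact absurd h hc2
    have hα : α = 0 := by
      have e : (a - b) * α = 0 := by linear_combination f3 - f1
      rcases mul_eq_zero.1 e with h | h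
      · exact absurd h hdab
      · exact h
    have hβ : β = 0 := by
      have e : (a - b) * β = 0 := by linear_combination f4 - f2
      rcases mul_eq_zero.1 e with h | h
      · exact absurd h hdab
      · exact h
    rw [hα, hβ, zero_smul, zero_smul, add_zero, map_zero, smul_zero]

end Cfsg.Agent.Lib.Helper60.Sp4T
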