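import Mathlib
import Cfsg.Agent.Lib.Helper49.Sp4Base

/-!
# S2460 piece GOOD (helper60): companion matrices and scalars preserve no symmetric form
-/

set_option autoImplicit false
set_option linter.unusedSimpArgs false

namespace Cfsg.Agent.Lib.Helper60.Sp4T

open Matrix
open Cfsg.Agent.Lib.Helper49.Sp4T

variable {F : Type*} [Field F]

theorem good_comp_c00 (s n : F) : Cfsg.Agent.Lib.Helper49.Sp4T.comp s n 0 0 = 0 := rfl
theorem good_comp_c01 (s n : F) : Cfsg.Agent.Lib.Helper49.Sp4T.comp s n 0 1 = -n := rfl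
theorem good_comp_c10 (s n : F) : Cfsg.Agent.Lib.Helper49.Sp4T.comp s n 1 0 = 1 := rfl
theorem good_comp_c11 (s n : F) : Cfsg.Agent.Lib.Helper49.Sp4T.comp s n 1 1 = s := rfl

theorem good_zero_of_entries (W : M2 F) (h00 : W 0 0 = 0) (h01 : W 0 1 = 0) (h10 : W 1 0 = 0)
    (h11 : W 1 1 = 0) : W = 0 := by
  ext i j
  fin_cases i <;> fin_cases j
  · exact h00
  · exact h01
  · exact h10
  · exact h11

/-- PIECE GOODC -/
theorem good_comp (s n : F) (hn0 : n ≠ 0) (hn1 : n ≠ 1) (hs1 : 1 + n ≠ s) (hs2 : 1 + n ≠ -s) :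
    Good (Cfsg.Agent.Lib.Helper49.Sp4T.comp s n) := by
  have hfac : (n - 1) * ((n + 1 - s) * (n + 1 + s)) ≠ 0 := by
    refine mul_ne_zero (sub_ne_zero.2 hn1) (mul_ne_zero ?_ ?_)
    · intro h
      apply hs1
      linear_combination h
    · intro h
      apply hs2
      linear_combination h
  have hw2 : ∀ w2 : F, (1 + n) * w2 = 0 → 2 * n * s * w2 = 0 → w2 = 0 := by
    intro w2 h1 h2
    by_cases hn : 1 + n = 0
    · have hs : s ≠ 0 := by
        intro hs
        apply hs1
        rw [hn, hs]
      have h2' : (2 : F) ≠ 0 := by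
        intro h2'
        apply hn1
        linear_combination hn - h2'
      rcases mul_eq_zero.1 h2 with h | h
      · exact absurd h (mul_ne_zero (mul_ne_zero h2' hn0) hs)
      · exact h
    · rcases mul_eq_zero.1 h1 with h | h
      · exact absurd h hn
      · exact h
  refine ⟨?_, ?_, ?_, ?_⟩
  · rw [isUnit_iff_ne_zero, Matrix.det_fin_two, good_comp_c00, good_comp_c01, good_comp_c10,
      good_comp_c11]
    intro h
    apply hn0
    linear_combination h
  · intro W hW h
    have hsym : W 0 1 = W 1 0 := by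
      have := congrFun (congrFun hW 1) 0
      rw [Matrix.transpose_apply] at this
      exact this
    have h00 := congrFun (congrFun h 0) 0
    have h01 := congrFun (congrFun h 0) 1
    have h11 := congrFun (congrFun h 1) 1
    simp only [Matrix.mul_apply, Fin.sum_univ_two, Matrix.transpose_apply, good_comp_c00,
      good_comp_c01, good_comp_c10, good_comp_c11] at h00 h01 h11
    rw [← hsym] at h00 h01 h11
    have e1 : W 0 0 * ((n - 1) * ((n + 1 - s) * (n + 1 + s))) = 0 := by
      linear_combination (1 + n) * h11 - 2 * n * s * h01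
        - ((1 + n) * (s ^ 2 - 1) - 2 * n * s ^ 2) * h00
    have hw1 : W 0 0 = 0 := by
      rcases mul_eq_zero.1 e1 with h | h
      · exact h
      · exact absurd h hfac
    have hw3 : W 1 1 = 0 := by
      linear_combination h00 + hw1
    have hw2a : (1 + n) * W 0 1 = 0 := by
      linear_combination (-1 : F) * h01 + s * hw3
    have hw2b : 2 * n * s * W 0 1 = 0 := by
      linear_combination (-1 : F) * h11 + n ^ 2 * hw1 + (s ^ 2 - 1) * hw3
    have hw2' : W 0 1 = 0 := hw2 _ hw2a hw2b
    exact good_zero_of_entries W hw1 hw2' (by rw [← hsym]; exact hw2') hw3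
  · intro W hW h
    have hsym : W 0 1 = W 1 0 := by
      have := congrFun (congrFun hW 1) 0
      rw [Matrix.transpose_apply] at this
      exact this
    have h00 := congrFun (congrFun h 0) 0
    have h01 := congrFun (congrFun h 0) 1
    have h11 := congrFun (congrFun h 1) 1
    simp only [Matrix.mul_apply, Fin.sum_univ_two, Matrix.transpose_apply, good_comp_c00,
      good_comp_c01, good_comp_c10, good_comp_c11] at h00 h01 h11
    rw [← hsym] at h00 h01 h11
    have e1 : W 1 1 * ((n - 1) * ((n + 1 - s) * (n + 1 + s))) = 0 := by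
      linear_combination (1 + n) * h11 + 2 * s * h01 + (1 + n) * h00
    have hw3 : W 1 1 = 0 := by
      rcases mul_eq_zero.1 e1 with h | h
      · exact h
      · exact absurd h hfac
    have hw1 : W 0 0 = 0 := by
      linear_combination (-1 : F) * h00 + n ^ 2 * hw3
    have hw2a : (1 + n) * W 0 1 = 0 := by
      linear_combination (-1 : F) * h01 - n * s * hw3
    have hw2b : 2 * n * s * W 0 1 = 0 := by
      linear_combination n * h11 - n * hw1 - n * (s ^ 2 - 1) * hw3
    have hw2' : W 0 1 = 0 := hw2 _ hw2a hw2b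
    exact good_zero_of_entries W hw1 hw2' (by rw [← hsym]; exact hw2') hw3
  · refine ⟨!![0, 1; 1, s], ?_, ?_⟩
    · rw [isUnit_iff_ne_zero, Matrix.det_fin_two_of]
      norm_num
    · ext i j
      fin_cases i <;> fin_cases j <;>
        simp [Matrix.mul_apply, Fin.sum_univ_two, Matrix.transpose_apply, good_comp_c00,
          good_comp_c01, good_comp_c10, good_comp_c11]

/-- PIECE GOODS -/
theorem good_scalar (a : F) (ha0 : a ≠ 0) (ha : a * a ≠ 1) : Good (a • (1 : M2 F)) := by
  have hfac : a * a - 1 ≠ 0 := sub_ne_zero.2 ha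
  have key : ∀ W : M2 F, (a * a) • W = W → W = 0 := by
    intro W h
    have h2 : (a * a - 1) • W = 0 := by
      rw [sub_smul, one_smul, h, sub_self]
    rcases smul_eq_zero.1 h2 with h3 | h3
    · exact absurd h3 hfac
    · exact h3
  refine ⟨?_, ?_, ?_, ?_⟩
  · rw [isUnit_iff_ne_zero, Matrix.det_smul, Matrix.det_one, mul_one, Fintype.card_fin]
    exact pow_ne_zero 2 ha0
  · intro W _ h
    have e : (a • (1 : M2 F))ᵀ * W * (a • (1 : M2 F)) = (a * a) • W := by
      rw [Matrix.transpose_smul, Matrix.transpose_one, Matrix.smul_mul, Matrix.one_mul,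
        Matrix.mul_smul, Matrix.mul_one, smul_smul]
    rw [e] at h
    exact key W h
  · intro W _ h
    have e : (a • (1 : M2 F)) * W * (a • (1 : M2 F))ᵀ = (a * a) • W := by
      rw [Matrix.transpose_smul, Matrix.transpose_one, Matrix.smul_mul, Matrix.one_mul,
        Matrix.mul_smul, Matrix.mul_one, smul_smul]
    rw [e] at h
    exact key W h
  · refine ⟨1, ?_, ?_⟩
    · rw [Matrix.det_one]
      exact isUnit_one
    · rw [Matrix.transpose_smul, Matrix.transpose_one, Matrix.one_mul, Matrix.mul_one]

end Cfsg.Agent.Lib.Helper60.Sp4T
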