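import Mathlib
import Cfsg.Agent.S1140

set_option autoImplicit false
set_option linter.unusedSectionVars false
set_option linter.style.haveILetI false

/-! Algebra behind the type A Suzuki 2-groups (helper60). -/

namespace Cfsg.Agent.Lib.Helper60

open Polynomial in
/-- A finite abelian group with an endomorphism whose powers act transitively on the nonzero
elements is a field (living in `Type`) on which the endomorphism is a multiplication. -/
theorem singer_field {M : Type*} [AddCommGroup M] [Finite M] (ξ : AddMonoid.End M) (m₀ : M) (hm₀ : m₀ ≠ 0)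
    (htrans : ∀ m m' : M, m ≠ 0 → m' ≠ 0 → ∃ i : ℕ, (ξ ^ i) m = m') :
    ∃ (F : Type) (_ : Field F) (_ : Fintype F) (c : M ≃+ F) (lam : F),
      c m₀ = 1 ∧ ∀ m, c (ξ m) = lam * c m := by
  classical
  let ρ : ℤ[X] →+* AddMonoid.End M := (Polynomial.aeval ξ : ℤ[X] →ₐ[ℤ] AddMonoid.End M)
  letI : Module ℤ[X] M := Module.compHom M ρ
  have hsmul : ∀ (p : ℤ[X]) (m : M), p • m = (Polynomial.aeval ξ p) m := fun p m => rfl
  have hX : ∀ (i : ℕ) (m : M), (X ^ i : ℤ[X]) • m = (ξ ^ i) m := by
    intro i m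
    rw [hsmul, map_pow, Polynomial.aeval_X]
  haveI : IsSimpleOrder (Submodule ℤ[X] M) :=
    { exists_pair_ne := ⟨⊥, ⊤, by
        intro h
        have : m₀ ∈ (⊥ : Submodule ℤ[X] M) := by rw [h]; trivial
        exact hm₀ ((Submodule.mem_bot _).mp this)⟩
      eq_bot_or_eq_top := by
        intro N
        by_cases hN : N = ⊥
        · exact Or.inl hN
        · right
          obtain ⟨n, hn, hn0⟩ := (Submodule.ne_bot_iff N).mp hN
          rw [eq_top_iff]
          intro m _
          by_cases hm : m = 0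
          · rw [hm]; exact N.zero_mem
          · obtain ⟨i, hi⟩ := htrans n m hn0 hm
            rw [← hi, ← hX]
            exact N.smul_mem _ hn }
  haveI : IsSimpleModule ℤ[X] M := ⟨⟩
  obtain ⟨I, hI, ⟨c₀⟩⟩ := isSimpleModule_iff_quot_maximal.mp ‹IsSimpleModule ℤ[X] M›
  haveI := hI
  letI : Field (ℤ[X] ⧸ I) := Ideal.Quotient.field I
  haveI : Finite (ℤ[X] ⧸ I) := Finite.of_equiv M c₀.toEquiv
  letI : Fintype (ℤ[X] ⧸ I) := Fintype.ofFinite _
  have hu : c₀ m₀ ≠ 0 := fun h => hm₀ (c₀.map_eq_zero_iff.mp h)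
  let lam : ℤ[X] ⧸ I := Ideal.Quotient.mk I X
  have hc₀ : ∀ m, c₀ (ξ m) = lam * c₀ m := by
    intro m
    have h1 : ξ m = (X : ℤ[X]) • m := by rw [hsmul, Polynomial.aeval_X]
    rw [h1, map_smul, Algebra.smul_def, Ideal.Quotient.algebraMap_eq]
  let sc : (ℤ[X] ⧸ I) ≃+ (ℤ[X] ⧸ I) :=
    { toFun := fun x => (c₀ m₀)⁻¹ * x
      invFun := fun x => c₀ m₀ * x
      left_inv := fun x => by
        show c₀ m₀ * ((c₀ m₀)⁻¹ * x) = x
        rw [← mul_assoc, mul_inv_cancel₀ hu, one_mul]
      right_inv := fun x => by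
        show (c₀ m₀)⁻¹ * (c₀ m₀ * x) = x
        rw [← mul_assoc, inv_mul_cancel₀ hu, one_mul]
      map_add' := fun x y => mul_add _ _ _ }
  refine ⟨ℤ[X] ⧸ I, inferInstance, inferInstance, c₀.toAddEquiv.trans sc, lam, ?_, ?_⟩
  · show (c₀ m₀)⁻¹ * c₀ m₀ = 1
    exact inv_mul_cancel₀ hu
  · intro m
    show (c₀ m₀)⁻¹ * c₀ (ξ m) = lam * ((c₀ m₀)⁻¹ * c₀ m)
    rw [hc₀]
    ring

/-- Multiplicatively equivariant maps with biadditive polarisation on a finite field of
characteristic 2 are products of two distinct automorphisms. -/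
theorem quad_of_equivariant {F : Type*} [Field F] [Fintype F] [CharP F 2] (s : F → F) (μ lam : F)
    (h0 : s 0 = 0) (h1 : s 1 = 1) (hμ : ∀ u : F, u ≠ 0 → ∃ i : ℕ, u = μ ^ i)
    (heq : ∀ u, s (μ * u) = lam * s u)
    (hB : ∀ u u' v, s (u + u' + v) - s (u + u') - s v =
      (s (u + v) - s u - s v) + (s (u' + v) - s u' - s v))
    (hne : ∃ u v, s (u + v) - s u - s v ≠ 0) :
    ∃ σ τ : F ≃+* F, σ ≠ τ ∧ ∀ u, s u = σ u * τ u := by
  classical
  obtain ⟨ι, _, _, e, he, r, hradd, hr⟩ := Cfsg.Agent.S1140.exists_aut_basis F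
  have h2 : (2 : F) = 0 := CharTwo.two_eq_zero
  -- the polarisation
  obtain ⟨B, hBdef⟩ : ∃ B : F → F → F, ∀ u v, B u v = s (u + v) - s u - s v := ⟨_, fun _ _ => rfl⟩
  have hBsymm : ∀ u v, B u v = B v u := by
    intro u v
    rw [hBdef, hBdef, add_comm u v]
    ring
  have hBadd1 : ∀ u u' v, B (u + u') v = B u v + B u' v := by
    intro u u' v
    rw [hBdef, hBdef, hBdef]
    exact hB u u' v
  have hBadd2 : ∀ u v v', B u (v + v') = B u v + B u v' := by
    intro u v v'
    rw [hBsymm u (v + v'), hBadd1, hBsymm v u, hBsymm v' u]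
  have hBeq : ∀ u v, B (μ * u) (μ * v) = lam * B u v := by
    intro u v
    rw [hBdef, hBdef, ← mul_add, heq, heq, heq]
    ring
  let Bh : F → (F →+ F) := fun u => AddMonoidHom.mk' (fun v => B u v) (hBadd2 u)
  have hBh : ∀ u u', Bh (u + u') = Bh u + Bh u' := by
    intro u u'
    ext v
    exact hBadd1 u u' v
  let D : ι → (F →+ F) := fun i => AddMonoidHom.mk' (fun u => r (Bh u) i) (by
    intro u u'
    rw [hBh, hradd])
  obtain ⟨C, hC⟩ : ∃ C : ι → ι → F, ∀ i j, C i j = r (D i) j := ⟨_, fun _ _ => rfl⟩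
  have hexp : ∀ u v, B u v = ∑ i, (∑ j, C i j * e j u) * e i v := by
    intro u v
    have hv := hr (Bh u) v
    rw [show B u v = Bh u v from rfl, hv]
    apply Finset.sum_congr rfl
    intro i _
    have hu := hr (D i) u
    rw [show r (Bh u) i = D i u from rfl, hu]
    simp only [hC]
  -- uniqueness of coordinates
  have hli : LinearIndependent F (fun i : ι => (((e i : F →+* F) : F →* F) : F → F)) := by
    have h := (linearIndependent_monoidHom F F).comp
      (fun i : ι => ((e i : F →+* F) : F →* F)) (by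
        intro i j h
        apply he
        ext x
        exact congrArg (fun (ρ : F →* F) => ρ x) h)
    exact h
  have hU : ∀ g : ι → F, (∀ x, ∑ i, g i * e i x = 0) → ∀ i, g i = 0 := by
    intro g hg
    apply Fintype.linearIndependent_iff.mp hli g
    funext x
    rw [Finset.sum_apply]
    simp only [Pi.smul_apply, smul_eq_mul]
    exact hg x
  -- coefficients
  have hcoef : ∀ i j, C i j * (e j μ * e i μ - lam) = 0 := by
    have hz : ∀ u v, ∑ i, (∑ j, C i j * (e j μ * e i μ - lam) * e j u) * e i v = 0 := by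
      intro u v
      have h := hBeq u v
      rw [hexp, hexp, Finset.mul_sum] at h
      rw [← sub_eq_zero, ← Finset.sum_sub_distrib] at h
      rw [← h]
      apply Finset.sum_congr rfl
      intro i _
      rw [Finset.sum_mul, Finset.sum_mul, Finset.sum_mul, Finset.mul_sum, ← Finset.sum_sub_distrib]
      apply Finset.sum_congr rfl
      intro j _
      rw [map_mul, map_mul]
      ring
    intro i j
    have h5 : ∀ u, ∑ j, C i j * (e j μ * e i μ - lam) * e j u = 0 := fun u =>
      hU (fun i => ∑ j, C i j * (e j μ * e i μ - lam) * e j u) (fun v => hz u v) i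
    exact hU (fun j => C i j * (e j μ * e i μ - lam)) h5 j
  obtain ⟨u₀, v₀, huv⟩ := hne
  have hCne : ∃ i j, C i j ≠ 0 := by
    by_contra hcon
    push Not at hcon
    apply huv
    rw [← hBdef, hexp]
    apply Finset.sum_eq_zero
    intro i _
    have : ∑ j, C i j * e j u₀ = 0 := by
      apply Finset.sum_eq_zero
      intro j _
      rw [hcon, zero_mul]
    rw [this, zero_mul]
  obtain ⟨i, j, hij⟩ := hCne
  have hlam : e j μ * e i μ = lam := by
    have h := hcoef i j
    rcases mul_eq_zero.mp h with h | h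
    · exact absurd h hij
    · exact sub_eq_zero.mp h
  have hpow : ∀ k : ℕ, s (μ ^ k) = lam ^ k := by
    intro k
    induction k with
    | zero => rw [pow_zero, pow_zero, h1]
    | succ k ih => rw [pow_succ', heq, ih, pow_succ']
  have hs : ∀ u, s u = e j u * e i u := by
    intro u
    by_cases hu : u = 0
    · rw [hu, h0, map_zero, zero_mul]
    · obtain ⟨k, rfl⟩ := hμ u hu
      rw [hpow, map_pow, map_pow, ← mul_pow, hlam]
  refine ⟨e j, e i, ?_, hs⟩
  intro hji
  apply huv
  rw [hs, hs, hs, hji, map_add]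
  linear_combination (e i u₀ * e i v₀) * h2

/-- An automorphism `φ` of a finite field with `x ↦ x φ(x)` injective has odd order. -/
theorem odd_orderOf_of_norm_injective {F : Type*} [Field F] [Fintype F] (φ : F ≃+* F)
    (hinj : ∀ x y : F, x * φ x = y * φ y → x = y) : Odd (orderOf φ) := by
  classical
  haveI : Finite (F ≃+* F) :=
    Finite.of_injective (fun e : F ≃+* F => (e : F → F)) DFunLike.coe_injective
  have hfix : ∀ w : F, φ (φ w) = w → φ w = w := by
    intro w hw
    by_contra hne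
    have hw0 : w ≠ 0 := by
      rintro rfl
      exact hne (map_zero φ)
    have hφw0 : φ w ≠ 0 := fun h => hw0 ((map_eq_zero φ).mp h)
    have h1 : (w / φ w) * φ (w / φ w) = 1 * φ 1 := by
      rw [map_div₀, hw, map_one]
      field_simp
    have h3 := hinj _ _ h1
    apply hne
    rw [div_eq_one_iff_eq hφw0] at h3
    exact h3.symm
  -- fixed fields
  have hmem : ∀ (ψ : RingAut F) (w : F),
      w ∈ FixedPoints.subfield (↥(Subgroup.zpowers ψ)) F ↔ ψ w = w := by
    intro ψ w
    constructor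
    · intro h
      exact h ⟨ψ, Subgroup.mem_zpowers ψ⟩
    · intro h g
      have hle : Subgroup.zpowers ψ ≤ MulAction.stabilizer (RingAut F) w :=
        Subgroup.zpowers_le.mpr (MulAction.mem_stabilizer_iff.mpr h)
      exact MulAction.mem_stabilizer_iff.mp (hle g.2)
  have heqf : FixedPoints.subfield (↥(Subgroup.zpowers (φ : RingAut F))) F =
      FixedPoints.subfield (↥(Subgroup.zpowers ((φ : RingAut F) ^ 2))) F := by
    ext w
    rw [hmem, hmem]
    constructor
    · intro h
      show φ (φ w) = w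
      rw [h, h]
    · intro h
      exact hfix w h
  letI : Fintype ↥(Subgroup.zpowers (φ : RingAut F)) := Fintype.ofFinite _
  letI : Fintype ↥(Subgroup.zpowers ((φ : RingAut F) ^ 2)) := Fintype.ofFinite _
  have hc1 := FixedPoints.finrank_eq_card (↥(Subgroup.zpowers (φ : RingAut F))) F
  have hc2 := FixedPoints.finrank_eq_card (↥(Subgroup.zpowers ((φ : RingAut F) ^ 2))) F
  rw [Fintype.card_eq_nat_card, Nat.card_zpowers] at hc1 hc2
  have hcard : orderOf (φ : RingAut F) = orderOf ((φ : RingAut F) ^ 2) := by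
    rw [← hc1, ← hc2, heqf]
  rw [orderOf_pow' _ (by norm_num : (2 : ℕ) ≠ 0)] at hcard
  have hpos : 0 < orderOf (φ : RingAut F) := orderOf_pos _
  rw [Nat.odd_iff]
  by_contra hodd
  have hev : orderOf (φ : RingAut F) % 2 = 0 := by omega
  have hg : (orderOf (φ : RingAut F)).gcd 2 = 2 :=
    Nat.gcd_eq_right (Nat.dvd_of_mod_eq_zero hev)
  rw [hg] at hcard
  omega

/-- Multiplicative version of `singer_field`. -/
theorem singer_group {V : Type*} [CommGroup V] [Finite V] (f : V →* V) (v₀ : V) (hv₀ : v₀ ≠ 1)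
    (htrans : ∀ v v' : V, v ≠ 1 → v' ≠ 1 → ∃ i : ℕ, (f^[i]) v = v') :
    ∃ (F : Type) (_ : Field F) (_ : Fintype F) (c : V → F) (lam : F),
      Function.Bijective c ∧ (∀ v w, c (v * w) = c v + c w) ∧ c v₀ = 1 ∧
      ∀ v, c (f v) = lam * c v := by
  let ξ : AddMonoid.End (Additive V) := MonoidHom.toAdditive f
  have hξ : ∀ (i : ℕ) (m : Additive V), (ξ ^ i) m = Additive.ofMul (f^[i] (Additive.toMul m)) := by
    intro i
    induction i with
    | zero => intro m; rfl
    | succ i ih =>
      intro m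
      rw [pow_succ, Function.iterate_succ_apply]
      show (ξ ^ i) (ξ m) = _
      rw [ih]
      rfl
  obtain ⟨F, hF1, hF2, c, lam, hc1, hc2⟩ := singer_field ξ (Additive.ofMul v₀)
    (fun h => hv₀ (Additive.ofMul.injective h)) (by
      intro m m' hm hm'
      obtain ⟨i, hi⟩ := htrans (Additive.toMul m) (Additive.toMul m')
        (fun h => hm (Additive.toMul.injective h)) (fun h => hm' (Additive.toMul.injective h))
      refine ⟨i, ?_⟩
      rw [hξ, hi]
      rfl)
  refine ⟨F, hF1, hF2, fun v => c (Additive.ofMul v), lam, ?_, ?_, hc1, ?_⟩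
  · exact c.bijective.comp Additive.ofMul.bijective
  · intro v w
    show c (Additive.ofMul v + Additive.ofMul w) = _
    rw [map_add]
  · intro v
    exact hc2 (Additive.ofMul v)

/-- Orbit counting: a cyclic group of automorphisms acting freely, transitively on `Z ∖ 1`,
acts transitively on the nontrivial cosets of `Z` when `|P| = |Z|²`. -/
theorem orbit_count {P : Type*} [Group P] [Finite P] (Z : Subgroup P) (g : MulAut P)
    (hcard : Nat.card P = Nat.card Z ^ 2)
    (hgZ : ∀ k : MulAut P, ∀ z ∈ Z, k z ∈ Z)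
    (hZc : Z ≤ Subgroup.center P) (hZ2 : ∀ z ∈ Z, z * z = 1) (hsq1 : ∀ x : P, x * x = 1 → x ∈ Z)
    (hfree : ∀ k ∈ Subgroup.zpowers g, ∀ y : P, y ≠ 1 → k y = y → k = 1)
    (z₀ : P) (hz₀ : z₀ ∈ Z) (hz₀1 : z₀ ≠ 1)
    (hT0 : ∀ z ∈ Z, z ≠ 1 → ∃ i : ℕ, (g ^ i) z₀ = z)
    (x : P) (hx : x ∉ Z) :
    ∀ y : P, y ∉ Z → ∃ i : ℕ, ∃ e ∈ Z, y = (g ^ i) x * e := by
  classical
  letI : Fintype P := Fintype.ofFinite P
  have hn : 0 < orderOf g := orderOf_pos g
  -- equality of powers from equality of values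
  have hpow_eq : ∀ (i j : ℕ) (y : P), y ≠ 1 → (g ^ i) y = (g ^ j) y → g ^ i = g ^ j := by
    intro i j y hy h
    have hk : (g ^ j)⁻¹ * g ^ i ∈ Subgroup.zpowers g :=
      Subgroup.mul_mem _ (Subgroup.inv_mem _ (Subgroup.pow_mem _ (Subgroup.mem_zpowers g) j))
        (Subgroup.pow_mem _ (Subgroup.mem_zpowers g) i)
    have h1 : ((g ^ j)⁻¹ * g ^ i) y = y := by
      rw [MulAut.mul_apply, h, ← MulAut.mul_apply, inv_mul_cancel, MulAut.one_apply]
    have h3 := hfree _ hk y hy h1
    calc g ^ i = g ^ j * ((g ^ j)⁻¹ * g ^ i) := by group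
      _ = g ^ j := by rw [h3, mul_one]
  have hlt_eq : ∀ i j : ℕ, i < orderOf g → j < orderOf g → g ^ i = g ^ j → i = j := by
    intro i j hi hj h
    exact pow_injOn_Iio_orderOf (Set.mem_Iio.mpr hi) (Set.mem_Iio.mpr hj) h
  -- the finite set of elements of `Z`
  let Zf : Finset P := Finset.univ.filter (· ∈ Z)
  have hZf : ∀ y, y ∈ Zf ↔ y ∈ Z := fun y => by simp [Zf]
  have hZfcard : Zf.card = Nat.card Z := by
    rw [Nat.card_eq_fintype_card, Fintype.card_subtype]
  -- Step 1: the order of `g`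
  have hA : (Finset.range (orderOf g)).image (fun i => (g ^ i) z₀) = Zf.erase 1 := by
    ext y
    rw [Finset.mem_image, Finset.mem_erase, hZf]
    constructor
    · rintro ⟨i, -, rfl⟩
      refine ⟨?_, hgZ _ _ hz₀⟩
      intro h
      apply hz₀1
      exact (g ^ i).injective (h.trans (map_one _).symm)
    · rintro ⟨hy1, hyZ⟩
      obtain ⟨i, hi⟩ := hT0 y hyZ hy1
      refine ⟨i % orderOf g, Finset.mem_range.mpr (Nat.mod_lt _ hn), ?_⟩
      rw [pow_mod_orderOf, hi]
  have hn1 : orderOf g + 1 = Nat.card Z := by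
    have h1 : ((Finset.range (orderOf g)).image (fun i => (g ^ i) z₀)).card = orderOf g := by
      rw [Finset.card_image_of_injOn, Finset.card_range]
      intro i hi j hj h
      exact hlt_eq i j (Finset.mem_range.mp hi) (Finset.mem_range.mp hj)
        (hpow_eq i j z₀ hz₀1 h)
    rw [hA, Finset.card_erase_of_mem ((hZf 1).mpr Z.one_mem), hZfcard] at h1
    have hpos : 0 < Nat.card Z := Nat.card_pos
    omega
  -- Step 2
  have hxx : x * x ≠ 1 := fun h => hx (hsq1 x h)
  have hfreex : ∀ k ∈ Subgroup.zpowers g, ∀ e ∈ Z, k x = x * e → k = 1 := by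
    intro k hk e he h
    apply hfree k hk (x * x) hxx
    rw [map_mul, h]
    have hc := Subgroup.mem_center_iff.mp (hZc he)
    calc x * e * (x * e) = x * (e * x) * e := by group
      _ = x * (x * e) * e := by rw [hc x]
      _ = x * x * (e * e) := by group
      _ = x * x := by rw [hZ2 e he, mul_one]
  let fB : ℕ × P → P := fun p => (g ^ p.1) x * p.2
  have hBinj : Set.InjOn fB (↑((Finset.range (orderOf g)) ×ˢ Zf) : Set (ℕ × P)) := by
    rintro ⟨i, e⟩ hp ⟨j, e'⟩ hp' h
    rw [Finset.mem_coe, Finset.mem_product, Finset.mem_range, hZf] at hp hp'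
    have h' : (g ^ i) x * e = (g ^ j) x * e' := h
    have hk : (g ^ j)⁻¹ * g ^ i ∈ Subgroup.zpowers g :=
      Subgroup.mul_mem _ (Subgroup.inv_mem _ (Subgroup.pow_mem _ (Subgroup.mem_zpowers g) j))
        (Subgroup.pow_mem _ (Subgroup.mem_zpowers g) i)
    have h1 : ((g ^ j)⁻¹ * g ^ i) x = x * ((g ^ j)⁻¹ (e' * e⁻¹)) := by
      have h3 : (g ^ i) x = (g ^ j) x * (e' * e⁻¹) := by
        rw [← mul_assoc, ← h', mul_inv_cancel_right]
      rw [MulAut.mul_apply, h3, map_mul, ← MulAut.mul_apply, inv_mul_cancel, MulAut.one_apply]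
    have h4 := hfreex _ hk _ (hgZ _ _ (Z.mul_mem hp'.2 (Z.inv_mem hp.2))) h1
    have h5 : g ^ i = g ^ j := by
      calc g ^ i = g ^ j * ((g ^ j)⁻¹ * g ^ i) := by group
        _ = g ^ j := by rw [h4, mul_one]
    have h6 : i = j := hlt_eq i j hp.1 hp'.1 h5
    subst h6
    have h7 : e = e' := mul_left_cancel h'
    rw [h7]
  have hBsub : ((Finset.range (orderOf g)) ×ˢ Zf).image fB ⊆ Finset.univ.filter (· ∉ Z) := by
    intro y hy
    rw [Finset.mem_image] at hy
    obtain ⟨⟨i, e⟩, hp, rfl⟩ := hy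
    rw [Finset.mem_product, Finset.mem_range, hZf] at hp
    rw [Finset.mem_filter]
    refine ⟨Finset.mem_univ _, ?_⟩
    intro h
    apply hx
    have h1 : (g ^ i) x ∈ Z := by
      have := Z.mul_mem h (Z.inv_mem hp.2)
      rwa [mul_inv_cancel_right] at this
    have h3 := hgZ (g ^ i)⁻¹ _ h1
    rwa [← MulAut.mul_apply, inv_mul_cancel, MulAut.one_apply] at h3
  have hBcard : (((Finset.range (orderOf g)) ×ˢ Zf).image fB).card = orderOf g * Nat.card Z := by
    rw [Finset.card_image_of_injOn hBinj, Finset.card_product, Finset.card_range, hZfcard]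
  have hcompl : (Finset.univ.filter (· ∉ Z) : Finset P).card = orderOf g * Nat.card Z := by
    have h1 : (Finset.univ.filter (· ∉ Z) : Finset P).card + Zf.card = Fintype.card P := by
      rw [add_comm]
      exact Finset.card_filter_add_card_filter_not (· ∈ Z) |>.trans Finset.card_univ
    rw [hZfcard, ← Nat.card_eq_fintype_card, hcard, ← hn1] at h1
    rw [← hn1]
    nlinarith
  have hBeq := Finset.eq_of_subset_of_card_le hBsub (by rw [hBcard, hcompl])
  intro y hy
  have hymem : y ∈ ((Finset.range (orderOf g)) ×ˢ Zf).image fB := by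
    rw [hBeq, Finset.mem_filter]
    exact ⟨Finset.mem_univ _, hy⟩
  rw [Finset.mem_image] at hymem
  obtain ⟨⟨i, e⟩, hp, rfl⟩ := hymem
  rw [Finset.mem_product, hZf] at hp
  exact ⟨i, e, hp.2, rfl⟩

end Cfsg.Agent.Lib.Helper60
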