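import Cfsg.Agent.Lib.Helper3.BG12Pieces

/-!
# B&G 13.3(a) = S1427, piece P27E: a subgroup of `M` of order coprime to `|M_σ|` lies in a
complement of `M_σ`

Delivered for helper3 (statement from note 1592).
-/

set_option autoImplicit false

open Cfsg Cfsg.Agent.Lib.Helper32 Cfsg.Agent.Lib.Helper32.BG10 Cfsg.Agent.Lib.Helper3.BG12
  Cfsg.Agent.Lib.Helper3.BG12S

namespace Cfsg.Agent.Lib.Helper60.BG13

universe u

variable {G : Type u} [Group G] [Finite G]

theorem exists_compl_ge (hG : IsMinSimpleOddOrder G) {M : Subgroup G} (hM : IsCoatom M)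
    {W : Subgroup G} (hWM : W ≤ M) (hW : (Nat.card W).Coprime (Nat.card (sigmaCore M))) :
    ∃ E₁ : Subgroup G, IsComplIn E₁ (sigmaCore M) M ∧ W ≤ E₁ := by
  obtain ⟨E, hE⟩ := exCompl_of hG M hM
  have : Group.IsSolvable ↥M := minSimple_solvable hG hM.1
  have hn : M ≤ Subgroup.normalizer ((sigmaCore M : Subgroup G) : Set G) :=
    le_normalizer_map_subtype M _
  have hXBL : M ≤ sigmaCore M ⊔ E := by
    intro m hm
    obtain ⟨a, ha, b, hb, rfl⟩ := hE.2.2.2 m hm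
    exact Subgroup.mul_mem _ (Subgroup.mem_sup_right ha) (Subgroup.mem_sup_left hb)
  obtain ⟨m, hm, hmW⟩ := exists_cj_le_of_coprime hE.2.1 hn hE.1 hXBL hWM hW
  refine ⟨cj m⁻¹ E, isComplIn_cj hE hn (M.inv_mem hm), ?_⟩
  intro w hw
  rw [mem_cj]
  apply hmW
  rw [mem_cj]
  have e : m⁻¹ * ((m⁻¹)⁻¹ * w * m⁻¹) * m = w := by group
  rw [e]
  exact hw

end Cfsg.Agent.Lib.Helper60.BG13
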