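import Mathlib
import Cfsg.Prelude.Def_Transfer

set_option autoImplicit false
set_option linter.unusedSectionVars false
set_option linter.style.haveILetI false
set_option linter.unusedSimpArgs false
set_option linter.unusedVariables false

/-! Faithful irreducible `F₂`-modules of `3² : D₈` (helper60). -/

namespace Cfsg.Agent.Lib.Helper60.D8Mod

variable {S : Type*} [Group S] {M : Type*} [AddCommGroup M] [Module (ZMod 2) M]
  (ρ : Representation (ZMod 2) S M)

theorem rmul (g h : S) (m : M) : ρ (g * h) m = ρ g (ρ h m) := by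
  rw [map_mul]
  rfl

theorem rone (m : M) : ρ 1 m = m := by
  rw [map_one]
  rfl

theorem rinv (g : S) (m : M) : ρ g⁻¹ (ρ g m) = m := by
  rw [← rmul, inv_mul_cancel, rone]

theorem rinv' (g : S) (m : M) : ρ g (ρ g⁻¹ m) = m := by
  rw [← rmul, mul_inv_cancel, rone]

theorem rinj (g : S) : Function.Injective (ρ g) := fun m n h => by
  have h2 := congrArg (ρ g⁻¹) h
  rwa [rinv, rinv] at h2

theorem mv {g h g' h' : S} (e : g * h = g' * h') (m : M) : ρ g (ρ h m) = ρ g' (ρ h' m) := by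
  rw [← rmul, ← rmul, e]

theorem fix_of_inv {g : S} {m : M} (h : ρ g⁻¹ m = m) : ρ g m = m := by
  have h2 := rinv' ρ g m
  rwa [h] at h2

/-- fixed points of an element -/
def Fx (g : S) : Submodule (ZMod 2) M := LinearMap.eqLocus (ρ g) LinearMap.id

theorem mem_Fx {g : S} {m : M} : m ∈ Fx ρ g ↔ ρ g m = m := by
  unfold Fx
  rw [LinearMap.mem_eqLocus]
  rfl

/-- the defining relations of `3² : D₈` -/
structure Rel (a b r s : S) : Prop where
  a3 : a * a * a = 1
  b3 : b * b * b = 1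
  ab : a * b = b * a
  ra : r * a = b * r
  rb : r * b = a⁻¹ * r
  sa : s * a = a * s
  sb : s * b = b⁻¹ * s
  s2 : s * s = 1
  r4 : r * r * (r * r) = 1
  sr : s * r = r⁻¹ * s

/-- irreducibility with respect to four generators -/
def Irr (a b r s : S) : Prop :=
  ∀ N : Submodule (ZMod 2) M, (∀ m ∈ N, ρ a m ∈ N) → (∀ m ∈ N, ρ b m ∈ N) →
    (∀ m ∈ N, ρ r m ∈ N) → (∀ m ∈ N, ρ s m ∈ N) → N = ⊥ ∨ N = ⊤

theorem sup_map_mem {P₁ P₂ : Submodule (ZMod 2) M} (f : M →ₗ[ZMod 2] M)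
    (h1 : ∀ p ∈ P₁, f p ∈ P₁ ⊔ P₂) (h2 : ∀ q ∈ P₂, f q ∈ P₁ ⊔ P₂) :
    ∀ m ∈ P₁ ⊔ P₂, f m ∈ P₁ ⊔ P₂ := by
  intro m hm
  obtain ⟨p, hp, q, hq, rfl⟩ := Submodule.mem_sup.mp hm
  rw [map_add]
  exact Submodule.add_mem _ (h1 p hp) (h2 q hq)

section

variable {a b r s : S} (h : Rel a b r s)
include h

theorem F1 {m : M} (hm : ρ a m = m) : ρ b (ρ r m) = ρ r m := by
  rw [mv ρ h.ra.symm, hm]

theorem F2 {m : M} (hm : ρ b m = m) : ρ a (ρ r m) = ρ r m := by
  apply fix_of_inv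
  rw [← mv ρ h.rb, hm]

theorem F3 {m : M} (hm : ρ a m = m) : ρ a (ρ s m) = ρ s m := by
  rw [mv ρ h.sa.symm, hm]

theorem F4 {m : M} (hm : ρ b m = m) : ρ b (ρ s m) = ρ s m := by
  apply fix_of_inv
  rw [← mv ρ h.sb, hm]

theorem F5 {m : M} (hm : ρ a m = m) : ρ a (ρ b m) = ρ b m := by
  rw [mv ρ h.ab, hm]

theorem F6 {m : M} (hm : ρ b m = m) : ρ b (ρ a m) = ρ a m := by
  rw [mv ρ h.ab.symm, hm]

theorem sup_inv : (∀ m ∈ Fx ρ a ⊔ Fx ρ b, ρ a m ∈ Fx ρ a ⊔ Fx ρ b) ∧
    (∀ m ∈ Fx ρ a ⊔ Fx ρ b, ρ b m ∈ Fx ρ a ⊔ Fx ρ b) ∧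
    (∀ m ∈ Fx ρ a ⊔ Fx ρ b, ρ r m ∈ Fx ρ a ⊔ Fx ρ b) ∧
    (∀ m ∈ Fx ρ a ⊔ Fx ρ b, ρ s m ∈ Fx ρ a ⊔ Fx ρ b) := by
  refine ⟨sup_map_mem _ ?_ ?_, sup_map_mem _ ?_ ?_, sup_map_mem _ ?_ ?_, sup_map_mem _ ?_ ?_⟩
  · intro p hp
    rw [mem_Fx] at hp
    exact Submodule.mem_sup_left (by rw [mem_Fx, hp, hp])
  · intro q hq
    rw [mem_Fx] at hq
    exact Submodule.mem_sup_right (by rw [mem_Fx]; exact F6 ρ h hq)
  · intro p hp
    rw [mem_Fx] at hp
    exact Submodule.mem_sup_left (by rw [mem_Fx]; exact F5 ρ h hp)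
  · intro q hq
    rw [mem_Fx] at hq
    exact Submodule.mem_sup_right (by rw [mem_Fx, hq, hq])
  · intro p hp
    rw [mem_Fx] at hp
    exact Submodule.mem_sup_right (by rw [mem_Fx]; exact F1 ρ h hp)
  · intro q hq
    rw [mem_Fx] at hq
    exact Submodule.mem_sup_left (by rw [mem_Fx]; exact F2 ρ h hq)
  · intro p hp
    rw [mem_Fx] at hp
    exact Submodule.mem_sup_left (by rw [mem_Fx]; exact F3 ρ h hp)
  · intro q hq
    rw [mem_Fx] at hq
    exact Submodule.mem_sup_right (by rw [mem_Fx]; exact F4 ρ h hq)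

/-- the common fixed points of `a, b` vanish -/
theorem fix_zero (hI : Irr ρ a b r s) (ha : ∃ m, ρ a m ≠ m) :
    ∀ m, ρ a m = m → ρ b m = m → m = 0 := by
  intro m hma hmb
  have hN := hI (Fx ρ a ⊓ Fx ρ b)
    (fun m hm => by
      rw [Submodule.mem_inf, mem_Fx, mem_Fx] at hm ⊢
      exact ⟨by rw [hm.1, hm.1], F6 ρ h hm.2⟩)
    (fun m hm => by
      rw [Submodule.mem_inf, mem_Fx, mem_Fx] at hm ⊢
      exact ⟨F5 ρ h hm.1, by rw [hm.2, hm.2]⟩)
    (fun m hm => by
      rw [Submodule.mem_inf, mem_Fx, mem_Fx] at hm ⊢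
      exact ⟨F2 ρ h hm.2, F1 ρ h hm.1⟩)
    (fun m hm => by
      rw [Submodule.mem_inf, mem_Fx, mem_Fx] at hm ⊢
      exact ⟨F3 ρ h hm.1, F4 ρ h hm.2⟩)
  rcases hN with hN | hN
  · have : m ∈ Fx ρ a ⊓ Fx ρ b := by
      rw [Submodule.mem_inf, mem_Fx, mem_Fx]
      exact ⟨hma, hmb⟩
    rw [hN, Submodule.mem_bot] at this
    exact this
  · exfalso
    obtain ⟨m', hm'⟩ := ha
    have : m' ∈ Fx ρ a ⊓ Fx ρ b := by
      rw [hN]
      exact Submodule.mem_top
    rw [Submodule.mem_inf, mem_Fx] at this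
    exact hm' this.1

end

theorem ncard_four {α : Type*} {x₁ x₂ x₃ x₄ : α} (h12 : x₁ ≠ x₂) (h13 : x₁ ≠ x₃) (h14 : x₁ ≠ x₄)
    (h23 : x₂ ≠ x₃) (h24 : x₂ ≠ x₄) (h34 : x₃ ≠ x₄) : ({x₁, x₂, x₃, x₄} : Set α).ncard = 4 := by
  rw [Set.ncard_insert_of_notMem (by simp [h12, h13, h14]),
    Set.ncard_insert_of_notMem (by simp [h23, h24]),
    Set.ncard_insert_of_notMem (by simp [h34]), Set.ncard_singleton]


section Main

variable {a b r s : S} (h : Rel a b r s)
include h

theorem rel_zs : r * r * s = s * (r * r) := by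
  have hzi : (r * r)⁻¹ = r * r := inv_eq_of_mul_eq_one_right h.r4
  symm
  calc s * (r * r) = s * r * r := (mul_assoc _ _ _).symm
    _ = r⁻¹ * s * r := by rw [h.sr]
    _ = r⁻¹ * (s * r) := mul_assoc _ _ _
    _ = r⁻¹ * (r⁻¹ * s) := by rw [h.sr]
    _ = (r * r)⁻¹ * s := by rw [mul_inv_rev, mul_assoc]
    _ = r * r * s := by rw [hzi]

theorem rel_sb' : s * b⁻¹ = b * s := by
  calc s * b⁻¹ = b * (b⁻¹ * s) * b⁻¹ := by group
    _ = b * (s * b) * b⁻¹ := by rw [h.sb]
    _ = b * s := by group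

theorem rel_ar : a * r = r * b⁻¹ := by
  calc a * r = a * (r * b) * b⁻¹ := by group
    _ = a * (a⁻¹ * r) * b⁻¹ := by rw [h.rb]
    _ = r * b⁻¹ := by group

theorem rel_ainv : a⁻¹ = a * a := inv_eq_of_mul_eq_one_right (by rw [← mul_assoc]; exact h.a3)

theorem rel_binv : b⁻¹ = b * b := inv_eq_of_mul_eq_one_right (by rw [← mul_assoc]; exact h.b3)

theorem rel_rinv : r⁻¹ = r * (r * r) :=
  inv_eq_of_mul_eq_one_right (by rw [← mul_assoc]; exact h.r4)

theorem rel_r4' : r * (r * (r * r)) = 1 := by rw [← mul_assoc]; exact h.r4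

/-- the main computation, in the case `M = C_M(a) + C_M(b)` -/
theorem main_case [Finite M] [Nontrivial M] (hI : Irr ρ a b r s)
    (h0 : ∀ m, ρ a m = m → ρ b m = m → m = 0) (hT : Fx ρ a ⊔ Fx ρ b = ⊤) :
    Nat.card M = 16 ∧ Nat.card {m : M // ρ (r * r) m = m ∧ ρ s m = m} = 4 ∧
      Nat.card {m : M // ρ (r * r) m = m ∧ ρ (s * r) m = m} = 2 := by
  have hzs := rel_zs h
  have hbinv := rel_binv h
  have hrinv := rel_rinv h
  have hchar : ∀ x y : M, x + y = 0 → y = x := by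
    intro x y hxy
    have := eq_neg_of_add_eq_zero_right hxy
    rw [ZModModule.neg_eq_self] at this
    exact this
  -- `ρ (r * r)` preserves both fixed spaces
  have hzP1 : ∀ p, ρ a p = p → ρ a (ρ (r * r) p) = ρ (r * r) p := by
    intro p hp
    rw [rmul]
    exact F2 ρ h (F1 ρ h hp)
  have hzP2 : ∀ q, ρ b q = q → ρ b (ρ (r * r) q) = ρ (r * r) q := by
    intro q hq
    rw [rmul]
    exact F1 ρ h (F2 ρ h hq)
  -- the quadratic relation on `C_M(a)`
  have hquad : ∀ p, ρ a p = p → ρ b (ρ b p) = ρ b p + p := by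
    intro p hp
    have hn : ρ b (ρ b p) + (ρ b p + p) = 0 := by
      apply h0
      · rw [map_add, map_add, F5 ρ h (F5 ρ h hp), F5 ρ h hp, hp]
      · have h3 : ρ b (ρ b (ρ b p)) = p := by
          rw [← rmul, ← rmul, h.b3, rone]
        rw [map_add, map_add, h3]
        abel
    exact (hchar _ _ hn).symm
  -- transfer of irreducibility to `C_M(a)`
  have htr : ∀ N₁ : Submodule (ZMod 2) M, N₁ ≤ Fx ρ a → (∀ m ∈ N₁, ρ b m ∈ N₁) →
      (∀ m ∈ N₁, ρ s m ∈ N₁) → (∀ m ∈ N₁, ρ (r * r) m ∈ N₁) → N₁ = ⊥ ∨ N₁ = Fx ρ a := by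
    intro N₁ hle hb hs hz
    have hN := hI (N₁ ⊔ N₁.map (ρ r))
      (sup_map_mem _ (fun n hn => Submodule.mem_sup_left (by
          rw [(mem_Fx ρ).mp (hle hn)]; exact hn))
        (fun w hw => by
          obtain ⟨n, hn, rfl⟩ := Submodule.mem_map.mp hw
          refine Submodule.mem_sup_right (Submodule.mem_map.mpr ⟨ρ b (ρ b n), hb _ (hb _ hn), ?_⟩)
          rw [mv ρ (rel_ar h), hbinv, rmul]))
      (sup_map_mem _ (fun n hn => Submodule.mem_sup_left (hb n hn))
        (fun w hw => by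
          obtain ⟨n, hn, rfl⟩ := Submodule.mem_map.mp hw
          refine Submodule.mem_sup_right (Submodule.mem_map.mpr ⟨n, hn, ?_⟩)
          exact (F1 ρ h ((mem_Fx ρ).mp (hle hn))).symm))
      (sup_map_mem _ (fun n hn => Submodule.mem_sup_right (Submodule.mem_map_of_mem hn))
        (fun w hw => by
          obtain ⟨n, hn, rfl⟩ := Submodule.mem_map.mp hw
          refine Submodule.mem_sup_left ?_
          rw [← rmul]
          exact hz n hn))
      (sup_map_mem _ (fun n hn => Submodule.mem_sup_left (hs n hn))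
        (fun w hw => by
          obtain ⟨n, hn, rfl⟩ := Submodule.mem_map.mp hw
          refine Submodule.mem_sup_right
            (Submodule.mem_map.mpr ⟨ρ (r * r) (ρ s n), hz _ (hs _ hn), ?_⟩)
          rw [mv ρ h.sr, hrinv, rmul ρ r (r * r)]))
    rcases hN with hN | hN
    · left
      rw [eq_bot_iff, ← hN]
      exact le_sup_left
    · right
      refine le_antisymm hle (fun p hp => ?_)
      have hp' : p ∈ N₁ ⊔ N₁.map (ρ r) := by
        rw [hN]
        exact Submodule.mem_top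
      obtain ⟨n, hn, w, hw, rfl⟩ := Submodule.mem_sup.mp hp'
      obtain ⟨n', hn', rfl⟩ := Submodule.mem_map.mp hw
      have hw0 : ρ r n' = 0 := by
        apply h0
        · have h1 : ρ r n' = (n + ρ r n') - n := by abel
          rw [h1, map_sub, (mem_Fx ρ).mp hp, (mem_Fx ρ).mp (hle hn)]
        · exact F1 ρ h ((mem_Fx ρ).mp (hle hn'))
      rw [hw0, add_zero]
      exact hn
  -- a nonzero vector in `C_M(a)`
  have hP1ne : ∃ p, ρ a p = p ∧ p ≠ 0 := by
    by_contra hne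
    push Not at hne
    obtain ⟨m, hm⟩ := exists_ne (0 : M)
    have hm' : m ∈ Fx ρ a ⊔ Fx ρ b := by
      rw [hT]
      exact Submodule.mem_top
    obtain ⟨p, hp, q, hq, rfl⟩ := Submodule.mem_sup.mp hm'
    rw [mem_Fx] at hp hq
    have hp0 := hne p hp
    have hq0 : ρ r q = 0 := hne _ (F2 ρ h hq)
    have : q = 0 := rinj ρ r (by rw [hq0, map_zero])
    apply hm
    rw [hp0, this, add_zero]
  -- `s * (r * r)` acts trivially on `C_M(a)`
  have hsz2 : s * (r * r) * (s * (r * r)) = 1 := by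
    calc s * (r * r) * (s * (r * r)) = s * (r * r * s) * (r * r) := by group
      _ = s * (s * (r * r)) * (r * r) := by rw [hzs]
      _ = s * s * (r * r * (r * r)) := by group
      _ = 1 := by rw [h.s2, h.r4, one_mul]
  have hszb : s * (r * r) * b = b * (s * (r * r)) := by
    have hzb : r * r * b = b⁻¹ * (r * r) := by
      calc r * r * b = r * (r * b) := mul_assoc _ _ _
        _ = r * (a⁻¹ * r) := by rw [h.rb]
        _ = b⁻¹ * (b * r) * a⁻¹ * r := by group
        _ = b⁻¹ * (r * a) * a⁻¹ * r := by rw [h.ra]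
        _ = b⁻¹ * (r * r) := by group
    calc s * (r * r) * b = s * (r * r * b) := mul_assoc _ _ _
      _ = s * (b⁻¹ * (r * r)) := by rw [hzb]
      _ = s * b⁻¹ * (r * r) := (mul_assoc _ _ _).symm
      _ = b * s * (r * r) := by rw [rel_sb' h]
      _ = b * (s * (r * r)) := mul_assoc _ _ _
  have hszP1 : ∀ p, ρ a p = p → ρ a (ρ (s * (r * r)) p) = ρ (s * (r * r)) p := by
    intro p hp
    rw [rmul]
    exact F3 ρ h (hzP1 p hp)
  have hzs_fix : ∀ p, ρ a p = p → ρ (r * r) p = ρ s p := by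
    have hN := htr (Fx ρ a ⊓ Fx ρ (s * (r * r))) inf_le_left
      (fun m hm => by
        rw [Submodule.mem_inf, mem_Fx, mem_Fx] at hm ⊢
        exact ⟨F5 ρ h hm.1, by rw [mv ρ hszb, hm.2]⟩)
      (fun m hm => by
        rw [Submodule.mem_inf, mem_Fx, mem_Fx] at hm ⊢
        refine ⟨F3 ρ h hm.1, ?_⟩
        have e : s * (r * r) * s = s * (s * (r * r)) := by rw [mul_assoc, hzs]
        rw [mv ρ e, hm.2])
      (fun m hm => by
        rw [Submodule.mem_inf, mem_Fx, mem_Fx] at hm ⊢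
        refine ⟨hzP1 m hm.1, ?_⟩
        have e : s * (r * r) * (r * r) = r * r * (s * (r * r)) := by
          rw [← mul_assoc (r * r) s, hzs]
        rw [mv ρ e, hm.2])
    rcases hN with hN | hN
    · exfalso
      obtain ⟨p, hp, hp0⟩ := hP1ne
      by_cases ht : ρ (s * (r * r)) p = p
      · have : p ∈ Fx ρ a ⊓ Fx ρ (s * (r * r)) := by
          rw [Submodule.mem_inf, mem_Fx, mem_Fx]
          exact ⟨hp, ht⟩
        rw [hN, Submodule.mem_bot] at this
        exact hp0 this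
      · have : p + ρ (s * (r * r)) p ∈ Fx ρ a ⊓ Fx ρ (s * (r * r)) := by
          rw [Submodule.mem_inf, mem_Fx, mem_Fx]
          refine ⟨by rw [map_add, hp, hszP1 p hp], ?_⟩
          rw [map_add, ← rmul ρ (s * (r * r)) (s * (r * r)), hsz2, rone, add_comm]
        rw [hN, Submodule.mem_bot] at this
        exact ht (hchar _ _ this)
    · intro p hp
      have hp' : p ∈ Fx ρ a ⊓ Fx ρ (s * (r * r)) := by
        rw [hN, mem_Fx]
        exact hp
      rw [Submodule.mem_inf, mem_Fx, mem_Fx] at hp'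
      have h1 : ρ s (ρ (r * r) p) = p := by rw [← rmul]; exact hp'.2
      have h2 := congrArg (ρ s) h1
      rw [← rmul, h.s2, rone] at h2
      exact h2
  -- the basis vectors
  obtain ⟨p₀, hp₀a, hp₀s, hp₀⟩ : ∃ p₀, ρ a p₀ = p₀ ∧ ρ s p₀ = p₀ ∧ p₀ ≠ 0 := by
    obtain ⟨p, hp, hp0⟩ := hP1ne
    by_cases hsp : ρ s p = p
    · exact ⟨p, hp, hsp, hp0⟩
    · refine ⟨p + ρ s p, by rw [map_add, hp, F3 ρ h hp], ?_, fun h0' => hsp (hchar _ _ h0')⟩
      rw [map_add, ← rmul, h.s2, rone, add_comm]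
  have hp₁a : ρ a (ρ b p₀) = ρ b p₀ := F5 ρ h hp₀a
  have hbp₁ : ρ b (ρ b p₀) = ρ b p₀ + p₀ := hquad p₀ hp₀a
  have hsp₁ : ρ s (ρ b p₀) = ρ b p₀ + p₀ := by
    rw [mv ρ h.sb, hp₀s, hbinv, rmul, hbp₁]
  have hp₁0 : ρ b p₀ ≠ 0 := fun h1 => hp₀ (rinj ρ b (by rw [h1, map_zero]))
  have hp₁p₀ : ρ b p₀ ≠ p₀ := fun h1 => hp₀ (h0 p₀ hp₀a h1)
  have hQ := htr (Submodule.span (ZMod 2) {p₀, ρ b p₀})
    (by
      rw [Submodule.span_le]
      intro m hm
      simp only [Set.mem_insert_iff, Set.mem_singleton_iff] at hm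
      rcases hm with rfl | rfl
      · exact (mem_Fx ρ).mpr hp₀a
      · exact (mem_Fx ρ).mpr hp₁a)
    (by
      have hle : (Submodule.span (ZMod 2) {p₀, ρ b p₀}).map (ρ b) ≤
          Submodule.span (ZMod 2) {p₀, ρ b p₀} := by
        rw [Submodule.map_span_le]
        intro m hm
        simp only [Set.mem_insert_iff, Set.mem_singleton_iff] at hm
        rcases hm with rfl | rfl
        · exact Submodule.subset_span (by simp)
        · rw [hbp₁]
          exact Submodule.add_mem _ (Submodule.subset_span (by simp))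
            (Submodule.subset_span (by simp))
      exact fun m hm => hle (Submodule.mem_map_of_mem hm))
    (by
      have hle : (Submodule.span (ZMod 2) {p₀, ρ b p₀}).map (ρ s) ≤
          Submodule.span (ZMod 2) {p₀, ρ b p₀} := by
        rw [Submodule.map_span_le]
        intro m hm
        simp only [Set.mem_insert_iff, Set.mem_singleton_iff] at hm
        rcases hm with rfl | rfl
        · rw [hp₀s]
          exact Submodule.subset_span (by simp)
        · rw [hsp₁]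
          exact Submodule.add_mem _ (Submodule.subset_span (by simp))
            (Submodule.subset_span (by simp))
      exact fun m hm => hle (Submodule.mem_map_of_mem hm))
    (by
      have hle : (Submodule.span (ZMod 2) {p₀, ρ b p₀}).map (ρ (r * r)) ≤
          Submodule.span (ZMod 2) {p₀, ρ b p₀} := by
        rw [Submodule.map_span_le]
        intro m hm
        simp only [Set.mem_insert_iff, Set.mem_singleton_iff] at hm
        rcases hm with rfl | rfl
        · rw [hzs_fix _ hp₀a, hp₀s]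
          exact Submodule.subset_span (by simp)
        · rw [hzs_fix _ hp₁a, hsp₁]
          exact Submodule.add_mem _ (Submodule.subset_span (by simp))
            (Submodule.subset_span (by simp))
      exact fun m hm => hle (Submodule.mem_map_of_mem hm))
  have hQ' : Submodule.span (ZMod 2) {p₀, ρ b p₀} = Fx ρ a := by
    rcases hQ with hQ | hQ
    · exfalso
      have : p₀ ∈ Submodule.span (ZMod 2) {p₀, ρ b p₀} := Submodule.subset_span (by simp)
      rw [hQ, Submodule.mem_bot] at this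
      exact hp₀ this
    · exact hQ
  have hP1 : ∀ p, ρ a p = p → p = 0 ∨ p = p₀ ∨ p = ρ b p₀ ∨ p = p₀ + ρ b p₀ := by
    intro p hp
    have hp' : p ∈ Submodule.span (ZMod 2) {p₀, ρ b p₀} := by
      rw [hQ', mem_Fx]
      exact hp
    obtain ⟨c, d, rfl⟩ := Submodule.mem_span_pair.mp hp'
    have h01 : ∀ c : ZMod 2, c = 0 ∨ c = 1 := by decide
    rcases h01 c with rfl | rfl <;> rcases h01 d with rfl | rfl
    · left
      simp
    · right; right; left
      simp
    · right; left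
      simp
    · right; right; right
      simp
  -- fixed points of `r * r` on `C_M(a)`
  have hfz : ∀ p, ρ a p = p → ρ (r * r) p = p → p = 0 ∨ p = p₀ := by
    intro p hp hzp
    rcases hP1 p hp with rfl | rfl | rfl | rfl
    · exact Or.inl rfl
    · exact Or.inr rfl
    · exfalso
      rw [hzs_fix _ hp₁a, hsp₁] at hzp
      exact hp₀ (add_eq_left.mp hzp)
    · exfalso
      rw [hzs_fix _ hp, map_add, hp₀s, hsp₁] at hzp
      have := add_left_cancel hzp
      exact hp₀ (add_eq_left.mp this)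
  have hzp₀ : ρ (r * r) p₀ = p₀ := by rw [hzs_fix _ hp₀a, hp₀s]
  have hq₀b : ρ b (ρ r p₀) = ρ r p₀ := F1 ρ h hp₀a
  have hq₀ : ρ r p₀ ≠ 0 := fun h1 => hp₀ (rinj ρ r (by rw [h1, map_zero]))
  have hq₀p₀ : ρ r p₀ ≠ p₀ := fun h1 => hp₀ (h0 p₀ hp₀a (by
    have := hq₀b
    rwa [h1] at this))
  have hzq₀ : ρ (r * r) (ρ r p₀) = ρ r p₀ := by
    have e : r * r * r = r * (r * r) := mul_assoc _ _ _
    rw [mv ρ e, hzp₀]
  have hsq₀ : ρ s (ρ r p₀) = ρ r p₀ := by
    rw [mv ρ h.sr, hp₀s, hrinv, rmul, hzp₀]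
  have hsrp₀ : ρ (s * r) p₀ = ρ r p₀ := by rw [rmul, hsq₀]
  have hsrq₀ : ρ (s * r) (ρ r p₀) = p₀ := by
    rw [rmul, ← rmul ρ r r, hzp₀, hp₀s]
  -- all fixed points of `r * r`
  have hFz : ∀ m, ρ (r * r) m = m → m = 0 ∨ m = p₀ ∨ m = ρ r p₀ ∨ m = p₀ + ρ r p₀ := by
    intro m hm
    have hm' : m ∈ Fx ρ a ⊔ Fx ρ b := by
      rw [hT]
      exact Submodule.mem_top
    obtain ⟨p, hp, q, hq, rfl⟩ := Submodule.mem_sup.mp hm'
    rw [mem_Fx] at hp hq
    rw [map_add] at hm
    have hd : ρ (r * r) p - p = q - ρ (r * r) q := by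
      rw [sub_eq_sub_iff_add_eq_add, add_comm q p]
      exact hm
    have hd0 : ρ (r * r) p - p = 0 := by
      apply h0
      · rw [map_sub, hzP1 p hp, hp]
      · rw [hd, map_sub, hzP2 q hq, hq]
    have hzp : ρ (r * r) p = p := sub_eq_zero.mp hd0
    have hzq : ρ (r * r) q = q := by
      rw [hd0] at hd
      exact (sub_eq_zero.mp hd.symm).symm
    -- pull `q` back to `C_M(a)`
    have hq'a : ρ a (ρ (r * (r * r)) q) = ρ (r * (r * r)) q := by
      rw [rmul, rmul]
      exact F2 ρ h (F1 ρ h (F2 ρ h hq))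
    have hq'z : ρ (r * r) (ρ (r * (r * r)) q) = ρ (r * (r * r)) q := by
      have e : r * r * (r * (r * r)) = r * (r * r) * (r * r) := by group
      rw [mv ρ e, hzq]
    have hq' : q = ρ r (ρ (r * (r * r)) q) := by
      rw [← rmul, rel_r4' h, rone]
    rcases hfz p hp hzp with rfl | rfl <;> rcases hfz _ hq'a hq'z with h1 | h1
    · left
      rw [hq', h1, map_zero, add_zero]
    · right; right; left
      rw [hq', h1, zero_add]
    · right; left
      rw [hq', h1, map_zero, add_zero]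
    · right; right; right
      rw [hq', h1]
  have hchar' : ∀ x y : M, x + y = 0 → x = y := fun x y hxy => (hchar x y hxy).symm
  refine ⟨?_, ?_, ?_⟩
  · -- the order of `M`
    have hcompl : IsCompl (Fx ρ a) (Fx ρ b) := by
      refine ⟨?_, codisjoint_iff.mpr hT⟩
      rw [Submodule.disjoint_def]
      intro x hx hx'
      exact h0 x ((mem_Fx ρ).mp hx) ((mem_Fx ρ).mp hx')
    have hset : ((Fx ρ a : Submodule (ZMod 2) M) : Set M) = {0, p₀, ρ b p₀, p₀ + ρ b p₀} := by
      ext m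
      simp only [SetLike.mem_coe, mem_Fx, Set.mem_insert_iff, Set.mem_singleton_iff]
      constructor
      · exact hP1 m
      · rintro (rfl | rfl | rfl | rfl)
        · exact map_zero _
        · exact hp₀a
        · exact hp₁a
        · rw [map_add, hp₀a, hp₁a]
    have hc1 : Nat.card ↥(Fx ρ a) = 4 := by
      show Nat.card ↥((Fx ρ a : Submodule (ZMod 2) M) : Set M) = 4
      rw [Nat.card_coe_set_eq, hset]
      exact ncard_four (Ne.symm hp₀) (Ne.symm hp₁0)
        (fun h1 => hp₁p₀ (hchar' _ _ h1.symm).symm) (Ne.symm hp₁p₀)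
        (fun h1 => hp₁0 (add_eq_left.mp h1.symm))
        (fun h1 => hp₀ (add_eq_right.mp h1.symm))
    have hc2 : Nat.card ↥(Fx ρ b) = Nat.card ↥(Fx ρ a) := by
      symm
      apply Nat.card_congr
      refine Equiv.ofBijective
        (fun p : ↥(Fx ρ a) => (⟨ρ r p.1, (mem_Fx ρ).mpr (F1 ρ h ((mem_Fx ρ).mp p.2))⟩ : ↥(Fx ρ b))) ⟨?_, ?_⟩
      · intro p p' hpp
        exact Subtype.ext (rinj ρ r (congrArg Subtype.val hpp))
      · rintro ⟨q, hq⟩
        rw [mem_Fx] at hq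
        refine ⟨⟨ρ (r * (r * r)) q, (mem_Fx ρ).mpr ?_⟩, Subtype.ext ?_⟩
        · rw [rmul, rmul]
          exact F2 ρ h (F1 ρ h (F2 ρ h hq))
        · show ρ r (ρ (r * (r * r)) q) = q
          rw [← rmul, rel_r4' h, rone]
    rw [← Nat.card_congr (Submodule.prodEquivOfIsCompl _ _ hcompl).toEquiv, Nat.card_prod, hc2, hc1]
  · have hset : {m : M | ρ (r * r) m = m ∧ ρ s m = m} = {0, p₀, ρ r p₀, p₀ + ρ r p₀} := by
      ext m
      simp only [Set.mem_ofPred_eq, Set.mem_insert_iff, Set.mem_singleton_iff]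
      constructor
      · exact fun hm => hFz m hm.1
      · rintro (rfl | rfl | rfl | rfl)
        · exact ⟨map_zero _, map_zero _⟩
        · exact ⟨hzp₀, hp₀s⟩
        · exact ⟨hzq₀, hsq₀⟩
        · exact ⟨by rw [map_add, hzp₀, hzq₀], by rw [map_add, hp₀s, hsq₀]⟩
    show Nat.card ↥{m : M | ρ (r * r) m = m ∧ ρ s m = m} = 4
    rw [Nat.card_coe_set_eq, hset]
    exact ncard_four (Ne.symm hp₀) (Ne.symm hq₀)
      (fun h1 => hq₀p₀ (hchar' _ _ h1.symm).symm) (Ne.symm hq₀p₀)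
      (fun h1 => hq₀ (add_eq_left.mp h1.symm))
      (fun h1 => hp₀ (add_eq_right.mp h1.symm))
  · have hset : {m : M | ρ (r * r) m = m ∧ ρ (s * r) m = m} = {0, p₀ + ρ r p₀} := by
      ext m
      simp only [Set.mem_ofPred_eq, Set.mem_insert_iff, Set.mem_singleton_iff]
      constructor
      · rintro ⟨hm1, hm2⟩
        rcases hFz m hm1 with rfl | rfl | rfl | rfl
        · exact Or.inl rfl
        · exfalso
          rw [hsrp₀] at hm2
          exact hq₀p₀ hm2
        · exfalso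
          rw [hsrq₀] at hm2
          exact hq₀p₀ hm2.symm
        · exact Or.inr rfl
      · rintro (rfl | rfl)
        · exact ⟨map_zero _, map_zero _⟩
        · exact ⟨by rw [map_add, hzp₀, hzq₀], by rw [map_add, hsrp₀, hsrq₀, add_comm]⟩
    show Nat.card ↥{m : M | ρ (r * r) m = m ∧ ρ (s * r) m = m} = 2
    rw [Nat.card_coe_set_eq, hset]
    exact Set.ncard_pair (fun h1 => hq₀p₀ (hchar' _ _ h1.symm).symm)

end Main

section D4

open DihedralGroup

/-- the first four-subgroup of `D₈` -/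
def V1 : Subgroup (DihedralGroup 4) where
  carrier := {d | d = 1 ∨ d = r 2 ∨ d = sr 0 ∨ d = sr 2}
  mul_mem' := by
    intro x y hx hy
    revert x y
    simp only [Set.mem_ofPred_eq]
    decide
  one_mem' := Or.inl rfl
  inv_mem' := by
    intro x hx
    revert x
    simp only [Set.mem_ofPred_eq]
    decide

/-- the second four-subgroup of `D₈` -/
def V2 : Subgroup (DihedralGroup 4) where
  carrier := {d | d = 1 ∨ d = r 2 ∨ d = sr 1 ∨ d = sr 3}
  mul_mem' := by
    intro x y hx hy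
    revert x y
    simp only [Set.mem_ofPred_eq]
    decide
  one_mem' := Or.inl rfl
  inv_mem' := by
    intro x hx
    revert x
    simp only [Set.mem_ofPred_eq]
    decide

theorem mem_V1 {d : DihedralGroup 4} : d ∈ V1 ↔ d = 1 ∨ d = r 2 ∨ d = sr 0 ∨ d = sr 2 := Iff.rfl

theorem mem_V2 {d : DihedralGroup 4} : d ∈ V2 ↔ d = 1 ∨ d = r 2 ∨ d = sr 1 ∨ d = sr 3 := Iff.rfl

theorem card_four_of {G : Type*} [Group G] (V : Subgroup G) (x₁ x₂ x₃ x₄ : G)
    (hV : ∀ d, d ∈ V ↔ d = x₁ ∨ d = x₂ ∨ d = x₃ ∨ d = x₄)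
    (h12 : x₁ ≠ x₂) (h13 : x₁ ≠ x₃) (h14 : x₁ ≠ x₄)
    (h23 : x₂ ≠ x₃) (h24 : x₂ ≠ x₄) (h34 : x₃ ≠ x₄) : Nat.card ↥V = 4 := by
  have hset : (V : Set G) = {x₁, x₂, x₃, x₄} := by
    ext d
    simp only [SetLike.mem_coe, Set.mem_insert_iff, Set.mem_singleton_iff]
    exact hV d
  show Nat.card ↥(V : Set G) = 4
  rw [Nat.card_coe_set_eq, hset,
    Set.ncard_insert_of_notMem (by simp [h12, h13, h14]),
    Set.ncard_insert_of_notMem (by simp [h23, h24]),
    Set.ncard_insert_of_notMem (by simp [h34]), Set.ncard_singleton]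

theorem card_V1 : Nat.card ↥V1 = 4 :=
  card_four_of V1 1 (r 2) (sr 0) (sr 2) (fun _ => mem_V1) (by decide) (by decide) (by decide)
    (by decide) (by decide) (by decide)

theorem card_V2 : Nat.card ↥V2 = 4 :=
  card_four_of V2 1 (r 2) (sr 1) (sr 3) (fun _ => mem_V2) (by decide) (by decide) (by decide)
    (by decide) (by decide) (by decide)

theorem four_cases (B : Subgroup (DihedralGroup 4)) (hc : Nat.card ↥B = 4)
    (he : ∀ d ∈ B, d * d = 1) : B = V1 ∨ B = V2 := by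
  by_cases hx : sr 1 ∈ B ∨ sr 3 ∈ B
  · right
    have key : ∀ x y : DihedralGroup 4, (x = sr 1 ∨ x = sr 3) → y * y = 1 →
        (x * y) * (x * y) = 1 → (y = 1 ∨ y = r 2 ∨ y = sr 1 ∨ y = sr 3) := by decide
    apply Subgroup.eq_of_le_of_card_ge
    · intro y hy
      rcases hx with hx | hx
      · exact key _ y (Or.inl rfl) (he y hy) (he _ (B.mul_mem hx hy))
      · exact key _ y (Or.inr rfl) (he y hy) (he _ (B.mul_mem hx hy))
    · rw [card_V2, hc]
  · left
    push Not at hx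
    have key : ∀ y : DihedralGroup 4, y * y = 1 → y ≠ sr 1 → y ≠ sr 3 →
        (y = 1 ∨ y = r 2 ∨ y = sr 0 ∨ y = sr 2) := by decide
    apply Subgroup.eq_of_le_of_card_ge
    · intro y hy
      exact key y (he y hy) (fun h => hx.1 (h ▸ hy)) (fun h => hx.2 (h ▸ hy))
    · rw [card_V1, hc]

theorem d4_gen : ∀ d : DihedralGroup 4, ∃ k : Fin 4, ∃ e : Fin 2,
    d = sr 0 ^ (e : ℕ) * r 1 ^ (k : ℕ) := by decide

theorem d4_exp : ∀ d : DihedralGroup 4, d ^ 4 = 1 := by decide

end D4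

section General

variable {G : Type*} [Group G]

theorem two_mul_card_closure_le [Finite G] (T : Set G) (x : G) (hx : x ∉ Subgroup.closure T) :
    2 * Nat.card ↥(Subgroup.closure T) ≤ Nat.card ↥(Subgroup.closure (insert x T)) := by
  have hle : Subgroup.closure T ≤ Subgroup.closure (insert x T) :=
    Subgroup.closure_mono (Set.subset_insert x T)
  obtain ⟨m, hm⟩ := Subgroup.card_dvd_of_le hle
  have hpos : 0 < Nat.card ↥(Subgroup.closure (insert x T)) := Nat.card_pos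
  have hm1 : m ≠ 1 := by
    intro h
    rw [h, mul_one] at hm
    have h3 := Subgroup.eq_of_le_of_card_ge hle (le_of_eq hm)
    exact hx (h3 ▸ Subgroup.subset_closure (Set.mem_insert x T))
  have hm0 : m ≠ 0 := by
    rintro rfl
    omega
  have hm2 : 2 ≤ m := by omega
  rw [hm, mul_comm]
  exact Nat.mul_le_mul_left _ hm2

theorem mem_closure_singleton_three {i g : G} (hi : i ^ 3 = 1)
    (hg : g ∈ Subgroup.closure ({i} : Set G)) : g = 1 ∨ g = i ∨ g = i⁻¹ := by
  obtain ⟨n, rfl⟩ := Subgroup.mem_closure_singleton.mp hg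
  have hi' : i ^ (3 : ℤ) = 1 := by exact_mod_cast hi
  rw [zpow_eq_zpow_emod n hi']
  have h1 := Int.emod_nonneg n (by norm_num : (3 : ℤ) ≠ 0)
  have h2 := Int.emod_lt_of_pos n (by norm_num : (0 : ℤ) < 3)
  have h3 : n % 3 = 0 ∨ n % 3 = 1 ∨ n % 3 = 2 := by omega
  rcases h3 with h | h | h
  · left
    rw [h, zpow_zero]
  · right; left
    rw [h, zpow_one]
  · right; right
    rw [h]
    have : i ^ (2 : ℤ) * i = 1 := by
      have : i ^ (2 : ℤ) * i = i ^ (3 : ℤ) := by
        rw [show (3 : ℤ) = 2 + 1 by norm_num, zpow_add, zpow_one]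
      rw [this, hi']
    exact eq_inv_of_mul_eq_one_left this

/-- two independent elements generate a group of order nine -/
theorem closure_pair_eq [Finite G] (A : Subgroup G) (hA9 : Nat.card ↥A = 9) {u v : G}
    (hu : u ∈ A) (hv : v ∈ A) (hu1 : u ≠ 1) (hvu : v ∉ Subgroup.closure ({u} : Set G)) :
    Subgroup.closure ({v, u} : Set G) = A := by
  have hle1 : Subgroup.closure ({u} : Set G) ≤ A := by
    rw [Subgroup.closure_le]
    intro x hx
    rw [Set.mem_singleton_iff] at hx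
    rw [hx]
    exact hu
  have hle2 : Subgroup.closure ({v, u} : Set G) ≤ A := by
    rw [Subgroup.closure_le]
    intro x hx
    simp only [Set.mem_insert_iff, Set.mem_singleton_iff] at hx
    rcases hx with rfl | rfl
    · exact hv
    · exact hu
  have hd1 := Subgroup.card_dvd_of_le hle1
  have hd2 := Subgroup.card_dvd_of_le hle2
  rw [hA9] at hd1 hd2
  have hne : Subgroup.closure ({u} : Set G) ≠ ⊥ := by
    intro h
    have hmem : u ∈ Subgroup.closure ({u} : Set G) := Subgroup.subset_closure rfl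
    rw [h, Subgroup.mem_bot] at hmem
    exact hu1 hmem
  have h1 := (Subgroup.one_lt_card_iff_ne_bot _).mpr hne
  have h3 : 3 ≤ Nat.card ↥(Subgroup.closure ({u} : Set G)) := by
    have hle := Nat.le_of_dvd (by norm_num) hd1
    by_contra hlt
    push Not at hlt
    have : Nat.card ↥(Subgroup.closure ({u} : Set G)) = 2 := by omega
    rw [this] at hd1
    omega
  have h6 := two_mul_card_closure_le ({u} : Set G) v hvu
  have h9 : Nat.card ↥(Subgroup.closure ({v, u} : Set G)) = 9 := by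
    have hle := Nat.le_of_dvd (by norm_num) hd2
    have hge : 6 ≤ Nat.card ↥(Subgroup.closure ({v, u} : Set G)) := by omega
    generalize Nat.card ↥(Subgroup.closure ({v, u} : Set G)) = c at hd2 hle hge
    interval_cases c <;> omega
  exact Subgroup.eq_of_le_of_card_ge hle2 (by rw [h9, hA9])

end General


section Prime

variable {S : Type*} [Group S] {a b r s : S}

theorem Rel.prime (h : Rel a b r s) : Rel (a * b) (b * a⁻¹) r (s * r⁻¹) := by
  have hc : Commute a b := h.ab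
  have hra' : r * a⁻¹ = b⁻¹ * r := by
    calc r * a⁻¹ = b⁻¹ * (b * r) * a⁻¹ := by group
      _ = b⁻¹ * (r * a) * a⁻¹ := by rw [h.ra]
      _ = b⁻¹ * r := by group
  have hri_a : r⁻¹ * a = b⁻¹ * r⁻¹ := by
    calc r⁻¹ * a = r⁻¹ * (a * r) * r⁻¹ := by group
      _ = r⁻¹ * (r * b⁻¹) * r⁻¹ := by rw [rel_ar h]
      _ = b⁻¹ * r⁻¹ := by group
  have hri_b : r⁻¹ * b = a * r⁻¹ := by
    calc r⁻¹ * b = r⁻¹ * (b * r) * r⁻¹ := by group
      _ = r⁻¹ * (r * a) * r⁻¹ := by rw [h.ra]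
      _ = a * r⁻¹ := by group
  have hri_ai : r⁻¹ * a⁻¹ = b * r⁻¹ := by
    calc r⁻¹ * a⁻¹ = r⁻¹ * (a⁻¹ * r) * r⁻¹ := by group
      _ = r⁻¹ * (r * b) * r⁻¹ := by rw [h.rb]
      _ = b * r⁻¹ := by group
  have hsri : s * r⁻¹ = r * s := by
    calc s * r⁻¹ = r * (r⁻¹ * s) * r⁻¹ := by group
      _ = r * (s * r) * r⁻¹ := by rw [h.sr]
      _ = r * s := by group
  refine ⟨?_, ?_, ?_, ?_, ?_, ?_, ?_, ?_, h.r4, ?_⟩
  · rw [← pow_three', hc.mul_pow, pow_three', pow_three', h.a3, h.b3, one_mul]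
  · have hc' : Commute b a⁻¹ := hc.symm.inv_right
    rw [← pow_three', hc'.mul_pow, inv_pow, pow_three', pow_three', h.a3, h.b3, inv_one, one_mul]
  · have h1 : Commute (a * b) b := hc.mul_left (Commute.refl b)
    have h2 : Commute (a * b) a⁻¹ := ((Commute.refl a).mul_left hc.symm).inv_right
    exact (h1.mul_right h2).eq
  · calc r * (a * b) = r * a * b := (mul_assoc _ _ _).symm
      _ = b * r * b := by rw [h.ra]
      _ = b * (r * b) := mul_assoc _ _ _
      _ = b * (a⁻¹ * r) := by rw [h.rb]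
      _ = b * a⁻¹ * r := (mul_assoc _ _ _).symm
  · calc r * (b * a⁻¹) = r * b * a⁻¹ := (mul_assoc _ _ _).symm
      _ = a⁻¹ * r * a⁻¹ := by rw [h.rb]
      _ = a⁻¹ * (r * a⁻¹) := mul_assoc _ _ _
      _ = a⁻¹ * (b⁻¹ * r) := by rw [hra']
      _ = (b * a)⁻¹ * r := by rw [mul_inv_rev, mul_assoc]
      _ = (a * b)⁻¹ * r := by rw [h.ab]
  · calc s * r⁻¹ * (a * b) = s * (r⁻¹ * a) * b := by group
      _ = s * (b⁻¹ * r⁻¹) * b := by rw [hri_a]
      _ = s * b⁻¹ * (r⁻¹ * b) := by group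
      _ = b * s * (a * r⁻¹) := by rw [rel_sb' h, hri_b]
      _ = b * (s * a) * r⁻¹ := by group
      _ = b * (a * s) * r⁻¹ := by rw [h.sa]
      _ = b * a * (s * r⁻¹) := by group
      _ = a * b * (s * r⁻¹) := by rw [h.ab]
  · calc s * r⁻¹ * (b * a⁻¹) = s * (r⁻¹ * b) * a⁻¹ := by group
      _ = s * (a * r⁻¹) * a⁻¹ := by rw [hri_b]
      _ = s * a * (r⁻¹ * a⁻¹) := by group
      _ = a * s * (b * r⁻¹) := by rw [h.sa, hri_ai]
      _ = a * (s * b) * r⁻¹ := by group
      _ = a * (b⁻¹ * s) * r⁻¹ := by rw [h.sb]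
      _ = (b * a⁻¹)⁻¹ * (s * r⁻¹) := by group
  · calc s * r⁻¹ * (s * r⁻¹) = r * s * (s * r⁻¹) := by rw [hsri]
      _ = r * (s * s) * r⁻¹ := by group
      _ = 1 := by rw [h.s2, mul_one, mul_inv_cancel]
  · calc s * r⁻¹ * r = s := by group
      _ = r⁻¹ * (r * s) := by group
      _ = r⁻¹ * (s * r⁻¹) := by rw [hsri]

theorem eq_one_of_inv_eq {g : S} (h3 : g ^ 3 = 1) (h : g⁻¹ = g) : g = 1 := by
  have h2 : g * g = 1 := by
    nth_rewrite 1 [← h]
    exact inv_mul_cancel g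
  rw [pow_three', h2, one_mul] at h3
  exact h3

end Prime

end Cfsg.Agent.Lib.Helper60.D8Mod
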