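import Mathlib
import Cfsg.Agent.Lib.Helper60.D8Mod

set_option autoImplicit false
set_option linter.unusedSectionVars false
set_option linter.style.haveILetI false
set_option linter.unusedSimpArgs false
set_option linter.unusedVariables false

/-! Faithful irreducible `F₂`-modules of `3² : D₈`: the assembly (helper60). -/

namespace Cfsg.Agent.Lib.Helper60.D8Mod

section Final

variable {S : Type*} [Group S]

theorem conj_notMem {a r : S} (ha3 : a ^ 3 = 1) (ha1 : a ≠ 1)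
    (hz : r * r * a * (r * r)⁻¹ = a⁻¹) : r * a * r⁻¹ ∉ Subgroup.closure ({a} : Set S) := by
  intro hmem
  have hzz : r * r * a * (r * r)⁻¹ = r * (r * a * r⁻¹) * r⁻¹ := by group
  rcases mem_closure_singleton_three ha3 hmem with h | h | h
  · apply ha1
    calc a = r⁻¹ * (r * a * r⁻¹) * r := by group
      _ = 1 := by rw [h]; group
  · rw [hzz, h, h] at hz
    exact ha1 (eq_one_of_inv_eq ha3 hz.symm)
  · rw [hzz, h] at hz
    have : r * a⁻¹ * r⁻¹ = (r * a * r⁻¹)⁻¹ := by group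
    rw [this, h, inv_inv] at hz
    exact ha1 (eq_one_of_inv_eq ha3 hz.symm)

theorem cj1 (z x : S) :
    z * (x⁻¹ * (z * x * z⁻¹)) * z⁻¹ = (z * x * z⁻¹)⁻¹ * (z * z * x * (z * z)⁻¹) := by group

theorem cj_inv (z y : S) : z * y⁻¹ * z⁻¹ = (z * y * z⁻¹)⁻¹ := by group

theorem setup_core [Finite S] (A : Subgroup S) [hN : A.Normal]
    (hA : Cfsg.IsElementaryAbelian 3 A)
    (hA9 : Nat.card ↥A = 9) (hAC : Subgroup.centralizer (A : Set S) = A)
    (r' s' : S) (hs2 : s' * s' = 1) (hr4 : r' * r' * (r' * r') = 1)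
    (hsr : s' * r' = r'⁻¹ * s') (hzA' : r' * r' ∉ A) (hszA' : s' * (r' * r') ∉ A) :
    ∃ a b : S, a ≠ 1 ∧ b ∉ Subgroup.closure ({a} : Set S) ∧
      Subgroup.closure ({b, a} : Set S) = A ∧ Rel a b r' s' := by
  have hcomm : ∀ x ∈ A, ∀ y ∈ A, x * y = y * x := by
    intro x hx y hy
    have := hA.1.is_comm.comm ⟨x, hx⟩ ⟨y, hy⟩
    exact congrArg Subtype.val this
  have hexp : ∀ x ∈ A, x ^ 3 = 1 := hA.2
  have hconj : ∀ g : S, ∀ x ∈ A, g * x * g⁻¹ ∈ A := fun g x hx => hN.conj_mem x hx g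
  have hcentral : ∀ g : S, (∀ x ∈ A, g * x * g⁻¹ = x) → g ∈ A := by
    intro g hg
    rw [← hAC, Subgroup.mem_centralizer_iff]
    intro x hx
    have := hg x hx
    calc x * g = g * x * g⁻¹ * g := by rw [this]
      _ = g * x := by group
  have hzinv : (r' * r')⁻¹ = r' * r' := inv_eq_of_mul_eq_one_right hr4
  -- the central involution of `X` inverts some element of `A`
  have hz1 : ∃ i ∈ A, i ≠ 1 ∧ r' * r' * i * (r' * r')⁻¹ = i⁻¹ := by
    by_contra hcon
    push Not at hcon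
    have hzA : r' * r' ∈ A := by
      apply hcentral
      intro x hx
      by_contra hne
      have hyA : x⁻¹ * (r' * r' * x * (r' * r')⁻¹) ∈ A :=
        A.mul_mem (A.inv_mem hx) (hconj _ x hx)
      have hy1 : x⁻¹ * (r' * r' * x * (r' * r')⁻¹) ≠ 1 := by
        intro h
        apply hne
        exact (inv_mul_eq_one.mp h).symm
      apply hcon _ hyA hy1
      calc r' * r' * (x⁻¹ * (r' * r' * x * (r' * r')⁻¹)) * (r' * r')⁻¹
          = (r' * r' * x * (r' * r')⁻¹)⁻¹ *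
              (r' * r' * (r' * r') * x * (r' * r' * (r' * r'))⁻¹) := cj1 (r' * r') x
        _ = (r' * r' * x * (r' * r')⁻¹)⁻¹ * x := by rw [hr4]; group
        _ = (x⁻¹ * (r' * r' * x * (r' * r')⁻¹))⁻¹ := by group
    exact hzA' hzA
  obtain ⟨i, hiA, hi1, hiz⟩ := hz1
  have hi' := conj_notMem (hexp i hiA) hi1 hiz
  have hclA := closure_pair_eq A hA9 hiA (hconj r' i hiA) hi1 hi'
  have hzall : ∀ x ∈ A, r' * r' * x * (r' * r')⁻¹ = x⁻¹ := by
    intro x hx
    have hx' : x ∈ Subgroup.closure ({r' * i * r'⁻¹, i} : Set S) := by rw [hclA]; exact hx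
    have hsub : ∀ y ∈ Subgroup.closure ({r' * i * r'⁻¹, i} : Set S), y ∈ A := by
      intro y hy; rw [hclA] at hy; exact hy
    refine Subgroup.closure_induction (p := fun y _ => r' * r' * y * (r' * r')⁻¹ = y⁻¹)
      ?_ ?_ ?_ ?_ hx'
    · intro y hy
      simp only [Set.mem_insert_iff, Set.mem_singleton_iff] at hy
      rcases hy with rfl | rfl
      · calc r' * r' * (r' * i * r'⁻¹) * (r' * r')⁻¹
            = r' * (r' * r' * i * (r' * r')⁻¹) * r'⁻¹ := by group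
          _ = r' * i⁻¹ * r'⁻¹ := by rw [hiz]
          _ = (r' * i * r'⁻¹)⁻¹ := by group
      · exact hiz
    · group
    · intro y w hy hw ihy ihw
      calc r' * r' * (y * w) * (r' * r')⁻¹
          = (r' * r' * y * (r' * r')⁻¹) * (r' * r' * w * (r' * r')⁻¹) := by group
        _ = y⁻¹ * w⁻¹ := by rw [ihy, ihw]
        _ = (w * y)⁻¹ := by group
        _ = (y * w)⁻¹ := by rw [hcomm w (hsub w hw) y (hsub y hy)]
    · intro y hy ihy
      calc r' * r' * y⁻¹ * (r' * r')⁻¹ = (r' * r' * y * (r' * r')⁻¹)⁻¹ := cj_inv (r' * r') y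
        _ = y⁻¹⁻¹ := by rw [ihy]
  -- the reflection fixes some element of `A`
  have hs1 : ∃ a ∈ A, a ≠ 1 ∧ s' * a * s'⁻¹ = a := by
    by_contra hcon
    push Not at hcon
    have hsinv : ∀ x ∈ A, s' * x * s'⁻¹ = x⁻¹ := by
      intro x hx
      by_contra hne
      have hyA : x * (s' * x * s'⁻¹) ∈ A := A.mul_mem hx (hconj _ x hx)
      have hy1 : x * (s' * x * s'⁻¹) ≠ 1 := by
        intro h
        exact hne (eq_inv_of_mul_eq_one_right h)
      apply hcon _ hyA hy1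
      calc s' * (x * (s' * x * s'⁻¹)) * s'⁻¹
          = (s' * x * s'⁻¹) * (s' * s' * x * (s' * s')⁻¹) := by group
        _ = (s' * x * s'⁻¹) * x := by rw [hs2]; group
        _ = x * (s' * x * s'⁻¹) := hcomm _ (hconj _ x hx) _ hx
    have hszA : s' * (r' * r') ∈ A := by
      apply hcentral
      intro x hx
      calc s' * (r' * r') * x * (s' * (r' * r'))⁻¹
          = s' * (r' * r' * x * (r' * r')⁻¹) * s'⁻¹ := by group
        _ = s' * x⁻¹ * s'⁻¹ := by rw [hzall x hx]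
        _ = (s' * x * s'⁻¹)⁻¹ := by group
        _ = x := by rw [hsinv x hx, inv_inv]
    exact hszA' hszA
  obtain ⟨a, haA, ha1, hsa⟩ := hs1
  have hza := hzall a haA
  have hbA := hconj r' a haA
  refine ⟨a, r' * a * r'⁻¹, ha1, conj_notMem (hexp a haA) ha1 hza,
    closure_pair_eq A hA9 haA hbA ha1 (conj_notMem (hexp a haA) ha1 hza), ?_⟩
  refine ⟨?_, ?_, ?_, ?_, ?_, ?_, ?_, hs2, hr4, hsr⟩
  · rw [← pow_three']; exact hexp a haA
  · rw [← pow_three']; exact hexp _ hbA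
  · exact hcomm a haA _ hbA
  · group
  · calc r' * (r' * a * r'⁻¹) = (r' * r' * a * (r' * r')⁻¹) * r' := by group
      _ = a⁻¹ * r' := by rw [hza]
  · calc s' * a = (s' * a * s'⁻¹) * s' := by group
      _ = a * s' := by rw [hsa]
  · have hsri : s' * r'⁻¹ = r' * s' := by
      calc s' * r'⁻¹ = r' * (r'⁻¹ * s') * r'⁻¹ := by group
        _ = r' * (s' * r') * r'⁻¹ := by rw [hsr]
        _ = r' * s' := by group
    have hza' : (r' * r')⁻¹ * a * (r' * r') = a⁻¹ := by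
      calc (r' * r')⁻¹ * a * (r' * r') = (r' * r') * a * (r' * r') := by rw [hzinv]
        _ = (r' * r') * a * (r' * r')⁻¹ := by rw [hzinv]
        _ = a⁻¹ := hza
    calc s' * (r' * a * r'⁻¹) = (s' * r') * a * r'⁻¹ := by group
      _ = r'⁻¹ * s' * a * r'⁻¹ := by rw [hsr]
      _ = r'⁻¹ * (s' * a * s'⁻¹) * (s' * r'⁻¹) := by group
      _ = r'⁻¹ * a * (r' * s') := by rw [hsa, hsri]
      _ = r' * ((r' * r')⁻¹ * a * (r' * r')) * r'⁻¹ * s' := by group
      _ = r' * a⁻¹ * r'⁻¹ * s' := by rw [hza']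
      _ = (r' * a * r'⁻¹)⁻¹ * s' := by group

open DihedralGroup in
theorem setup [Finite S] (A : Subgroup S) [hN : A.Normal] (hA : Cfsg.IsElementaryAbelian 3 A)
    (hA9 : Nat.card ↥A = 9) (hAC : Subgroup.centralizer (A : Set S) = A)
    (ι : DihedralGroup 4 →* S) (hι : Function.Injective ι) :
    ∃ a b : S, a ≠ 1 ∧ b ∉ Subgroup.closure ({a} : Set S) ∧
      Subgroup.closure ({b, a} : Set S) = A ∧ Rel a b (ι (r 1)) (ι (sr 0)) := by
  have hexp : ∀ x ∈ A, x ^ 3 = 1 := hA.2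
  have hAι : ∀ d, ι d ∈ A → d = 1 := by
    intro d hd
    have h3 := hexp _ hd
    have h4 : ι d ^ 4 = 1 := by rw [← map_pow, d4_exp, map_one]
    have : ι d = 1 := by
      calc ι d = ι d ^ 4 * (ι d ^ 3)⁻¹ := by group
        _ = 1 := by rw [h3, h4]; group
    exact hι (by rw [this, map_one])
  have hs2 : ι (sr 0) * ι (sr 0) = 1 := by
    rw [← map_mul, show (sr 0 * sr 0 : DihedralGroup 4) = 1 by decide, map_one]
  have hr4 : ι (r 1) * ι (r 1) * (ι (r 1) * ι (r 1)) = 1 := by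
    rw [← map_mul, ← map_mul,
      show (r 1 * r 1 * (r 1 * r 1) : DihedralGroup 4) = 1 by decide, map_one]
  have hsr : ι (sr 0) * ι (r 1) = (ι (r 1))⁻¹ * ι (sr 0) := by
    rw [← map_inv, ← map_mul, ← map_mul]
    exact congrArg ι (by decide)
  refine setup_core A hA hA9 hAC (ι (r 1)) (ι (sr 0)) hs2 hr4 hsr ?_ ?_
  · intro hzA
    have := hAι (r 1 * r 1) (by rw [map_mul]; exact hzA)
    exact absurd this (by decide)
  · intro hszA
    have := hAι (sr 0 * (r 1 * r 1)) (by rw [map_mul, map_mul]; exact hszA)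
    exact absurd this (by decide)

open DihedralGroup in
theorem irr_of (A X : Subgroup S) (hAX : A ⊔ X = ⊤) (ι : DihedralGroup 4 →* S)
    (hXι : ∀ x ∈ X, ∃ d, ι d = x) {a b : S} (hcl : Subgroup.closure ({b, a} : Set S) = A)
    (hrel : Rel a b (ι (r 1)) (ι (sr 0)))
    {M : Type*} [AddCommGroup M] [Module (ZMod 2) M] (ρ : Representation (ZMod 2) S M)
    (hirr : ∀ N : Submodule (ZMod 2) M, (∀ s : S, ∀ m ∈ N, ρ s m ∈ N) → N = ⊥ ∨ N = ⊤) :
    Irr ρ a b (ι (r 1)) (ι (sr 0)) := by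
  intro N ha hb hr hs
  apply hirr
  let St : Subgroup S :=
    { carrier := {g | (∀ m ∈ N, ρ g m ∈ N) ∧ (∀ m ∈ N, ρ g⁻¹ m ∈ N)}
      mul_mem' := by
        rintro g h ⟨hg1, hg2⟩ ⟨hh1, hh2⟩
        refine ⟨fun m hm => ?_, fun m hm => ?_⟩
        · rw [rmul]; exact hg1 _ (hh1 m hm)
        · rw [mul_inv_rev, rmul]; exact hh2 _ (hg2 m hm)
      one_mem' := by
        refine ⟨fun m hm => ?_, fun m hm => ?_⟩
        · rw [rone]; exact hm
        · rw [inv_one, rone]; exact hm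
      inv_mem' := by
        rintro g ⟨hg1, hg2⟩
        refine ⟨hg2, fun m hm => ?_⟩
        rw [inv_inv]; exact hg1 m hm }
  have haS : a ∈ St :=
    ⟨ha, fun m hm => by rw [rel_ainv hrel, rmul]; exact ha _ (ha m hm)⟩
  have hbS : b ∈ St :=
    ⟨hb, fun m hm => by rw [rel_binv hrel, rmul]; exact hb _ (hb m hm)⟩
  have hrS : ι (r 1) ∈ St :=
    ⟨hr, fun m hm => by
      rw [rel_rinv hrel, rmul ρ (ι (r 1)) (ι (r 1) * ι (r 1)), rmul ρ (ι (r 1)) (ι (r 1))]
      exact hr _ (hr _ (hr m hm))⟩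
  have hsS : ι (sr 0) ∈ St :=
    ⟨hs, fun m hm => by rw [inv_eq_of_mul_eq_one_right hrel.s2]; exact hs m hm⟩
  have hAS : A ≤ St := by
    rw [← hcl, Subgroup.closure_le]
    intro x hx
    simp only [Set.mem_insert_iff, Set.mem_singleton_iff] at hx
    rcases hx with rfl | rfl
    · exact hbS
    · exact haS
  have hXS : X ≤ St := by
    intro x hx
    obtain ⟨d, rfl⟩ := hXι x hx
    obtain ⟨k, e, rfl⟩ := d4_gen d
    rw [map_mul, map_pow, map_pow]
    exact St.mul_mem (St.pow_mem hsS _) (St.pow_mem hrS _)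
  have hall : ∀ g : S, g ∈ St := by
    intro g
    have : g ∈ A ⊔ X := by rw [hAX]; exact Subgroup.mem_top g
    exact (sup_le hAS hXS) this
  intro g m hm
  exact (hall g).1 m hm

theorem fix_iff {M : Type*} [AddCommGroup M] [Module (ZMod 2) M]
    (ρ : Representation (ZMod 2) S M) (ι : DihedralGroup 4 →* S)
    (V : Subgroup (DihedralGroup 4)) (d1 d2 : DihedralGroup 4)
    (h1 : d1 ∈ V) (h2 : d2 ∈ V) (hV : ∀ d ∈ V, d = 1 ∨ d = d1 ∨ d = d2 ∨ d = d2 * d1) (m : M) :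
    (∀ g ∈ V.map ι, ρ g m = m) ↔ (ρ (ι d1) m = m ∧ ρ (ι d2) m = m) := by
  constructor
  · intro h
    exact ⟨h _ (Subgroup.mem_map_of_mem ι h1), h _ (Subgroup.mem_map_of_mem ι h2)⟩
  · rintro ⟨e1, e2⟩ g hg
    obtain ⟨d, hd, rfl⟩ := Subgroup.mem_map.mp hg
    rcases hV d hd with rfl | rfl | rfl | rfl
    · rw [map_one, rone]
    · exact e1
    · exact e2
    · rw [map_mul, rmul, e1, e2]

theorem exists_moved {M : Type*} [AddCommGroup M] [Module (ZMod 2) M]
    (ρ : Representation (ZMod 2) S M)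
    (hfaith : Function.Injective ρ) {g : S} (hg : g ≠ 1) : ∃ m, ρ g m ≠ m := by
  by_contra hcon
  push Not at hcon
  apply hg
  apply hfaith
  apply LinearMap.ext
  intro m
  rw [hcon m, rone]

theorem quad {M : Type*} [AddCommGroup M] [Module (ZMod 2) M] (ρ : Representation (ZMod 2) S M)
    {x : S} (hx3 : x * x * x = 1) (hF : Fx ρ x = ⊥) (m : M) : ρ x (ρ x m) = ρ x m + m := by
  have h3 : ρ x (ρ x (ρ x m)) = m := by
    rw [← rmul ρ x x (ρ x m), ← rmul ρ (x * x) x m, hx3, rone]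
  have hmem : m + ρ x m + ρ x (ρ x m) ∈ Fx ρ x := by
    rw [mem_Fx, map_add, map_add, h3]
    abel
  rw [hF, Submodule.mem_bot] at hmem
  have h5 : ρ x (ρ x m) = -(m + ρ x m) := eq_neg_of_add_eq_zero_right hmem
  rw [h5, ZModModule.neg_eq_self, add_comm]

open DihedralGroup in
theorem V1_elems : ∀ d : DihedralGroup 4, (d = 1 ∨ d = r 2 ∨ d = sr 0 ∨ d = sr 2) →
    d = 1 ∨ d = r 2 ∨ d = sr 0 ∨ d = sr 0 * r 2 := by decide

open DihedralGroup in
theorem V2_elems : ∀ d : DihedralGroup 4, (d = 1 ∨ d = r 2 ∨ d = sr 1 ∨ d = sr 3) →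
    d = 1 ∨ d = r 2 ∨ d = sr 1 ∨ d = sr 1 * r 2 := by decide

open DihedralGroup in
theorem V2_elems' : ∀ d : DihedralGroup 4, (d = 1 ∨ d = r 2 ∨ d = sr 1 ∨ d = sr 3) →
    d = 1 ∨ d = r 2 ∨ d = sr 3 ∨ d = sr 3 * r 2 := by decide

open DihedralGroup in
theorem V1_exp : ∀ d : DihedralGroup 4, (d = 1 ∨ d = r 2 ∨ d = sr 0 ∨ d = sr 2) →
    d ^ 2 = 1 := by decide

open DihedralGroup in
theorem V2_exp : ∀ d : DihedralGroup 4, (d = 1 ∨ d = r 2 ∨ d = sr 1 ∨ d = sr 3) →
    d ^ 2 = 1 := by decide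

open DihedralGroup in
theorem main [Finite S] (A : Subgroup S) [A.Normal] (hA : Cfsg.IsElementaryAbelian 3 A)
    (hA9 : Nat.card ↥A = 9) (hAC : Subgroup.centralizer (A : Set S) = A) (X : Subgroup S)
    (hX : Nonempty (↥X ≃* DihedralGroup 4)) (hAX : A ⊔ X = ⊤)
    {M : Type*} [AddCommGroup M] [Module (ZMod 2) M] [Finite M]
    (ρ : Representation (ZMod 2) S M) (hfaith : Function.Injective ρ)
    (hirr : ∀ N : Submodule (ZMod 2) M, (∀ s : S, ∀ m ∈ N, ρ s m ∈ N) → N = ⊥ ∨ N = ⊤)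
    (hM : Nontrivial M) :
    Nat.card M = 16 ∧ ∃! B : Subgroup S, B ≤ X ∧ Nat.card ↥B = 4 ∧ (∀ b ∈ B, b ^ 2 = 1) ∧
      Nat.card {m : M // ∀ b ∈ B, ρ b m = m} = 2 := by
  haveI := hM
  obtain ⟨e⟩ := hX
  let ι : DihedralGroup 4 →* S := X.subtype.comp e.symm.toMonoidHom
  have hι : Function.Injective ι := X.subtype_injective.comp e.symm.injective
  have hιX : ∀ d, ι d ∈ X := fun d => (e.symm d).2
  have hXι : ∀ x ∈ X, ∃ d, ι d = x := fun x hx => ⟨e ⟨x, hx⟩, by
    show ((e.symm (e ⟨x, hx⟩) : X) : S) = x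
    rw [e.symm_apply_apply]⟩
  obtain ⟨a, b, ha1, hba, hcl, hrel⟩ := setup A hA hA9 hAC ι hι
  have hIrr := irr_of A X hAX ι hXι hcl hrel ρ hirr
  have ez : ι (r 1) * ι (r 1) = ι (r 2) := by
    rw [← map_mul]; exact congrArg ι (by decide)
  have esr : ι (sr 0) * ι (r 1) = ι (sr 1) := by
    rw [← map_mul]; exact congrArg ι (by decide)
  have esr3 : ι (sr 0) * (ι (r 1))⁻¹ = ι (sr 3) := by
    rw [← map_inv, ← map_mul]; exact congrArg ι (by decide)
  have hB1X : V1.map ι ≤ X := by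
    rintro g ⟨d, -, rfl⟩; exact hιX d
  have hB2X : V2.map ι ≤ X := by
    rintro g ⟨d, -, rfl⟩; exact hιX d
  have hB1c : Nat.card ↥(V1.map ι) = 4 := by
    rw [Subgroup.card_map_of_injective hι, card_V1]
  have hB2c : Nat.card ↥(V2.map ι) = 4 := by
    rw [Subgroup.card_map_of_injective hι, card_V2]
  have hB1e : ∀ g ∈ V1.map ι, g ^ 2 = 1 := by
    rintro g ⟨d, hd, rfl⟩
    rw [← map_pow, V1_exp d (mem_V1.mp hd), map_one]
  have hB2e : ∀ g ∈ V2.map ι, g ^ 2 = 1 := by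
    rintro g ⟨d, hd, rfl⟩
    rw [← map_pow, V2_exp d (mem_V2.mp hd), map_one]
  have hcases : ∀ B : Subgroup S, B ≤ X → Nat.card ↥B = 4 → (∀ g ∈ B, g ^ 2 = 1) →
      B = V1.map ι ∨ B = V2.map ι := by
    intro B hBX hBc hBe
    have hBr : B ≤ ι.range := by
      intro x hx
      obtain ⟨d, rfl⟩ := hXι x (hBX hx)
      exact ⟨d, rfl⟩
    have hmc : (B.comap ι).map ι = B := Subgroup.map_comap_eq_self hBr
    have hc : Nat.card ↥(B.comap ι) = 4 := by
      rw [← Subgroup.card_map_of_injective hι, hmc, hBc]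
    have he : ∀ d ∈ B.comap ι, d * d = 1 := by
      intro d hd
      apply hι
      rw [map_mul, map_one, ← pow_two]
      exact hBe _ hd
    rcases four_cases _ hc he with h | h
    · left; rw [← hmc, h]
    · right; rw [← hmc, h]
  have hf1 : ∀ m, (∀ g ∈ V1.map ι, ρ g m = m) ↔ (ρ (ι (r 2)) m = m ∧ ρ (ι (sr 0)) m = m) :=
    fix_iff ρ ι V1 (r 2) (sr 0) (mem_V1.mpr (Or.inr (Or.inl rfl)))
      (mem_V1.mpr (Or.inr (Or.inr (Or.inl rfl)))) (fun d hd => V1_elems d (mem_V1.mp hd))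
  have hf2 : ∀ m, (∀ g ∈ V2.map ι, ρ g m = m) ↔ (ρ (ι (r 2)) m = m ∧ ρ (ι (sr 1)) m = m) :=
    fix_iff ρ ι V2 (r 2) (sr 1) (mem_V2.mpr (Or.inr (Or.inl rfl)))
      (mem_V2.mpr (Or.inr (Or.inr (Or.inl rfl)))) (fun d hd => V2_elems d (mem_V2.mp hd))
  have hf2' : ∀ m, (∀ g ∈ V2.map ι, ρ g m = m) ↔ (ρ (ι (r 2)) m = m ∧ ρ (ι (sr 3)) m = m) :=
    fix_iff ρ ι V2 (r 2) (sr 3) (mem_V2.mpr (Or.inr (Or.inl rfl)))
      (mem_V2.mpr (Or.inr (Or.inr (Or.inr rfl)))) (fun d hd => V2_elems' d (mem_V2.mp hd))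
  rcases hIrr (Fx ρ a ⊔ Fx ρ b) (sup_inv ρ hrel).1 (sup_inv ρ hrel).2.1 (sup_inv ρ hrel).2.2.1
    (sup_inv ρ hrel).2.2.2 with hbot | htop
  · -- the twisted generators
    have hFa : Fx ρ a = ⊥ := le_bot_iff.mp (hbot ▸ le_sup_left)
    have hFb : Fx ρ b = ⊥ := le_bot_iff.mp (hbot ▸ le_sup_right)
    have hrel' := hrel.prime
    have hIrr' : Irr ρ (a * b) (b * a⁻¹) (ι (r 1)) (ι (sr 0) * (ι (r 1))⁻¹) := by
      intro N h1 h2 h3 h4
      have ea : a * b * (a * b) * (b * a⁻¹) = a := by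
        calc a * b * (a * b) * (b * a⁻¹) = a * (b * a) * b * b * a⁻¹ := by group
          _ = a * (a * b) * b * b * a⁻¹ := by rw [← hrel.ab]
          _ = a * a * (b * b * b) * a⁻¹ := by group
          _ = a := by rw [hrel.b3]; group
      have eb : a * b * (a * b) * (b * a⁻¹) * (b * a⁻¹) = b := by
        calc a * b * (a * b) * (b * a⁻¹) * (b * a⁻¹) = a * (b * a⁻¹) := by rw [ea]
          _ = a * b * a⁻¹ := by group
          _ = b * a * a⁻¹ := by rw [hrel.ab]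
          _ = b := by group
      have es : ι (sr 0) * (ι (r 1))⁻¹ * ι (r 1) = ι (sr 0) := by group
      apply hIrr N
      · intro m hm
        rw [← ea, rmul ρ (a * b * (a * b)) (b * a⁻¹), rmul ρ (a * b) (a * b)]
        exact h1 _ (h1 _ (h2 m hm))
      · intro m hm
        rw [← eb, rmul ρ (a * b * (a * b) * (b * a⁻¹)) (b * a⁻¹),
          rmul ρ (a * b * (a * b)) (b * a⁻¹), rmul ρ (a * b) (a * b)]
        exact h1 _ (h1 _ (h2 _ (h2 m hm)))
      · exact h3
      · intro m hm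
        rw [← es, rmul]
        exact h4 _ (h3 m hm)
    have hF' : Fx ρ (a * b) ⊔ Fx ρ (b * a⁻¹) = ⊤ := by
      rcases hIrr' _ (sup_inv ρ hrel').1 (sup_inv ρ hrel').2.1 (sup_inv ρ hrel').2.2.1
        (sup_inv ρ hrel').2.2.2 with hb' | ht'
      · exfalso
        have hFab : Fx ρ (a * b) = ⊥ := le_bot_iff.mp (hb' ▸ le_sup_left)
        have hab3 : a * b * (a * b) * (a * b) = 1 := hrel'.a3
        have hρ : ρ a = ρ b := by
          apply LinearMap.ext
          intro m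
          have q1 := quad ρ hrel.a3 hFa
          have q2 := quad ρ hrel.b3 hFb
          have q3 := quad ρ hab3 hFab m
          have eg : a * b * (a * b) = a * (a * (b * b)) := by
            calc a * b * (a * b) = a * (b * a) * b := by group
              _ = a * (a * b) * b := by rw [← hrel.ab]
              _ = a * (a * (b * b)) := by group
          have e1 : ρ (a * b) (ρ (a * b) m) = ρ a (ρ a (ρ b (ρ b m))) := by
            rw [← rmul ρ (a * b) (a * b) m, eg, rmul ρ a (a * (b * b)), rmul ρ a (b * b),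
              rmul ρ b b]
          rw [e1, rmul ρ a b m, q2 m, map_add, map_add, q1 (ρ b m), q1 m] at q3
          have h5 : ρ a (ρ b m) + m + (ρ b m + ρ a m) = ρ a (ρ b m) + m + 0 := by
            rw [add_zero]
            calc ρ a (ρ b m) + m + (ρ b m + ρ a m)
                = ρ a (ρ b m) + ρ b m + (ρ a m + m) := by abel
              _ = ρ a (ρ b m) + m := q3
          have h6 : ρ b m + ρ a m = 0 := add_left_cancel h5
          have h7 := eq_neg_of_add_eq_zero_right h6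
          rw [ZModModule.neg_eq_self] at h7
          exact h7
        exact hba (by rw [← hfaith hρ]; exact Subgroup.subset_closure rfl)
      · exact ht'
    have hab1 : a * b ≠ 1 := by
      intro h
      apply hba
      rw [eq_inv_of_mul_eq_one_right h]
      exact Subgroup.inv_mem _ (Subgroup.subset_closure rfl)
    have h0' := fix_zero ρ hrel' hIrr' (exists_moved ρ hfaith hab1)
    obtain ⟨h16, h4, h2⟩ := main_case ρ hrel' hIrr' h0' hF'
    rw [ez] at h4 h2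
    rw [esr3] at h4
    rw [show ι (sr 0) * (ι (r 1))⁻¹ * ι (r 1) = ι (sr 0) by group] at h2
    have c1 : Nat.card {m : M // ∀ g ∈ V1.map ι, ρ g m = m} = 2 := by
      exact (Nat.card_congr (Equiv.subtypeEquivRight hf1)).trans h2
    have c2 : Nat.card {m : M // ∀ g ∈ V2.map ι, ρ g m = m} = 4 := by
      exact (Nat.card_congr (Equiv.subtypeEquivRight hf2')).trans h4
    refine ⟨h16, V1.map ι, ⟨hB1X, hB1c, hB1e, c1⟩, ?_⟩
    rintro B ⟨hBX, hBc, hBe, hBf⟩
    rcases hcases B hBX hBc hBe with rfl | rfl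
    · rfl
    · rw [c2] at hBf; omega
  · have h0 := fix_zero ρ hrel hIrr (exists_moved ρ hfaith ha1)
    obtain ⟨h16, h4, h2⟩ := main_case ρ hrel hIrr h0 htop
    rw [ez] at h4 h2
    rw [esr] at h2
    have c1 : Nat.card {m : M // ∀ g ∈ V1.map ι, ρ g m = m} = 4 := by
      exact (Nat.card_congr (Equiv.subtypeEquivRight hf1)).trans h4
    have c2 : Nat.card {m : M // ∀ g ∈ V2.map ι, ρ g m = m} = 2 := by
      exact (Nat.card_congr (Equiv.subtypeEquivRight hf2)).trans h2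
    refine ⟨h16, V2.map ι, ⟨hB2X, hB2c, hB2e, c2⟩, ?_⟩
    rintro B ⟨hBX, hBc, hBe, hBf⟩
    rcases hcases B hBX hBc hBe with rfl | rfl
    · rw [c1] at hBf; omega
    · rfl

end Final

end Cfsg.Agent.Lib.Helper60.D8Mod
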