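import Mathlib
import Cfsg.Prelude.Def_Transfer
import Cfsg.Prelude.Def_KGroupFacts
import Cfsg.Agent.Lib.Helper94.LargeExtra

set_option autoImplicit false
set_option linter.unusedSectionVars false
set_option linter.style.haveILetI false

/-! Griess: `Aut` of an extraspecial 2-group of order at least `2^7` does not split over `Inn`
(helper60). -/

namespace Cfsg.Agent.Lib.Helper60.Griess

open scoped commutatorElement

section Core

variable {Q : Type*} [Group Q]

/-- A group of class two with centre `{1, z}` of order two and all squares central. -/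
structure ES (Q : Type*) [Group Q] (z : Q) : Prop where
  zc : ∀ x : Q, x * z = z * x
  zz : z * z = 1
  z1 : z ≠ 1
  comm : ∀ x y : Q, x * y = y * x ∨ x * y = z * (y * x)
  cen : ∀ x : Q, (∀ y, x * y = y * x) → x = 1 ∨ x = z
  sq : ∀ x : Q, x * x = 1 ∨ x * x = z

open Classical in
/-- The lift of a reflection: `x ↦ x` if `x` commutes with `v`, `x ↦ x * v` otherwise. -/
noncomputable def rhoFun (v x : Q) : Q := if x * v = v * x then x else x * v

theorem rhoFun_comm {v x : Q} (h : x * v = v * x) : rhoFun v x = x := if_pos h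

theorem rhoFun_ncomm {v x : Q} (h : x * v ≠ v * x) : rhoFun v x = x * v := if_neg h

theorem ES.ncomm {z : Q} (H : ES Q z) {x y : Q} (h : x * y ≠ y * x) : x * y = z * (y * x) :=
  (H.comm x y).resolve_left h

theorem ES.ncomm' {z : Q} (H : ES Q z) {x y : Q} (h : x * y ≠ y * x) : y * x = z * (x * y) := by
  rw [H.ncomm h, ← mul_assoc, H.zz, one_mul]

theorem rhoFun_mul {z : Q} (H : ES Q z) {v : Q} (hv : v * v = z) (x y : Q) :
    rhoFun v (x * y) = rhoFun v x * rhoFun v y := by
  by_cases hx : x * v = v * x <;> by_cases hy : y * v = v * y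
  · have hxy : x * y * v = v * (x * y) := by rw [mul_assoc, hy, ← mul_assoc, hx, mul_assoc]
    rw [rhoFun_comm hxy, rhoFun_comm hx, rhoFun_comm hy]
  · have hxy : x * y * v ≠ v * (x * y) := by
      intro h
      apply hy
      have h2 : x * (y * v) = x * (v * y) := by
        rw [← mul_assoc, h, ← mul_assoc, ← hx, mul_assoc]
      exact mul_left_cancel h2
    rw [rhoFun_ncomm hxy, rhoFun_comm hx, rhoFun_ncomm hy, mul_assoc]
  · have hxy : x * y * v ≠ v * (x * y) := by
      intro h
      apply hx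
      have h2 : x * v * y = v * x * y := by
        rw [mul_assoc x v y, ← hy, ← mul_assoc, h, mul_assoc]
      exact mul_right_cancel h2
    rw [rhoFun_ncomm hxy, rhoFun_ncomm hx, rhoFun_comm hy, mul_assoc, mul_assoc, hy]
  · have hx' := H.ncomm hx
    have hy' := H.ncomm hy
    have hxy : x * y * v = v * (x * y) := by
      calc x * y * v = x * (y * v) := mul_assoc _ _ _
        _ = x * (z * (v * y)) := by rw [hy']
        _ = z * (x * v) * y := by rw [← mul_assoc x z, H.zc x, mul_assoc z, mul_assoc z, mul_assoc x]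
        _ = z * (z * (v * x)) * y := by rw [hx']
        _ = v * (x * y) := by rw [← mul_assoc z z, H.zz, one_mul, mul_assoc]
    rw [rhoFun_comm hxy, rhoFun_ncomm hx, rhoFun_ncomm hy]
    calc x * y = x * (z * z) * y := by rw [H.zz, mul_one]
      _ = x * (v * z * v) * y := by rw [H.zc v, mul_assoc z v v, hv]
      _ = x * v * (z * (v * y)) := by simp only [mul_assoc]
      _ = x * v * (y * v) := by rw [hy']

theorem rhoFun_comm_iff {v w x : Q} (hvw : v * w = w * v) :
    rhoFun w x * v = v * rhoFun w x ↔ x * v = v * x := by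
  by_cases h : x * w = w * x
  · rw [rhoFun_comm h]
  · rw [rhoFun_ncomm h]
    constructor
    · intro h2
      have h3 : x * v * w = v * x * w := by
        rw [mul_assoc x v w, hvw, ← mul_assoc, h2, mul_assoc]
      exact mul_right_cancel h3
    · intro h2
      rw [mul_assoc, ← hvw, ← mul_assoc, h2, mul_assoc]

theorem rhoFun_inv_left (v x : Q) : rhoFun v⁻¹ (rhoFun v x) = x := by
  have hinv : ∀ y : Q, y * v⁻¹ = v⁻¹ * y ↔ y * v = v * y := by
    intro y
    constructor
    · intro h
      have : v * (y * v⁻¹) * v = v * (v⁻¹ * y) * v := by rw [h]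
      simpa [mul_assoc] using this.symm
    · intro h
      have : v⁻¹ * (y * v) * v⁻¹ = v⁻¹ * (v * y) * v⁻¹ := by rw [h]
      simpa [mul_assoc] using this.symm
  by_cases h : x * v = v * x
  · rw [rhoFun_comm h, rhoFun_comm ((hinv x).mpr h)]
  · have h2 : x * v * v ≠ v * (x * v) := by
      intro h3
      apply h
      rw [← mul_assoc] at h3
      exact mul_right_cancel h3
    rw [rhoFun_ncomm h, rhoFun_ncomm (fun h3 => h2 ((hinv _).mp h3)), mul_inv_cancel_right]

/-- The automorphism lifting the reflection in `v`. -/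
noncomputable def rho {z : Q} (H : ES Q z) (v : Q) (hv : v * v = z) : MulAut Q :=
  { toFun := rhoFun v
    invFun := rhoFun v⁻¹
    left_inv := rhoFun_inv_left v
    right_inv := fun x => by
      have h := rhoFun_inv_left v⁻¹ x
      rwa [inv_inv] at h
    map_mul' := rhoFun_mul H hv }

theorem rho_apply {z : Q} (H : ES Q z) (v : Q) (hv : v * v = z) (x : Q) :
    rho H v hv x = rhoFun v x := rfl

theorem rho_sq {z : Q} (H : ES Q z) (v : Q) (hv : v * v = z) :
    rho H v hv * rho H v hv = MulAut.conj v := by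
  ext x
  rw [MulAut.mul_apply, rho_apply, rho_apply, MulAut.conj_apply]
  by_cases h : x * v = v * x
  · rw [rhoFun_comm h, rhoFun_comm h, ← h, mul_inv_cancel_right]
  · have h2 : x * v * v ≠ v * (x * v) := by
      intro h3
      apply h
      rw [← mul_assoc] at h3
      exact mul_right_cancel h3
    rw [rhoFun_ncomm h, rhoFun_ncomm h2, H.ncomm' h, mul_assoc x, hv, mul_assoc z,
      mul_inv_cancel_right, H.zc]

theorem rho_comm {z : Q} (H : ES Q z) (v w : Q) (hv : v * v = z) (hw : w * w = z)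
    (hvw : v * w = w * v) : rho H v hv * rho H w hw = rho H w hw * rho H v hv := by
  ext x
  rw [MulAut.mul_apply, MulAut.mul_apply, rho_apply, rho_apply, rho_apply, rho_apply]
  by_cases h1 : x * v = v * x <;> by_cases h2 : x * w = w * x
  · rw [rhoFun_comm h2, rhoFun_comm h1, rhoFun_comm h2]
  · have e : x * w * v = v * (x * w) := by rw [mul_assoc, ← hvw, ← mul_assoc, h1, mul_assoc]
    rw [rhoFun_ncomm h2, rhoFun_comm h1, rhoFun_comm e, rhoFun_ncomm h2]
  · have e : x * v * w = w * (x * v) := by rw [mul_assoc, hvw, ← mul_assoc, h2, mul_assoc]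
    rw [rhoFun_comm h2, rhoFun_ncomm h1, rhoFun_comm e]
  · have e1 : x * w * v ≠ v * (x * w) := by
      have := (rhoFun_comm_iff (x := x) hvw).not.mpr h1
      rwa [rhoFun_ncomm h2] at this
    have e2 : x * v * w ≠ w * (x * v) := by
      have := (rhoFun_comm_iff (x := x) hvw.symm).not.mpr h2
      rwa [rhoFun_ncomm h1] at this
    rw [rhoFun_ncomm h2, rhoFun_ncomm h1, rhoFun_ncomm e1, rhoFun_ncomm e2, mul_assoc, mul_assoc, hvw]

theorem aut_mul_conj (θ : MulAut Q) (x : Q) : θ * MulAut.conj x = MulAut.conj (θ x) * θ := by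
  ext y
  simp [MulAut.conj_apply]

theorem ES.conj_z {z : Q} (H : ES Q z) : MulAut.conj z = 1 := by
  ext y
  rw [MulAut.conj_apply, MulAut.one_apply, ← H.zc y, mul_inv_cancel_right]

theorem ES.conj_comm {z : Q} (H : ES Q z) (x y : Q) :
    MulAut.conj x * MulAut.conj y = MulAut.conj y * MulAut.conj x := by
  rw [← map_mul, ← map_mul]
  rcases H.comm x y with h | h
  · rw [h]
  · rw [h, map_mul, H.conj_z, one_mul]

theorem ES.conj_sq {z : Q} (H : ES Q z) (x : Q) : MulAut.conj x * MulAut.conj x = 1 := by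
  rw [← map_mul]
  rcases H.sq x with h | h
  · rw [h, map_one]
  · rw [h, H.conj_z]

theorem ES.conj_eq_one {z : Q} (H : ES Q z) {x : Q} (h : MulAut.conj x = 1) : x = 1 ∨ x = z := by
  apply H.cen
  intro y
  have h2 := DFunLike.congr_fun h y
  rw [MulAut.conj_apply, MulAut.one_apply] at h2
  nth_rewrite 2 [← h2]
  rw [inv_mul_cancel_right]

theorem ES.conj_ne_one {z : Q} (H : ES Q z) {v : Q} (hv : v * v = z) : MulAut.conj v ≠ 1 := by
  intro h
  rcases H.conj_eq_one h with h1 | h1
  · rw [h1, mul_one] at hv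
    exact H.z1 hv.symm
  · rw [h1, H.zz] at hv
    exact H.z1 hv.symm

theorem sq_lemma {z : Q} (H : ES Q z) {w : Q} (hw : w * w = z) (L : Subgroup (MulAut Q))
    (hL : ∀ t : Q, MulAut.conj t ∈ L → MulAut.conj t = 1) {y : Q}
    (hy : MulAut.conj y * rho H w hw ∈ L) : y * w ≠ w * y := by
  intro hc
  have h1 : (MulAut.conj y * rho H w hw) * (MulAut.conj y * rho H w hw) =
      MulAut.conj (y * y * w) := by
    calc (MulAut.conj y * rho H w hw) * (MulAut.conj y * rho H w hw)
        = MulAut.conj y * (rho H w hw * MulAut.conj y) * rho H w hw := by group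
      _ = MulAut.conj y * (MulAut.conj (rho H w hw y) * rho H w hw) * rho H w hw := by
          rw [aut_mul_conj]
      _ = MulAut.conj y * MulAut.conj y * (rho H w hw * rho H w hw) := by
          rw [rho_apply, rhoFun_comm hc]; group
      _ = MulAut.conj (y * y * w) := by rw [rho_sq, map_mul, map_mul]
  have h2 : MulAut.conj (y * y * w) = 1 := hL _ (h1 ▸ L.mul_mem hy hy)
  rw [map_mul, map_mul, H.conj_sq, one_mul] at h2
  exact H.conj_ne_one hw h2

theorem pair_lemma {z : Q} (H : ES Q z) {v w : Q} (hv : v * v = z) (hw : w * w = z)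
    (hvw : v * w = w * v) (hne : MulAut.conj v ≠ MulAut.conj w)
    (L : Subgroup (MulAut Q)) (hL : ∀ t : Q, MulAut.conj t ∈ L → MulAut.conj t = 1) {x y : Q}
    (hx : MulAut.conj x * rho H v hv ∈ L) (hy : MulAut.conj y * rho H w hw ∈ L) :
    y * v = v * y := by
  by_contra hc
  have h1 : (MulAut.conj x * rho H v hv) * (MulAut.conj y * rho H w hw) =
      MulAut.conj (x * rho H v hv y) * (rho H v hv * rho H w hw) := by
    calc (MulAut.conj x * rho H v hv) * (MulAut.conj y * rho H w hw)
        = MulAut.conj x * (rho H v hv * MulAut.conj y) * rho H w hw := by group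
      _ = MulAut.conj x * (MulAut.conj (rho H v hv y) * rho H v hv) * rho H w hw := by
          rw [aut_mul_conj]
      _ = MulAut.conj (x * rho H v hv y) * (rho H v hv * rho H w hw) := by
          rw [map_mul]; group
  have h2 : (MulAut.conj y * rho H w hw) * (MulAut.conj x * rho H v hv) =
      MulAut.conj (y * rho H w hw x) * (rho H v hv * rho H w hw) := by
    calc (MulAut.conj y * rho H w hw) * (MulAut.conj x * rho H v hv)
        = MulAut.conj y * (rho H w hw * MulAut.conj x) * rho H v hv := by group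
      _ = MulAut.conj y * (MulAut.conj (rho H w hw x) * rho H w hw) * rho H v hv := by
          rw [aut_mul_conj]
      _ = MulAut.conj (y * rho H w hw x) * (rho H w hw * rho H v hv) := by
          rw [map_mul]; group
      _ = MulAut.conj (y * rho H w hw x) * (rho H v hv * rho H w hw) := by
          rw [rho_comm H v w hv hw hvw]
  have h3 : MulAut.conj (x * rho H v hv y * (y * rho H w hw x)⁻¹) ∈ L := by
    have h4 := L.mul_mem (L.mul_mem hx hy) (L.inv_mem (L.mul_mem hy hx))
    rw [h1, h2] at h4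
    have h5 : MulAut.conj (x * rho H v hv y) * (rho H v hv * rho H w hw) *
        (MulAut.conj (y * rho H w hw x) * (rho H v hv * rho H w hw))⁻¹ =
        MulAut.conj (x * rho H v hv y * (y * rho H w hw x)⁻¹) := by
      rw [map_mul _ (x * rho H v hv y), map_inv]; group
    rwa [h5] at h4
  have h6 : MulAut.conj (x * rho H v hv y) = MulAut.conj (y * rho H w hw x) := by
    have h5 := hL _ h3
    rw [map_mul, map_inv] at h5
    exact mul_inv_eq_one.mp h5
  rw [rho_apply, rhoFun_ncomm hc, rho_apply] at h6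
  by_cases hxw : x * w = w * x
  · rw [rhoFun_comm hxw, map_mul, map_mul, map_mul, H.conj_comm y x, ← mul_assoc] at h6
    exact H.conj_ne_one hv (mul_left_cancel (h6.trans (mul_one _).symm))
  · rw [rhoFun_ncomm hxw, map_mul, map_mul, map_mul, map_mul, ← mul_assoc, ← mul_assoc,
      H.conj_comm y x] at h6
    exact hne (mul_left_cancel h6)

/-- The abstract core of Griess' theorem. -/
theorem no_complement_core {z : Q} (H : ES Q z) (v₁ v₂ v₃ : Q) (h1 : v₁ * v₁ = z)
    (h2 : v₂ * v₂ = z) (h3 : v₃ * v₃ = z) (h12 : v₁ * v₂ = v₂ * v₁) (h13 : v₁ * v₃ = v₃ * v₁)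
    (h23 : v₂ * v₃ = v₃ * v₂) (n12 : MulAut.conj (v₁ * v₂) ≠ 1) (n13 : MulAut.conj (v₁ * v₃) ≠ 1)
    (n23 : MulAut.conj (v₂ * v₃) ≠ 1) (L : Subgroup (MulAut Q)) :
    ¬ (Cfsg.Inn Q).IsComplement' L := by
  intro hL
  have hdisj : ∀ t : Q, MulAut.conj t ∈ L → MulAut.conj t = 1 := by
    intro t ht
    have hd := hL.disjoint
    have hmem : MulAut.conj t ∈ Cfsg.Inn Q ⊓ L := ⟨⟨t, rfl⟩, ht⟩
    rw [hd.eq_bot] at hmem
    exact Subgroup.mem_bot.mp hmem
  have hlift : ∀ θ : MulAut Q, ∃ x : Q, MulAut.conj x * θ ∈ L := by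
    intro θ
    obtain ⟨⟨⟨i, hi⟩, ⟨l, hl⟩⟩, h⟩ := hL.2 θ
    obtain ⟨x, rfl⟩ := hi
    refine ⟨x⁻¹, ?_⟩
    have h' : MulAut.conj x * l = θ := h
    have e : MulAut.conj x⁻¹ * θ = l := by rw [← h', map_inv, inv_mul_cancel_left]
    rw [e]
    exact hl
  have c12 : Commute v₁ v₂ := h12
  have c13 : Commute v₁ v₃ := h13
  have c23 : Commute v₂ v₃ := h23
  have h4 : (v₁ * v₂ * v₃) * (v₁ * v₂ * v₃) = z := by
    rw [Commute.mul_mul_mul_comm (c13.symm.mul_right c23.symm) (v₁ * v₂) v₃,
      Commute.mul_mul_mul_comm c12.symm v₁ v₂, h1, h2, h3, H.zz, one_mul]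
  have c14 : v₁ * (v₁ * v₂ * v₃) = (v₁ * v₂ * v₃) * v₁ :=
    (((Commute.refl v₁).mul_right c12).mul_right c13)
  have c24 : v₂ * (v₁ * v₂ * v₃) = (v₁ * v₂ * v₃) * v₂ :=
    ((c12.symm.mul_right (Commute.refl v₂)).mul_right c23)
  have c34 : v₃ * (v₁ * v₂ * v₃) = (v₁ * v₂ * v₃) * v₃ :=
    ((c13.symm.mul_right c23.symm).mul_right (Commute.refl v₃))
  have ne14 : MulAut.conj v₁ ≠ MulAut.conj (v₁ * v₂ * v₃) := by
    intro h
    apply n23
    rw [mul_assoc, map_mul] at h
    exact (mul_left_cancel (h.symm.trans (mul_one _).symm))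
  have ne24 : MulAut.conj v₂ ≠ MulAut.conj (v₁ * v₂ * v₃) := by
    intro h
    apply n13
    rw [map_mul, map_mul, H.conj_comm v₁ v₂, mul_assoc] at h
    rw [map_mul]
    exact (mul_left_cancel (h.symm.trans (mul_one _).symm))
  have ne34 : MulAut.conj v₃ ≠ MulAut.conj (v₁ * v₂ * v₃) := by
    intro h
    apply n12
    rw [map_mul (MulAut.conj) (v₁ * v₂) v₃] at h
    exact (mul_right_cancel (h.symm.trans (one_mul _).symm))
  obtain ⟨x₁, hx₁⟩ := hlift (rho H v₁ h1)
  obtain ⟨x₂, hx₂⟩ := hlift (rho H v₂ h2)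
  obtain ⟨x₃, hx₃⟩ := hlift (rho H v₃ h3)
  obtain ⟨x₄, hx₄⟩ := hlift (rho H (v₁ * v₂ * v₃) h4)
  have e1 : Commute x₄ v₁ := pair_lemma H h1 h4 c14 ne14 L hdisj hx₁ hx₄
  have e2 : Commute x₄ v₂ := pair_lemma H h2 h4 c24 ne24 L hdisj hx₂ hx₄
  have e3 : Commute x₄ v₃ := pair_lemma H h3 h4 c34 ne34 L hdisj hx₃ hx₄
  exact sq_lemma H h4 L hdisj hx₄ ((e1.mul_right e2).mul_right e3)

theorem card_le_four_of_forall (S : Subgroup Q) (a b c d : Q)
    (h : ∀ s ∈ S, s = a ∨ s = b ∨ s = c ∨ s = d) : Nat.card ↥S ≤ 4 := by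
  have hsub : (S : Set Q) ⊆ {a, b, c, d} := by
    intro s hs
    rcases h s hs with h | h | h | h <;> simp [h]
  have hfin : ({a, b, c, d} : Set Q).Finite := Set.toFinite _
  calc Nat.card ↥S = (S : Set Q).ncard := Nat.card_coe_set_eq _
    _ ≤ ({a, b, c, d} : Set Q).ncard := Set.ncard_le_ncard hsub hfin
    _ ≤ ({b, c, d} : Set Q).ncard + 1 := Set.ncard_insert_le _ _
    _ ≤ ({c, d} : Set Q).ncard + 1 + 1 := by gcongr; exact Set.ncard_insert_le _ _
    _ ≤ ({d} : Set Q).ncard + 1 + 1 + 1 := by gcongr; exact Set.ncard_insert_le _ _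
    _ = 4 := by rw [Set.ncard_singleton]

end Core

/-- **Griess**: for an extraspecial 2-group `Q` containing an elementary abelian subgroup of order
at least 16, `Inn Q` has no complement in `Aut Q`. -/
theorem griess_nonsplit {Q : Type*} [Group Q] [Finite Q] (n : ℕ) (hn : 3 ≤ n)
    (hQ : Cfsg.IsExtraspecial 2 Q)
    (hplus : ∃ E : Subgroup Q, Cfsg.IsElementaryAbelian 2 E ∧ Nat.card ↥E = 2 ^ (n + 1))
    (L : Subgroup (MulAut Q)) : ¬ (Cfsg.Inn Q).IsComplement' L := by
  classical
  obtain ⟨⟨hp, hfr, hcm⟩, hcen⟩ := hQ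
  obtain ⟨E, ⟨hEc, hE2⟩, hEcard⟩ := hplus
  have hE16 : 16 ≤ Nat.card ↥E := by
    rw [hEcard]
    calc 16 = 2 ^ (3 + 1) := by norm_num
      _ ≤ 2 ^ (n + 1) := Nat.pow_le_pow_right (by norm_num) (by omega)
  -- the central involution
  obtain ⟨⟨z, hz⟩, hz1', huniq⟩ := (Nat.card_eq_two_iff' (1 : ↥(Subgroup.center Q))).mp hcen
  have hz1 : z ≠ 1 := fun h => hz1' (Subtype.ext h)
  have hzall : ∀ t ∈ Subgroup.center Q, t = 1 ∨ t = z := by
    intro t ht
    by_cases h : t = 1
    · exact Or.inl h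
    · right
      have := huniq ⟨t, ht⟩ (fun h2 => h (congrArg Subtype.val h2))
      exact congrArg Subtype.val this
  have hzc : ∀ x : Q, x * z = z * x := fun x => Subgroup.mem_center_iff.mp hz x
  have hzz : z * z = 1 := by
    rcases hzall (z * z) (Subgroup.mul_mem _ hz hz) with h | h
    · exact h
    · exact absurd (mul_left_cancel (h.trans (mul_one z).symm)) hz1
  have hcomm : ∀ x y : Q, x * y = y * x ∨ x * y = z * (y * x) := by
    intro x y
    have hmem : ⁅x, y⁆ ∈ Subgroup.center Q := by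
      rw [← hcm]
      exact Subgroup.commutator_mem_commutator (Subgroup.mem_top x) (Subgroup.mem_top y)
    rcases hzall _ hmem with h | h
    · left
      exact commutatorElement_eq_one_iff_mul_comm.mp h
    · right
      rw [← h, commutatorElement_def]
      group
  have hsq : ∀ x : Q, x * x = 1 ∨ x * x = z := by
    intro x
    apply hzall
    rw [← hfr]
    exact Cfsg.Agent.Lib.Helper94.sq_mem_frattini hp x
  have hcen' : ∀ x : Q, (∀ y, x * y = y * x) → x = 1 ∨ x = z := by
    intro x hx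
    apply hzall
    rw [Subgroup.mem_center_iff]
    intro g
    exact (hx g).symm
  have H : ES Q z := ⟨hzc, hzz, hz1, hcomm, hcen', hsq⟩
  -- an element of order four
  obtain ⟨u, hu⟩ : ∃ u : Q, u * u = z := by
    by_contra hne
    push Not at hne
    have h1 : ∀ x : Q, x * x = 1 := fun x => (hsq x).resolve_right (hne x)
    have hab : ∀ x y : Q, x * y = y * x := by
      intro x y
      have e1 := h1 (x * y)
      have e2 : x * y = (x * y)⁻¹ := eq_inv_of_mul_eq_one_left e1
      rw [e2, mul_inv_rev, ← eq_inv_of_mul_eq_one_left (h1 x), ← eq_inv_of_mul_eq_one_left (h1 y)]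
    have hall : ∀ s ∈ E, s = 1 ∨ s = z ∨ s = 1 ∨ s = z := by
      intro s _
      rcases hcen' s (hab s) with h | h
      · exact Or.inl h
      · exact Or.inr (Or.inl h)
    have := card_le_four_of_forall E 1 z 1 z hall
    omega
  -- the centralizer of `u` has index two
  have hunc : ∃ e₀ : Q, e₀ * u ≠ u * e₀ := by
    by_contra hne
    push Not at hne
    rcases hcen' u (fun y => (hne y).symm) with h | h
    · rw [h, mul_one] at hu
      exact hz1 hu.symm
    · rw [h, hzz] at hu
      exact hz1 hu.symm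
  obtain ⟨e₀, he₀⟩ := hunc
  have hCmem : ∀ b : Q, b ∈ Subgroup.centralizer ({u} : Set Q) ↔ b * u = u * b := by
    intro b
    rw [Subgroup.mem_centralizer_singleton_iff]
  have hCidx : (Subgroup.centralizer ({u} : Set Q)).index = 2 := by
    rw [Subgroup.index_eq_two_iff]
    refine ⟨e₀, fun b => ?_⟩
    rw [hCmem, hCmem]
    by_cases hb : b * u = u * b
    · refine Or.inr ⟨hb, fun h => he₀ ?_⟩
      have h2 : b * (e₀ * u) = b * (u * e₀) := by
        rw [← mul_assoc, h, ← mul_assoc, ← hb, mul_assoc]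
      exact mul_left_cancel h2
    · refine Or.inl ⟨?_, hb⟩
      have hb' := H.ncomm hb
      have he' := H.ncomm he₀
      calc b * e₀ * u = b * (e₀ * u) := mul_assoc _ _ _
        _ = b * (z * (u * e₀)) := by rw [he']
        _ = z * (b * u) * e₀ := by rw [← mul_assoc b z, hzc b, mul_assoc z, mul_assoc z, mul_assoc b]
        _ = z * (z * (u * b)) * e₀ := by rw [hb']
        _ = u * (b * e₀) := by rw [← mul_assoc z z, hzz, one_mul, mul_assoc]
  have hK8 : 8 ≤ Nat.card ↥(E ⊓ Subgroup.centralizer ({u} : Set Q)) := by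
    have h1 := Subgroup.index_inf_le (H := E) (K := Subgroup.centralizer ({u} : Set Q))
    rw [hCidx] at h1
    have h2 := (E ⊓ Subgroup.centralizer ({u} : Set Q)).card_mul_index
    have h3 := E.card_mul_index
    have h4 : E.index ≠ 0 := Subgroup.index_ne_zero_of_finite
    have h5 : Nat.card ↥E * E.index ≤
        Nat.card ↥(E ⊓ Subgroup.centralizer ({u} : Set Q)) * (E.index * 2) := by
      rw [h3, ← h2]
      exact Nat.mul_le_mul_left _ h1
    have h6 : Nat.card ↥E ≤ Nat.card ↥(E ⊓ Subgroup.centralizer ({u} : Set Q)) * 2 := by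
      have h7 : Nat.card ↥E * E.index ≤
          Nat.card ↥(E ⊓ Subgroup.centralizer ({u} : Set Q)) * 2 * E.index := by
        rw [mul_assoc, mul_comm 2]
        exact h5
      exact Nat.le_of_mul_le_mul_right h7 (Nat.pos_of_ne_zero h4)
    omega
  -- two independent involutions commuting with `u`
  obtain ⟨a, haK, ha1, haz⟩ : ∃ a ∈ E ⊓ Subgroup.centralizer ({u} : Set Q), a ≠ 1 ∧ a ≠ z := by
    by_contra hne
    push Not at hne
    have hall : ∀ s ∈ E ⊓ Subgroup.centralizer ({u} : Set Q), s = 1 ∨ s = z ∨ s = 1 ∨ s = z := by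
      intro s hs
      by_cases h : s = 1
      · exact Or.inl h
      · exact Or.inr (Or.inl (hne s hs h))
    have := card_le_four_of_forall _ 1 z 1 z hall
    omega
  obtain ⟨b, hbK, hb1, hbz, hab1, habz⟩ : ∃ b ∈ E ⊓ Subgroup.centralizer ({u} : Set Q),
      b ≠ 1 ∧ b ≠ z ∧ a * b ≠ 1 ∧ a * b ≠ z := by
    by_contra hne
    push Not at hne
    have hall : ∀ s ∈ E ⊓ Subgroup.centralizer ({u} : Set Q),
        s = 1 ∨ s = z ∨ s = a⁻¹ ∨ s = a⁻¹ * z := by
      intro s hs
      by_cases h1 : s = 1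
      · exact Or.inl h1
      by_cases h2 : s = z
      · exact Or.inr (Or.inl h2)
      by_cases h3 : a * s = 1
      · exact Or.inr (Or.inr (Or.inl (eq_inv_of_mul_eq_one_right h3)))
      · refine Or.inr (Or.inr (Or.inr ?_))
        have h4 := hne s hs h1 h2 h3
        rw [← h4, inv_mul_cancel_left]
    have := card_le_four_of_forall _ 1 z a⁻¹ (a⁻¹ * z) hall
    omega
  have hau : a * u = u * a := (hCmem a).mp haK.2
  have hbu : b * u = u * b := (hCmem b).mp hbK.2
  have haa : a * a = 1 := by rw [← pow_two]; exact hE2 a haK.1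
  have hbb : b * b = 1 := by rw [← pow_two]; exact hE2 b hbK.1
  have hab : a * b = b * a :=
    congrArg Subtype.val (hEc.is_comm.comm ⟨a, haK.1⟩ ⟨b, hbK.1⟩)
  have cau : Commute a u := hau
  have cbu : Commute b u := hbu
  have cab : Commute a b := hab
  have hne_of : ∀ t : Q, t ≠ 1 → t ≠ z → MulAut.conj t ≠ 1 := by
    intro t h1 h2 h
    rcases H.conj_eq_one h with h3 | h3
    · exact h1 h3
    · exact h2 h3
  refine no_complement_core H u (u * a) (u * b) hu ?_ ?_ ?_ ?_ ?_ ?_ ?_ ?_ L
  · rw [Commute.mul_mul_mul_comm cau u a, hu, haa, mul_one]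
  · rw [Commute.mul_mul_mul_comm cbu u b, hu, hbb, mul_one]
  · exact ((Commute.refl u).mul_right cau.symm)
  · exact ((Commute.refl u).mul_right cbu.symm)
  · exact (((Commute.refl u).mul_right cbu.symm).mul_left (cau.mul_right cab))
  · rw [← mul_assoc, hu, map_mul, H.conj_z, one_mul]
    exact hne_of a ha1 haz
  · rw [← mul_assoc, hu, map_mul, H.conj_z, one_mul]
    exact hne_of b hb1 hbz
  · rw [Commute.mul_mul_mul_comm cau u b, hu, map_mul, H.conj_z, one_mul]
    exact hne_of (a * b) hab1 habz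

end Cfsg.Agent.Lib.Helper60.Griess
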