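import Mathlib
import Cfsg.Agent.Lib.Helper60.Griess

set_option autoImplicit false
set_option linter.unusedSectionVars false
set_option linter.style.haveILetI false
set_option linter.unusedSimpArgs false

/-! The automorphism group of the extraspecial group `D₈ ∗ Q₈` (helper60). -/

namespace Cfsg.Agent.Lib.Helper60.D8Q8

open Cfsg.Agent.Lib.Helper60.Griess
open scoped commutatorElement

variable {Q : Type*} [Group Q] {z : Q}

theorem cm_mem (H : ES Q z) (x y : Q) : ⁅x, y⁆ = 1 ∨ ⁅x, y⁆ = z := by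
  rcases H.comm x y with h | h
  · left
    exact commutatorElement_eq_one_iff_mul_comm.mpr h
  · right
    rw [commutatorElement_def, h]
    group

theorem cm_central (H : ES Q z) (x y w : Q) : ⁅x, y⁆ * w = w * ⁅x, y⁆ := by
  rcases cm_mem H x y with h | h
  · rw [h, one_mul, mul_one]
  · rw [h]
    exact (H.zc w).symm

theorem cm_mul_left (H : ES Q z) (x y w : Q) : ⁅x * y, w⁆ = ⁅x, w⁆ * ⁅y, w⁆ := by
  rw [commutatorElement_mul_left_eq_conj_mul, mul_assoc x, cm_central H y w x⁻¹, ← mul_assoc,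
    mul_inv_cancel, one_mul, mul_comm_of_central H]
where
  mul_comm_of_central (H : ES Q z) {x y w : Q} : ⁅y, w⁆ * ⁅x, w⁆ = ⁅x, w⁆ * ⁅y, w⁆ :=
    cm_central H y w _

theorem cm_symm (H : ES Q z) (x y : Q) : ⁅x, y⁆ = ⁅y, x⁆ := by
  rw [← commutatorElement_inv]
  rcases cm_mem H y x with h | h
  · rw [h, inv_one]
  · rw [h]
    exact inv_eq_of_mul_eq_one_left H.zz

theorem cm_mul_right (H : ES Q z) (w x y : Q) : ⁅w, x * y⁆ = ⁅w, x⁆ * ⁅w, y⁆ := by
  rw [cm_symm H w, cm_mul_left H, cm_symm H x, cm_symm H y]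

theorem cm_self (x : Q) : ⁅x, x⁆ = 1 := commutatorElement_self x

theorem cm_eq_z_iff (H : ES Q z) (x y : Q) : ⁅x, y⁆ = z ↔ x * y ≠ y * x := by
  constructor
  · intro h hc
    rw [commutatorElement_eq_one_iff_mul_comm.mpr hc] at h
    exact H.z1 h.symm
  · intro h
    rcases cm_mem H x y with h1 | h1
    · exact absurd (commutatorElement_eq_one_iff_mul_comm.mp h1) h
    · exact h1

theorem cm_z_left (H : ES Q z) (x : Q) : ⁅z, x⁆ = 1 :=
  commutatorElement_eq_one_iff_mul_comm.mpr (H.zc x).symm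

theorem cm_z_right (H : ES Q z) (x : Q) : ⁅x, z⁆ = 1 :=
  commutatorElement_eq_one_iff_mul_comm.mpr (H.zc x)

/-- the square of a product -/
theorem sq_mul (H : ES Q z) (x y : Q) : x * y * (x * y) = ⁅y, x⁆ * (x * x) * (y * y) := by
  have h : y * x = ⁅y, x⁆ * (x * y) := by
    rw [commutatorElement_def]
    group
  calc x * y * (x * y) = x * (y * x) * y := by group
    _ = x * (⁅y, x⁆ * (x * y)) * y := by rw [← h]
    _ = (x * ⁅y, x⁆) * (x * y) * y := by group
    _ = (⁅y, x⁆ * x) * (x * y) * y := by rw [cm_central H y x x]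
    _ = ⁅y, x⁆ * (x * x) * (y * y) := by group

theorem five_le_card (A : Subgroup Q) [Finite Q] {a b c d e : Q} (ha : a ∈ A) (hb : b ∈ A)
    (hc : c ∈ A) (hd : d ∈ A) (he : e ∈ A) (hab : a ≠ b) (hac : a ≠ c) (had : a ≠ d)
    (hae : a ≠ e) (hbc : b ≠ c) (hbd : b ≠ d) (hbe : b ≠ e) (hcd : c ≠ d) (hce : c ≠ e)
    (hde : d ≠ e) : 5 ≤ Nat.card ↥A := by
  have hsub : ({a, b, c, d, e} : Set Q) ⊆ (A : Set Q) := by
    intro s hs
    simp only [Set.mem_insert_iff, Set.mem_singleton_iff] at hs
    rcases hs with h | h | h | h | h <;> rw [h] <;> assumption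
  have h5 : ({a, b, c, d, e} : Set Q).ncard = 5 := by
    rw [Set.ncard_insert_of_notMem (by simp [hab, hac, had, hae]),
      Set.ncard_insert_of_notMem (by simp [hbc, hbd, hbe]),
      Set.ncard_insert_of_notMem (by simp [hcd, hce]),
      Set.ncard_insert_of_notMem (by simp [hde]), Set.ncard_singleton]
  calc 5 = ({a, b, c, d, e} : Set Q).ncard := h5.symm
    _ ≤ (A : Set Q).ncard := Set.ncard_le_ncard hsub (Set.toFinite _)
    _ = Nat.card ↥A := (Nat.card_coe_set_eq _).symm

/-- commuting involutions coincide modulo the centre, when there is no `E₈` -/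
theorem nts [Finite Q] (H : ES Q z)
    (hminus : ∀ A : Subgroup Q, Cfsg.IsElementaryAbelian 2 A → Nat.card ↥A ≤ 4)
    {x y : Q} (hx : x * x = 1) (hy : y * y = 1) (hxy : x * y = y * x)
    (hx1 : x ≠ 1) (hxz : x ≠ z) (hy1 : y ≠ 1) (hyz : y ≠ z) : y = x ∨ y = x * z := by
  by_contra hne
  push Not at hne
  set S : Set Q := {x, y, z} with hS
  have hSc : ∀ a ∈ S, ∀ b ∈ S, a * b = b * a := by
    intro a ha b hb
    simp only [hS, Set.mem_insert_iff, Set.mem_singleton_iff] at ha hb
    rcases ha with rfl | rfl | rfl <;> rcases hb with rfl | rfl | rfl <;>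
      first | rfl | exact hxy | exact hxy.symm | exact H.zc _ | exact (H.zc _).symm
  have hcomm : ∀ a ∈ Subgroup.closure S, ∀ b ∈ Subgroup.closure S, a * b = b * a := by
    intro a ha b hb
    have h1 : Subgroup.closure S ≤ Subgroup.centralizer S := by
      rw [Subgroup.closure_le]
      intro s hs
      rw [SetLike.mem_coe, Subgroup.mem_centralizer_iff]
      intro t ht
      exact hSc t ht s hs
    have h2 := Subgroup.closure_le_centralizer_centralizer S ha
    rw [Subgroup.mem_centralizer_iff] at h2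
    exact (h2 b (h1 hb)).symm
  have hexp : ∀ a ∈ Subgroup.closure S, a ^ 2 = 1 := by
    intro a ha
    induction ha using Subgroup.closure_induction with
    | mem s hs =>
      simp only [hS, Set.mem_insert_iff, Set.mem_singleton_iff] at hs
      rcases hs with rfl | rfl | rfl
      · rw [pow_two]; exact hx
      · rw [pow_two]; exact hy
      · rw [pow_two]; exact H.zz
    | one => exact one_pow 2
    | mul a b ha hb iha ihb =>
      have hc : Commute a b := hcomm a ha b hb
      rw [hc.mul_pow, iha, ihb, one_mul]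
    | inv a ha iha => rw [inv_pow, iha, inv_one]
  have hEA : Cfsg.IsElementaryAbelian 2 (Subgroup.closure S) :=
    ⟨⟨⟨fun a b => Subtype.ext (hcomm a.1 a.2 b.1 b.2)⟩⟩, hexp⟩
  have hle := hminus _ hEA
  have mx : x ∈ Subgroup.closure S := Subgroup.subset_closure (by simp [hS])
  have my : y ∈ Subgroup.closure S := Subgroup.subset_closure (by simp [hS])
  have mz : z ∈ Subgroup.closure S := Subgroup.subset_closure (by simp [hS])
  have h5 := five_le_card (Subgroup.closure S) (Subgroup.one_mem _) mz mx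
    (Subgroup.mul_mem _ mx mz) my (Ne.symm H.z1) (Ne.symm hx1)
    (fun h => hxz (by
      have : x * z * z = 1 * z := by rw [← h]
      rwa [mul_assoc, H.zz, mul_one, one_mul] at this))
    (Ne.symm hy1) (Ne.symm hxz)
    (fun h => hx1 (by
      have : 1 * z = x * z := by rw [one_mul]; exact h
      exact (mul_right_cancel this).symm))
    (Ne.symm hyz)
    (fun h => H.z1 (by
      have : x * 1 = x * z := by rw [mul_one]; exact h
      exact (mul_left_cancel this).symm))
    (Ne.symm hne.1) (Ne.symm hne.2)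
  omega


theorem card_closure_insert [Finite Q] (S : Set Q) (x w : Q) (hS : ∀ s ∈ S, s * w = w * s)
    (hx : x * w ≠ w * x) :
    2 * Nat.card ↥(Subgroup.closure S) ≤ Nat.card ↥(Subgroup.closure (insert x S)) := by
  have hle : Subgroup.closure S ≤ Subgroup.closure (insert x S) :=
    Subgroup.closure_mono (Set.subset_insert x S)
  have hxn : x ∉ Subgroup.closure S := by
    intro hxS
    have h1 : Subgroup.closure S ≤ Subgroup.centralizer {w} := by
      rw [Subgroup.closure_le]
      intro s hs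
      rw [SetLike.mem_coe, Subgroup.mem_centralizer_singleton_iff]
      exact hS s hs
    have h2 := h1 hxS
    rw [Subgroup.mem_centralizer_singleton_iff] at h2
    exact hx h2
  obtain ⟨m, hm⟩ := Subgroup.card_dvd_of_le hle
  have hpos : 0 < Nat.card ↥(Subgroup.closure (insert x S)) := Nat.card_pos
  have hm1 : m ≠ 1 := by
    intro h
    rw [h, mul_one] at hm
    have h3 := Subgroup.eq_of_le_of_card_ge hle (le_of_eq hm)
    exact hxn (h3 ▸ Subgroup.subset_closure (Set.mem_insert x S))
  have hm0 : m ≠ 0 := by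
    rintro rfl
    omega
  have hm2 : 2 ≤ m := by omega
  rw [hm, mul_comm]
  exact Nat.mul_le_mul_left _ hm2

theorem comm_of_cm {x y : Q} (h : ⁅x, y⁆ = 1) : x * y = y * x :=
  commutatorElement_eq_one_iff_mul_comm.mp h

theorem ncomm_of_cm (H : ES Q z) {x y : Q} (h : ⁅x, y⁆ = z) : x * y ≠ y * x :=
  (cm_eq_z_iff H x y).mp h

/-- an element not commuting with something is not central -/
theorem ne_of_cm (H : ES Q z) {x y : Q} (h : ⁅x, y⁆ = z) : x ≠ 1 ∧ x ≠ z := by
  constructor
  · rintro rfl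
    rw [commutatorElement_one_left] at h
    exact H.z1 h.symm
  · rintro rfl
    rw [cm_z_left H] at h
    exact H.z1 h.symm

/-- four pairwise non-commuting involutions generate -/
theorem gen [Finite Q] (H : ES Q z) (hQ : Nat.card Q = 32) {a b c d : Q}
    (hab : ⁅a, b⁆ = z) (hac : ⁅a, c⁆ = z) (had : ⁅a, d⁆ = z) (hbc : ⁅b, c⁆ = z)
    (hbd : ⁅b, d⁆ = z) (hcd : ⁅c, d⁆ = z) :
    Subgroup.closure ({d, c, b, a, z} : Set Q) = ⊤ := by
  have hba : ⁅b, a⁆ = z := by rw [cm_symm H]; exact hab
  have hca : ⁅c, a⁆ = z := by rw [cm_symm H]; exact hac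
  have hda : ⁅d, a⁆ = z := by rw [cm_symm H]; exact had
  have hcb : ⁅c, b⁆ = z := by rw [cm_symm H]; exact hbc
  have hdb : ⁅d, b⁆ = z := by rw [cm_symm H]; exact hbd
  have hdc : ⁅d, c⁆ = z := by rw [cm_symm H]; exact hcd
  have h0 : 2 ≤ Nat.card ↥(Subgroup.closure ({z} : Set Q)) := by
    have : (Subgroup.closure ({z} : Set Q)) ≠ ⊥ := by
      intro h
      have hz : z ∈ Subgroup.closure ({z} : Set Q) := Subgroup.subset_closure rfl
      rw [h, Subgroup.mem_bot] at hz
      exact H.z1 hz
    have := (Subgroup.one_lt_card_iff_ne_bot _).mpr this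
    omega
  have h1 := card_closure_insert ({z} : Set Q) a b (by
    intro s hs
    rw [Set.mem_singleton_iff] at hs
    rw [hs]
    exact (H.zc b).symm) (ncomm_of_cm H hab)
  have h2 := card_closure_insert ({a, z} : Set Q) b a (by
    intro s hs
    simp only [Set.mem_insert_iff, Set.mem_singleton_iff] at hs
    rcases hs with rfl | rfl
    · rfl
    · exact (H.zc _).symm) (ncomm_of_cm H hba)
  have h3 := card_closure_insert ({b, a, z} : Set Q) c (a * b * d) (by
    intro s hs
    simp only [Set.mem_insert_iff, Set.mem_singleton_iff] at hs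
    rcases hs with rfl | rfl | rfl
    · apply comm_of_cm
      simp only [cm_mul_right H, cm_self, hba, hbd, H.zz, mul_one, one_mul]
    · apply comm_of_cm
      simp only [cm_mul_right H, cm_self, hab, had, H.zz, mul_one, one_mul]
    · exact (H.zc _).symm) (by
    apply ncomm_of_cm H
    simp only [cm_mul_right H, hca, hcb, hcd, H.zz, mul_one, one_mul])
  have h4 := card_closure_insert ({c, b, a, z} : Set Q) d (a * b * c) (by
    intro s hs
    simp only [Set.mem_insert_iff, Set.mem_singleton_iff] at hs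
    rcases hs with rfl | rfl | rfl | rfl
    · apply comm_of_cm
      simp only [cm_mul_right H, cm_self, hca, hcb, H.zz, mul_one, one_mul]
    · apply comm_of_cm
      simp only [cm_mul_right H, cm_self, hba, hbc, H.zz, mul_one, one_mul]
    · apply comm_of_cm
      simp only [cm_mul_right H, cm_self, hab, hac, H.zz, mul_one, one_mul]
    · exact (H.zc _).symm) (by
    apply ncomm_of_cm H
    simp only [cm_mul_right H, hda, hdb, hdc, H.zz, mul_one, one_mul])
  apply Subgroup.eq_top_of_card_eq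
  have hle : Nat.card ↥(Subgroup.closure ({d, c, b, a, z} : Set Q)) ≤ Nat.card Q :=
    Subgroup.card_le_card_group _
  omega

theorem index_centralizer (H : ES Q z) {u e : Q} (hue : ⁅u, e⁆ = z) :
    (Subgroup.centralizer ({u} : Set Q)).index = 2 := by
  rw [Subgroup.index_eq_two_iff]
  refine ⟨e, fun b => ?_⟩
  rw [Subgroup.mem_centralizer_singleton_iff, Subgroup.mem_centralizer_singleton_iff,
    ← commutatorElement_eq_one_iff_mul_comm, ← commutatorElement_eq_one_iff_mul_comm,
    cm_mul_left H, cm_symm H e u, hue]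
  rcases cm_mem H b u with h | h
  · rw [h, one_mul]
    exact Or.inr ⟨rfl, H.z1⟩
  · rw [h, H.zz]
    exact Or.inl ⟨rfl, H.z1⟩

theorem card_cent_inf [Finite Q] (H : ES Q z) (hQ : Nat.card Q = 32) {u e : Q}
    (hue : ⁅u, e⁆ = z) :
    8 ≤ Nat.card ↥(Subgroup.centralizer ({u} : Set Q) ⊓ Subgroup.centralizer ({e} : Set Q)) := by
  have h1 := index_centralizer H hue
  have h2 := index_centralizer H (show ⁅e, u⁆ = z by rw [cm_symm H]; exact hue)
  have h3 := @Subgroup.index_inf_le Q _ (Subgroup.centralizer ({u} : Set Q))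
    (Subgroup.centralizer ({e} : Set Q))
  rw [h1, h2] at h3
  have h4 := Subgroup.card_mul_index
    (Subgroup.centralizer ({u} : Set Q) ⊓ Subgroup.centralizer ({e} : Set Q))
  rw [hQ] at h4
  by_contra hlt
  push Not at hlt
  have : Nat.card ↥(Subgroup.centralizer ({u} : Set Q) ⊓ Subgroup.centralizer ({e} : Set Q)) *
      (Subgroup.centralizer ({u} : Set Q) ⊓ Subgroup.centralizer ({e} : Set Q)).index ≤ 7 * 4 :=
    Nat.mul_le_mul (by omega) h3
  omega


/-- Five involutions representing the singular vectors of `Q / Z(Q)`. -/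
structure Frame (z : Q) (x : Fin 5 → Q) : Prop where
  inv : ∀ i, x i * x i = 1
  nc : ∀ i j, i ≠ j → ⁅x i, x j⁆ = z
  all : ∀ y, y * y = 1 → y ≠ 1 → y ≠ z → ∃ i, y = x i ∨ y = x i * z
  gen : Subgroup.closure ({x 3, x 2, x 1, x 0, z} : Set Q) = ⊤

theorem exists_ne_of_card [Finite Q] (S : Subgroup Q) (hS : 5 ≤ Nat.card ↥S) (a b c d : Q) :
    ∃ s ∈ S, s ≠ a ∧ s ≠ b ∧ s ≠ c ∧ s ≠ d := by
  by_contra hne
  push Not at hne
  have := card_le_four_of_forall S a b c d (fun s hs => by
    by_cases h1 : s = a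
    · exact Or.inl h1
    by_cases h2 : s = b
    · exact Or.inr (Or.inl h2)
    by_cases h3 : s = c
    · exact Or.inr (Or.inr (Or.inl h3))
    exact Or.inr (Or.inr (Or.inr (hne s hs h1 h2 h3))))
  omega

/-- a noncentral involution exists -/
theorem exists_inv [Finite Q] (H : ES Q z) (hQ : Nat.card Q = 32) :
    ∃ a : Q, a * a = 1 ∧ a ≠ 1 ∧ a ≠ z := by
  obtain ⟨u, -, hu1, huz, -, -⟩ := exists_ne_of_card (⊤ : Subgroup Q)
    (by rw [Subgroup.card_top, hQ]; norm_num) 1 z 1 z
  by_cases huu : u * u = 1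
  · exact ⟨u, huu, hu1, huz⟩
  have huu' : u * u = z := (H.sq u).resolve_left huu
  obtain ⟨e, he⟩ : ∃ e : Q, ⁅u, e⁆ = z := by
    by_contra hne
    push Not at hne
    rcases H.cen u (fun y => comm_of_cm ((cm_mem H u y).resolve_right (hne y))) with h | h
    · exact hu1 h
    · exact huz h
  have heu : ⁅e, u⁆ = z := by rw [cm_symm H]; exact he
  by_cases hee : e * e = 1
  · exact ⟨e, hee, (ne_of_cm H heu).1, (ne_of_cm H heu).2⟩
  have hee' : e * e = z := (H.sq e).resolve_left hee
  obtain ⟨c, hc, hc1, hcz, -, -⟩ := exists_ne_of_card _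
    (le_trans (by norm_num) (card_cent_inf H hQ he)) 1 z 1 z
  rw [Subgroup.mem_inf, Subgroup.mem_centralizer_singleton_iff,
    Subgroup.mem_centralizer_singleton_iff, ← commutatorElement_eq_one_iff_mul_comm,
    ← commutatorElement_eq_one_iff_mul_comm] at hc
  by_cases hcc : c * c = 1
  · exact ⟨c, hcc, hc1, hcz⟩
  have hcc' : c * c = z := (H.sq c).resolve_left hcc
  have h1 : ⁅u * c, e⁆ = z := by
    rw [cm_mul_left H, he, hc.2, mul_one]
  refine ⟨u * c, ?_, (ne_of_cm H h1).1, (ne_of_cm H h1).2⟩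
  rw [sq_mul H, hc.1, huu', hcc', one_mul, H.zz]

/-- a second involution, not commuting with the first -/
theorem exists_inv2 (H : ES Q z) {a : Q} (haa : a * a = 1) (ha1 : a ≠ 1) (haz : a ≠ z) :
    ∃ b : Q, b * b = 1 ∧ ⁅a, b⁆ = z := by
  obtain ⟨e, he⟩ : ∃ e : Q, ⁅a, e⁆ = z := by
    by_contra hne
    push Not at hne
    rcases H.cen a (fun y => comm_of_cm ((cm_mem H a y).resolve_right (hne y))) with h | h
    · exact ha1 h
    · exact haz h
  by_cases hee : e * e = 1
  · exact ⟨e, hee, he⟩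
  have hee' : e * e = z := (H.sq e).resolve_left hee
  refine ⟨e * a, ?_, ?_⟩
  · rw [sq_mul H, he, hee', haa, mul_one, H.zz]
  · rw [cm_mul_right H, he, cm_self, mul_one]

theorem exists_frame [Finite Q] (H : ES Q z) (hQ : Nat.card Q = 32)
    (hN : ∀ x y : Q, x * x = 1 → y * y = 1 → x * y = y * x → x ≠ 1 → x ≠ z → y ≠ 1 → y ≠ z →
      y = x ∨ y = x * z) :
    ∃ x : Fin 5 → Q, Frame z x := by
  obtain ⟨a, haa, ha1, haz⟩ := exists_inv H hQ
  obtain ⟨b, hbb, hab⟩ := exists_inv2 H haa ha1 haz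
  have hba : ⁅b, a⁆ = z := by rw [cm_symm H]; exact hab
  have hb1 := (ne_of_cm H hba).1
  have hbz := (ne_of_cm H hba).2
  have h8 := card_cent_inf H hQ hab
  obtain ⟨c₀, hc₀, hc₀1, hc₀z, -, -⟩ := exists_ne_of_card _ (le_trans (by norm_num) h8) 1 z 1 z
  obtain ⟨c₁, hc₁, hc₁1, hc₁z, hc₁c, hc₁cz⟩ :=
    exists_ne_of_card _ (le_trans (by norm_num) h8) 1 z c₀ (c₀ * z)
  rw [Subgroup.mem_inf, Subgroup.mem_centralizer_singleton_iff,
    Subgroup.mem_centralizer_singleton_iff, ← commutatorElement_eq_one_iff_mul_comm,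
    ← commutatorElement_eq_one_iff_mul_comm] at hc₀ hc₁
  -- elements of the centraliser of `a, b` outside the centre have order four
  have key : ∀ w : Q, ⁅w, a⁆ = 1 → ⁅w, b⁆ = 1 → w ≠ 1 → w ≠ z → w * w = z := by
    intro w hwa hwb hw1 hwz
    by_contra hne
    have hww : w * w = 1 := (H.sq w).resolve_right hne
    have hcm : a * w = w * a := (comm_of_cm hwa).symm
    rcases hN a w haa hww hcm ha1 haz hw1 hwz with h | h
    · rw [h, hab] at hwb
      exact H.z1 hwb
    · rw [h, cm_mul_left H, hab, cm_z_left H, mul_one] at hwb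
      exact H.z1 hwb
  have hc₀c₀ := key c₀ hc₀.1 hc₀.2 hc₀1 hc₀z
  have hc₁c₁ := key c₁ hc₁.1 hc₁.2 hc₁1 hc₁z
  have hac₀ : ⁅a, c₀⁆ = 1 := by rw [cm_symm H]; exact hc₀.1
  have hbc₀ : ⁅b, c₀⁆ = 1 := by rw [cm_symm H]; exact hc₀.2
  have hac₁ : ⁅a, c₁⁆ = 1 := by rw [cm_symm H]; exact hc₁.1
  have hbc₁ : ⁅b, c₁⁆ = 1 := by rw [cm_symm H]; exact hc₁.2
  have habab : a * b * (a * b) = z := by
    rw [sq_mul H, hba, haa, hbb, mul_one, mul_one]
  -- the third and fourth involutions
  have hcc : a * b * c₀ * (a * b * c₀) = 1 := by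
    rw [sq_mul H, cm_mul_right H, hc₀.1, hc₀.2, habab, hc₀c₀, one_mul, one_mul, H.zz]
  have hdd : a * b * c₁ * (a * b * c₁) = 1 := by
    rw [sq_mul H, cm_mul_right H, hc₁.1, hc₁.2, habab, hc₁c₁, one_mul, one_mul, H.zz]
  have hac : ⁅a, a * b * c₀⁆ = z := by
    rw [cm_mul_right H, cm_mul_right H, cm_self, hab, hac₀, one_mul, mul_one]
  have had : ⁅a, a * b * c₁⁆ = z := by
    rw [cm_mul_right H, cm_mul_right H, cm_self, hab, hac₁, one_mul, mul_one]
  have hbc : ⁅b, a * b * c₀⁆ = z := by
    rw [cm_mul_right H, cm_mul_right H, cm_self, hba, hbc₀, mul_one, mul_one]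
  have hbd : ⁅b, a * b * c₁⁆ = z := by
    rw [cm_mul_right H, cm_mul_right H, cm_self, hba, hbc₁, mul_one, mul_one]
  have hca : ⁅a * b * c₀, a⁆ = z := by rw [cm_symm H]; exact hac
  have hda : ⁅a * b * c₁, a⁆ = z := by rw [cm_symm H]; exact had
  have hcb : ⁅a * b * c₀, b⁆ = z := by rw [cm_symm H]; exact hbc
  have hdb : ⁅a * b * c₁, b⁆ = z := by rw [cm_symm H]; exact hbd
  have hcd : ⁅a * b * c₀, a * b * c₁⁆ = z := by
    rw [cm_eq_z_iff H]
    intro hcomm
    rcases hN _ _ hcc hdd hcomm (ne_of_cm H hca).1 (ne_of_cm H hca).2 (ne_of_cm H hda).1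
      (ne_of_cm H hda).2 with h | h
    · exact hc₁c (mul_left_cancel h)
    · rw [mul_assoc (a * b) c₀ z] at h
      exact hc₁cz (mul_left_cancel h)
  have hdc : ⁅a * b * c₁, a * b * c₀⁆ = z := by rw [cm_symm H]; exact hcd
  set c := a * b * c₀ with hc
  set d := a * b * c₁ with hd
  -- the fifth involution
  have hcdcd : c * d * (c * d) = z := by
    rw [sq_mul H, hdc, hcc, hdd, mul_one, mul_one]
  have hee : a * b * (c * d) * (a * b * (c * d)) = 1 := by
    rw [sq_mul H, cm_mul_left H, cm_mul_right H, cm_mul_right H, hca, hcb, hda, hdb, habab,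
      hcdcd, H.zz, one_mul, one_mul, H.zz]
  have hae : ⁅a, a * b * (c * d)⁆ = z := by
    rw [cm_mul_right H, cm_mul_right H, cm_mul_right H, cm_self, hab, hac, had, one_mul, H.zz,
      mul_one]
  have hbe : ⁅b, a * b * (c * d)⁆ = z := by
    rw [cm_mul_right H, cm_mul_right H, cm_mul_right H, cm_self, hba, hbc, hbd, mul_one, H.zz,
      mul_one]
  have hce : ⁅c, a * b * (c * d)⁆ = z := by
    rw [cm_mul_right H, cm_mul_right H, cm_mul_right H, cm_self, hca, hcb, hcd, H.zz, one_mul,
      one_mul]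
  have hde : ⁅d, a * b * (c * d)⁆ = z := by
    rw [cm_mul_right H, cm_mul_right H, cm_mul_right H, cm_self, hda, hdb, hdc, H.zz, mul_one,
      one_mul]
  set e := a * b * (c * d) with he
  have hea : ⁅e, a⁆ = z := by rw [cm_symm H]; exact hae
  have heb : ⁅e, b⁆ = z := by rw [cm_symm H]; exact hbe
  have hec : ⁅e, c⁆ = z := by rw [cm_symm H]; exact hce
  have hed : ⁅e, d⁆ = z := by rw [cm_symm H]; exact hde
  have hgen := gen H hQ hab hac had hbc hbd hcd
  refine ⟨![a, b, c, d, e], ?_, ?_, ?_, hgen⟩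
  · intro i
    fin_cases i
    · exact haa
    · exact hbb
    · exact hcc
    · exact hdd
    · exact hee
  · intro i j hij
    fin_cases i <;> fin_cases j <;>
      first
      | exact absurd rfl hij
      | exact hab | exact hac | exact had | exact hae
      | exact hba | exact hbc | exact hbd | exact hbe
      | exact hca | exact hcb | exact hcd | exact hce
      | exact hda | exact hdb | exact hdc | exact hde
      | exact hea | exact heb | exact hec | exact hed
  · intro y hyy hy1 hyz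
    by_cases h0 : ⁅y, a⁆ = 1
    · exact ⟨0, hN a y haa hyy (comm_of_cm h0).symm ha1 haz hy1 hyz⟩
    by_cases h1 : ⁅y, b⁆ = 1
    · exact ⟨1, hN b y hbb hyy (comm_of_cm h1).symm hb1 hbz hy1 hyz⟩
    by_cases h2 : ⁅y, c⁆ = 1
    · exact ⟨2, hN c y hcc hyy (comm_of_cm h2).symm (ne_of_cm H hca).1 (ne_of_cm H hca).2
        hy1 hyz⟩
    by_cases h3 : ⁅y, d⁆ = 1
    · exact ⟨3, hN d y hdd hyy (comm_of_cm h3).symm (ne_of_cm H hda).1 (ne_of_cm H hda).2
        hy1 hyz⟩
    have h0' := (cm_mem H y a).resolve_left h0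
    have h1' := (cm_mem H y b).resolve_left h1
    have h2' := (cm_mem H y c).resolve_left h2
    have h3' := (cm_mem H y d).resolve_left h3
    refine ⟨4, ?_⟩
    -- `y * e` is central
    have hcen : ∀ g : Q, y * e * g = g * (y * e) := by
      intro g
      have hle : Subgroup.closure ({d, c, b, a, z} : Set Q) ≤
          Subgroup.centralizer ({y * e} : Set Q) := by
        rw [Subgroup.closure_le]
        intro s hs
        rw [SetLike.mem_coe, Subgroup.mem_centralizer_singleton_iff]
        simp only [Set.mem_insert_iff, Set.mem_singleton_iff] at hs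
        apply Eq.symm
        apply comm_of_cm
        rcases hs with rfl | rfl | rfl | rfl | rfl
        · rw [cm_mul_left H, h3', hed, H.zz]
        · rw [cm_mul_left H, h2', hec, H.zz]
        · rw [cm_mul_left H, h1', heb, H.zz]
        · rw [cm_mul_left H, h0', hea, H.zz]
        · exact cm_z_right H _
      have hg : g ∈ Subgroup.closure ({d, c, b, a, z} : Set Q) := by
        rw [hgen]
        exact Subgroup.mem_top g
      have := hle hg
      rw [Subgroup.mem_centralizer_singleton_iff] at this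
      exact this.symm
    have hinv : e⁻¹ = e := inv_eq_of_mul_eq_one_left hee
    rcases H.cen (y * e) hcen with h | h
    · left
      show y = e
      rw [← hinv]
      exact eq_inv_of_mul_eq_one_left h
    · right
      show y = e * z
      have : y = z * e⁻¹ := eq_mul_inv_of_mul_eq h
      rw [this, hinv, H.zc]


section Hom

variable {x : Fin 5 → Q}

theorem aut_z (H : ES Q z) (θ : MulAut Q) : θ z = z := by
  have hc : ∀ y, θ z * y = y * θ z := by
    intro y
    have h : θ (z * θ⁻¹ y) = θ (θ⁻¹ y * z) := by rw [H.zc]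
    rw [map_mul, map_mul, MulAut.apply_inv_self] at h
    exact h
  rcases H.cen (θ z) hc with h | h
  · exfalso
    have h2 : θ z = θ 1 := by rw [h, map_one]
    exact H.z1 (θ.injective h2)
  · exact h

theorem frame_ne (H : ES Q z) (F : Frame z x) (i : Fin 5) : x i ≠ 1 ∧ x i ≠ z := by
  have hj : i ≠ i + 1 := by
    revert i
    decide
  exact ne_of_cm H (F.nc i (i + 1) hj)

/-- `θ` maps the `i`-th singular vector to the `j`-th -/
def R (z : Q) (x : Fin 5 → Q) (θ : MulAut Q) (i j : Fin 5) : Prop :=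
  θ (x i) = x j ∨ θ (x i) = x j * z

theorem R_exists (H : ES Q z) (F : Frame z x) (θ : MulAut Q) (i : Fin 5) :
    ∃ j, R z x θ i j := by
  have h1 : θ (x i) * θ (x i) = 1 := by rw [← map_mul, F.inv, map_one]
  have h2 : θ (x i) ≠ 1 := fun h => (frame_ne H F i).1 (θ.injective (h.trans (map_one θ).symm))
  have h3 : θ (x i) ≠ z := fun h => (frame_ne H F i).2 (θ.injective (h.trans (aut_z H θ).symm))
  exact F.all _ h1 h2 h3

theorem R_unique (H : ES Q z) (F : Frame z x) {θ : MulAut Q} {i j j' : Fin 5}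
    (h : R z x θ i j) (h' : R z x θ i j') : j = j' := by
  by_contra hne
  have hz := F.nc j j' hne
  have h1 : ⁅x j, x j'⁆ = 1 := by
    rcases h with h | h <;> rcases h' with h' | h'
    · have e : x j = x j' := h.symm.trans h'
      rw [e, cm_self]
    · have e : x j = x j' * z := h.symm.trans h'
      rw [e, cm_mul_left H, cm_self, cm_z_left H, mul_one]
    · have e : x j' = x j * z := h'.symm.trans h
      rw [e, cm_mul_right H, cm_self, cm_z_right H, mul_one]
    · have e : x j = x j' := mul_right_cancel (h.symm.trans h')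
      rw [e, cm_self]
  rw [h1] at hz
  exact H.z1 hz.symm

/-- the induced map on the five singular vectors -/
noncomputable def f (H : ES Q z) (F : Frame z x) (θ : MulAut Q) (i : Fin 5) : Fin 5 :=
  Classical.choose (R_exists H F θ i)

theorem f_spec (H : ES Q z) (F : Frame z x) (θ : MulAut Q) (i : Fin 5) :
    R z x θ i (f H F θ i) :=
  Classical.choose_spec (R_exists H F θ i)

theorem f_eq (H : ES Q z) (F : Frame z x) {θ : MulAut Q} {i j : Fin 5} (h : R z x θ i j) :
    f H F θ i = j :=
  R_unique H F (f_spec H F θ i) h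

theorem R_one (i : Fin 5) : R z x 1 i i := Or.inl rfl

theorem R_mul (H : ES Q z) {θ θ' : MulAut Q} {i j k : Fin 5} (h' : R z x θ' i j)
    (h : R z x θ j k) : R z x (θ * θ') i k := by
  unfold R at *
  rw [MulAut.mul_apply]
  rcases h' with h' | h'
  · rw [h']
    exact h
  · rw [h', map_mul, aut_z H]
    rcases h with h | h
    · right
      rw [h]
    · left
      rw [h, mul_assoc, H.zz, mul_one]

theorem f_one (H : ES Q z) (F : Frame z x) : f H F 1 = id :=
  funext fun i => f_eq H F (R_one i)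

theorem f_mul (H : ES Q z) (F : Frame z x) (θ θ' : MulAut Q) :
    f H F (θ * θ') = f H F θ ∘ f H F θ' :=
  funext fun i => f_eq H F (R_mul H (f_spec H F θ' i) (f_spec H F θ _))

/-- the action of `Aut Q` on the five singular vectors -/
noncomputable def Phi (H : ES Q z) (F : Frame z x) : MulAut Q →* Equiv.Perm (Fin 5) :=
  MonoidHom.mk' (fun θ => ⟨f H F θ, f H F θ⁻¹, fun i => by
      have h := congrFun (f_mul H F θ⁻¹ θ) i
      rw [inv_mul_cancel, f_one] at h
      exact h.symm, fun i => by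
      have h := congrFun (f_mul H F θ θ⁻¹) i
      rw [mul_inv_cancel, f_one] at h
      exact h.symm⟩) (fun θ θ' => by
      ext i
      have h := congrFun (f_mul H F θ θ') i
      simp only [Equiv.Perm.coe_mul, Equiv.coe_fn_mk]
      rw [h])

theorem Phi_apply (H : ES Q z) (F : Frame z x) (θ : MulAut Q) (i : Fin 5) :
    Phi H F θ i = f H F θ i := rfl

theorem mem_ker_iff (H : ES Q z) (F : Frame z x) (θ : MulAut Q) :
    θ ∈ (Phi H F).ker ↔ ∀ i, R z x θ i i := by
  rw [MonoidHom.mem_ker]
  constructor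
  · intro h i
    have h2 := f_spec H F θ i
    rw [← Phi_apply, h] at h2
    exact h2
  · intro h
    ext i
    rw [Phi_apply, f_eq H F (h i)]
    rfl

theorem inn_le_ker (H : ES Q z) (F : Frame z x) :
    (MulAut.conj : Q →* MulAut Q).range ≤ (Phi H F).ker := by
  rintro θ ⟨y, rfl⟩
  rw [mem_ker_iff]
  intro i
  unfold R
  rw [MulAut.conj_apply]
  rcases H.comm y (x i) with h | h
  · left
    rw [h, mul_assoc, mul_inv_cancel, mul_one]
  · right
    rw [h, mul_assoc, mul_assoc, mul_inv_cancel, mul_one, H.zc]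

theorem card_ker_le [Finite Q] (H : ES Q z) (F : Frame z x) :
    Nat.card ↥(Phi H F).ker ≤ 16 := by
  classical
  let g : ↥(Phi H F).ker → Bool × Bool × Bool × Bool := fun θ =>
    (decide (θ.1 (x 0) = x 0), decide (θ.1 (x 1) = x 1), decide (θ.1 (x 2) = x 2),
      decide (θ.1 (x 3) = x 3))
  have hne : ∀ i, x i * z ≠ x i := by
    intro i h
    exact H.z1 (mul_left_cancel (h.trans (mul_one _).symm))
  have key : ∀ (θ θ' : ↥(Phi H F).ker) (i : Fin 5),
      (decide (θ.1 (x i) = x i) = decide (θ'.1 (x i) = x i)) → θ.1 (x i) = θ'.1 (x i) := by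
    intro θ θ' i hd
    have h1 := (mem_ker_iff H F θ.1).mp θ.2 i
    have h2 := (mem_ker_iff H F θ'.1).mp θ'.2 i
    have hiff : (θ.1 (x i) = x i) ↔ (θ'.1 (x i) = x i) := by
      simpa using hd
    rcases h1 with h1 | h1
    · rw [h1, hiff.mp h1]
    · rcases h2 with h2 | h2
      · have := hiff.mpr h2
        rw [h1] at this
        exact absurd this (hne i)
      · rw [h1, h2]
  have hg : Function.Injective g := by
    intro θ θ' h
    simp only [g, Prod.mk.injEq] at h
    obtain ⟨h0, h1, h2, h3⟩ := h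
    apply Subtype.ext
    apply MulEquiv.toMonoidHom_injective
    apply MonoidHom.eq_of_eqOn_dense F.gen
    intro s hs
    simp only [Set.mem_insert_iff, Set.mem_singleton_iff] at hs
    rcases hs with rfl | rfl | rfl | rfl | hs
    · exact key θ θ' 3 h3
    · exact key θ θ' 2 h2
    · exact key θ θ' 1 h1
    · exact key θ θ' 0 h0
    · rw [hs]
      show θ.1 z = θ'.1 z
      rw [aut_z H, aut_z H]
  calc Nat.card ↥(Phi H F).ker ≤ Nat.card (Bool × Bool × Bool × Bool) :=
        Nat.card_le_card_of_injective g hg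
    _ = 16 := by
        rw [Nat.card_eq_fintype_card]
        rfl

theorem card_ker_conj (H : ES Q z) : Nat.card ↥(MulAut.conj : Q →* MulAut Q).ker = 2 := by
  rw [Nat.card_eq_two_iff]
  refine ⟨⟨1, one_mem _⟩, ⟨z, MonoidHom.mem_ker.mpr H.conj_z⟩, ?_, ?_⟩
  · intro h
    exact H.z1 (congrArg Subtype.val h).symm
  · ext ⟨y, hy⟩
    simp only [Set.mem_insert_iff, Set.mem_singleton_iff, Set.mem_univ, iff_true, Subtype.mk.injEq]
    exact H.conj_eq_one (MonoidHom.mem_ker.mp hy)

theorem card_inn [Finite Q] (H : ES Q z) (hQ : Nat.card Q = 32) :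
    Nat.card ↥(MulAut.conj : Q →* MulAut Q).range = 16 := by
  have h1 := Subgroup.card_eq_card_quotient_mul_card_subgroup (MulAut.conj : Q →* MulAut Q).ker
  rw [card_ker_conj H, hQ] at h1
  rw [← Nat.card_congr (QuotientGroup.quotientKerEquivRange (MulAut.conj : Q →* MulAut Q)).toEquiv]
  omega

theorem ker_eq [Finite Q] (H : ES Q z) (hQ : Nat.card Q = 32) (F : Frame z x) :
    (MulAut.conj : Q →* MulAut Q).range = (Phi H F).ker :=
  Subgroup.eq_of_le_of_card_ge (inn_le_ker H F) (by rw [card_inn H hQ]; exact card_ker_le H F)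

theorem Phi_swap (H : ES Q z) (F : Frame z x) {i j : Fin 5} (hij : i ≠ j) :
    ∃ θ : MulAut Q, Phi H F θ = Equiv.swap i j := by
  have hzij := F.nc i j hij
  have hzji := F.nc j i (Ne.symm hij)
  have hv : x i * x j * (x i * x j) = z := by
    rw [sq_mul H, hzji, F.inv, F.inv, mul_one, mul_one]
  refine ⟨rho H (x i * x j) hv, ?_⟩
  ext k
  rw [Phi_apply]
  by_cases hki : k = i
  · subst hki
    rw [Equiv.swap_apply_left]
    apply congrArg Fin.val
    apply f_eq H F
    left
    rw [rho_apply, rhoFun_ncomm, ← mul_assoc, F.inv, one_mul]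
    apply ncomm_of_cm H
    rw [cm_mul_right H, cm_self, hzij, one_mul]
  by_cases hkj : k = j
  · subst hkj
    rw [Equiv.swap_apply_right]
    apply congrArg Fin.val
    apply f_eq H F
    right
    rw [rho_apply, rhoFun_ncomm, ← mul_assoc, H.ncomm (ncomm_of_cm H hzji), mul_assoc, mul_assoc,
      F.inv, mul_one, H.zc]
    apply ncomm_of_cm H
    rw [cm_mul_right H, cm_self, hzji, mul_one]
  · rw [Equiv.swap_apply_of_ne_of_ne hki hkj]
    apply congrArg Fin.val
    apply f_eq H F
    left
    rw [rho_apply, rhoFun_comm]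
    apply comm_of_cm
    rw [cm_mul_right H, F.nc k i hki, F.nc k j hkj, H.zz]

theorem Phi_surjective (H : ES Q z) (F : Frame z x) : Function.Surjective (Phi H F) := by
  rw [← MonoidHom.range_eq_top, eq_top_iff, ← Equiv.Perm.closure_isSwap, Subgroup.closure_le]
  rintro σ ⟨i, j, hij, rfl⟩
  obtain ⟨θ, hθ⟩ := Phi_swap H F hij
  exact ⟨θ, hθ⟩

end Hom

/-- `Aut (D₈ ∗ Q₈)`: inner automorphism group of order 16, quotient `S₅`, order 1920. -/
theorem main {P : Type*} [Group P] [Finite P]
    (hex : Cfsg.IsExtraspecial 2 P) (h32 : Nat.card P = 32)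
    (hminus : ∀ A : Subgroup P, Cfsg.IsElementaryAbelian 2 A → Nat.card ↥A ≤ 4)
    [(MulAut.conj : P →* MulAut P).range.Normal] :
    Nat.card ↥(MulAut.conj : P →* MulAut P).range = 16 ∧ Nat.card (MulAut P) = 1920 ∧
      Nonempty ((MulAut P ⧸ (MulAut.conj : P →* MulAut P).range) ≃* Equiv.Perm (Fin 5)) := by
  classical
  obtain ⟨⟨hp, hfr, hcm⟩, hcen⟩ := hex
  obtain ⟨⟨z, hz⟩, hz1', huniq⟩ := (Nat.card_eq_two_iff' (1 : ↥(Subgroup.center P))).mp hcen
  have hz1 : z ≠ 1 := fun h => hz1' (Subtype.ext h)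
  have hzall : ∀ t ∈ Subgroup.center P, t = 1 ∨ t = z := by
    intro t ht
    by_cases h : t = 1
    · exact Or.inl h
    · right
      have := huniq ⟨t, ht⟩ (fun h2 => h (congrArg Subtype.val h2))
      exact congrArg Subtype.val this
  have hzc : ∀ x : P, x * z = z * x := fun x => Subgroup.mem_center_iff.mp hz x
  have hzz : z * z = 1 := by
    rcases hzall (z * z) (Subgroup.mul_mem _ hz hz) with h | h
    · exact h
    · exact absurd (mul_left_cancel (h.trans (mul_one z).symm)) hz1
  have hcomm : ∀ x y : P, x * y = y * x ∨ x * y = z * (y * x) := by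
    intro x y
    have hmem : ⁅x, y⁆ ∈ Subgroup.center P := by
      rw [← hcm]
      exact Subgroup.commutator_mem_commutator (Subgroup.mem_top x) (Subgroup.mem_top y)
    rcases hzall _ hmem with h | h
    · left
      exact commutatorElement_eq_one_iff_mul_comm.mp h
    · right
      rw [← h, commutatorElement_def]
      group
  have hsq : ∀ x : P, x * x = 1 ∨ x * x = z := by
    intro x
    apply hzall
    rw [← hfr]
    exact Cfsg.Agent.Lib.Helper94.sq_mem_frattini hp x
  have hcen' : ∀ x : P, (∀ y, x * y = y * x) → x = 1 ∨ x = z := by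
    intro x hx
    apply hzall
    rw [Subgroup.mem_center_iff]
    intro g
    exact (hx g).symm
  have H : ES P z := ⟨hzc, hzz, hz1, hcomm, hcen', hsq⟩
  have hN : ∀ x y : P, x * x = 1 → y * y = 1 → x * y = y * x → x ≠ 1 → x ≠ z → y ≠ 1 → y ≠ z →
      y = x ∨ y = x * z := fun x y hx hy hxy hx1 hxz hy1 hyz =>
    nts H hminus hx hy hxy hx1 hxz hy1 hyz
  obtain ⟨x, F⟩ := exists_frame H h32 hN
  have hker := ker_eq H h32 F
  have hsurj := Phi_surjective H F
  have hinn := card_inn H h32
  refine ⟨hinn, ?_, ⟨(QuotientGroup.quotientMulEquivOfEq hker).trans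
    (QuotientGroup.quotientKerEquivOfSurjective (Phi H F) hsurj)⟩⟩
  have h1 := Subgroup.card_eq_card_quotient_mul_card_subgroup (Phi H F).ker
  have h2 : Nat.card ↥(Phi H F).ker = 16 := by rw [← hker]; exact hinn
  have h3 : Nat.card (Equiv.Perm (Fin 5)) = 120 := by
    rw [Nat.card_eq_fintype_card, Fintype.card_perm, Fintype.card_fin]
    rfl
  rw [h2, Nat.card_congr
    (QuotientGroup.quotientKerEquivOfSurjective (Phi H F) hsurj).toEquiv, h3] at h1
  rw [h1]

end Cfsg.Agent.Lib.Helper60.D8Q8
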