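import Mathlib
import Cfsg.Agent.S0825

set_option autoImplicit false

namespace Cfsg.Agent.Lib.Helper60

open Matrix Cfsg

abbrev I6 : Type := Fin 3 ⊕ Fin 3

/-- The 2-subset of `Fin 4` attached to a coordinate of the six-dimensional space. -/
def pr : I6 → Fin 4 × Fin 4
  | .inl 0 => (0, 1)
  | .inl 1 => (0, 2)
  | .inl 2 => (0, 3)
  | .inr 0 => (2, 3)
  | .inr 1 => (1, 3)
  | .inr 2 => (1, 2)

/-- A 2 × 2 minor. -/
def minor {R : Type*} [CommRing R] (g : Matrix (Fin 4) (Fin 4) R) (a b c d : Fin 4) : R :=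
  g a c * g b d - g a d * g b c

/-- The second compound matrix of a 4 × 4 matrix. -/
def comp2 {R : Type*} [CommRing R] (g : Matrix (Fin 4) (Fin 4) R) : Matrix I6 I6 R :=
  Matrix.of fun I J => minor g (pr I).1 (pr I).2 (pr J).1 (pr J).2

theorem minor_mul {R : Type*} [CommRing R] (g h : Matrix (Fin 4) (Fin 4) R) (a b c d : Fin 4) :
    minor (g * h) a b c d =
      minor g a b 0 1 * minor h 0 1 c d + minor g a b 0 2 * minor h 0 2 c d +
      minor g a b 0 3 * minor h 0 3 c d + minor g a b 2 3 * minor h 2 3 c d +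
      minor g a b 1 3 * minor h 1 3 c d + minor g a b 1 2 * minor h 1 2 c d := by
  simp only [minor, Matrix.mul_apply, Fin.sum_univ_four]
  ring

theorem comp2_mul {R : Type*} [CommRing R] (g h : Matrix (Fin 4) (Fin 4) R) :
    comp2 (g * h) = comp2 g * comp2 h := by
  ext I J
  simp only [comp2, Matrix.of_apply, Matrix.mul_apply, Fintype.sum_sum_type, Fin.sum_univ_three,
    minor_mul, pr]
  ring

set_option maxRecDepth 100000 in
theorem comp2_one : comp2 (1 : Matrix (Fin 4) (Fin 4) (ZMod 2)) = 1 := by decide +kernel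

set_option maxRecDepth 100000 in
set_option maxHeartbeats 0 in
theorem comp2_transvection_iso : ∀ i j : Fin 4, i ≠ j → ∀ c : ZMod 2, ∀ x : I6 → ZMod 2,
    quadFormPlus 3 (ZMod 2) (comp2 (Matrix.transvection i j c) *ᵥ x) =
      quadFormPlus 3 (ZMod 2) x := by
  decide +kernel

theorem comp2_iso (M : Matrix (Fin 4) (Fin 4) (ZMod 2)) (hM : M.det ≠ 0) (x : I6 → ZMod 2) :
    quadFormPlus 3 (ZMod 2) (comp2 M *ᵥ x) = quadFormPlus 3 (ZMod 2) x := by
  revert x
  refine Matrix.diagonal_transvection_induction_of_det_ne_zero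
    (fun N => ∀ x, quadFormPlus 3 (ZMod 2) (comp2 N *ᵥ x) = quadFormPlus 3 (ZMod 2) x) M hM
    ?_ ?_ ?_
  · intro D hD x
    have hD1 : ∀ i, D i = 1 := by
      intro i
      have h0 : D i ≠ 0 := by
        intro h0
        apply hD
        rw [Matrix.det_diagonal]
        exact Finset.prod_eq_zero (Finset.mem_univ i) h0
      have key : ∀ d : ZMod 2, d ≠ 0 → d = 1 := by decide
      exact key _ h0
    have h1 : Matrix.diagonal D = 1 := by
      rw [show D = fun _ => 1 from funext hD1]
      exact Matrix.diagonal_one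
    rw [h1, comp2_one, Matrix.one_mulVec]
  · intro t x
    obtain ⟨i, j, hij, c⟩ := t
    exact comp2_transvection_iso i j hij c x
  · intro A B _ _ hA hB x
    rw [comp2_mul, ← Matrix.mulVec_mulVec, hA, hB]

set_option maxRecDepth 100000 in
set_option maxHeartbeats 0 in
theorem col_aux : ∀ J : I6, ∀ v w : Fin 4 → ZMod 2,
    (∀ I : I6, v (pr I).1 * w (pr I).2 - w (pr I).1 * v (pr I).2 = if I = J then 1 else 0) →
    ∀ a : Fin 4, a ≠ (pr J).1 → a ≠ (pr J).2 → v a = 0 ∧ w a = 0 := by
  decide +kernel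

theorem comp2_inj (M : Matrix (Fin 4) (Fin 4) (ZMod 2)) (h : comp2 M = 1) : M = 1 := by
  have key : ∀ J : I6, ∀ a : Fin 4, a ≠ (pr J).1 → a ≠ (pr J).2 →
      M a (pr J).1 = 0 ∧ M a (pr J).2 = 0 := by
    intro J
    apply col_aux J (fun a => M a (pr J).1) (fun a => M a (pr J).2)
    intro I
    have h1 := congrFun (congrFun h I) J
    rw [Matrix.one_apply] at h1
    exact h1
  have pick : ∀ a c : Fin 4, a ≠ c → ∃ J : I6, ((pr J).1 = c ∨ (pr J).2 = c) ∧
      a ≠ (pr J).1 ∧ a ≠ (pr J).2 := by decide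
  have off : ∀ a c : Fin 4, a ≠ c → M a c = 0 := by
    intro a c hac
    obtain ⟨J, hJ, h1, h2⟩ := pick a c hac
    rcases hJ with hJ | hJ
    · rw [← hJ]; exact (key J a h1 h2).1
    · rw [← hJ]; exact (key J a h1 h2).2
  have pick2 : ∀ c : Fin 4, ∃ J : I6, ((pr J).1 = c ∨ (pr J).2 = c) := by decide
  have prne : ∀ J : I6, (pr J).1 ≠ (pr J).2 := by decide
  have z2 : ∀ x y : ZMod 2, x * y = 1 → x = 1 ∧ y = 1 := by decide
  have diag : ∀ c : Fin 4, M c c = 1 := by
    intro c
    obtain ⟨J, hJ⟩ := pick2 c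
    have h1 := congrFun (congrFun h J) J
    rw [Matrix.one_apply, if_pos rfl] at h1
    simp only [comp2, Matrix.of_apply, minor] at h1
    rw [off _ _ (prne J), zero_mul, sub_zero] at h1
    have h2 := z2 _ _ h1
    rcases hJ with hJ | hJ
    · rw [← hJ]; exact h2.1
    · rw [← hJ]; exact h2.2
  ext a c
  rw [Matrix.one_apply]
  by_cases hac : a = c
  · rw [if_pos hac, hac]; exact diag c
  · rw [if_neg hac]; exact off a c hac

/-- The second compound as a homomorphism into the orthogonal group `O⁺₆(2)`. -/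
noncomputable def comp2Hom : GL (Fin 4) (ZMod 2) →*
    ↥(isometryGroup (ZMod 2) (quadFormPlus 3 (ZMod 2))) where
  toFun g := ⟨⟨comp2 (g : Matrix (Fin 4) (Fin 4) (ZMod 2)),
      comp2 ((g⁻¹ : GL (Fin 4) (ZMod 2)) : Matrix (Fin 4) (Fin 4) (ZMod 2)),
      by rw [← comp2_mul, ← Units.val_mul, mul_inv_cancel, Units.val_one, comp2_one],
      by rw [← comp2_mul, ← Units.val_mul, inv_mul_cancel, Units.val_one, comp2_one]⟩,
    fun u _ => comp2_iso _ (by
      have := (Matrix.isUnit_iff_isUnit_det _).mp g.isUnit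
      exact this.ne_zero) u⟩
  map_one' := by
    apply Subtype.ext
    apply Units.ext
    exact comp2_one
  map_mul' g h := by
    apply Subtype.ext
    apply Units.ext
    show comp2 ((g * h : GL (Fin 4) (ZMod 2)) : Matrix (Fin 4) (Fin 4) (ZMod 2)) = _
    rw [Units.val_mul, comp2_mul]
    rfl

theorem comp2Hom_injective : Function.Injective comp2Hom := by
  rw [injective_iff_map_eq_one]
  intro g hg
  apply Units.ext
  apply comp2_inj
  have := congrArg (fun x : ↥(isometryGroup (ZMod 2) (quadFormPlus 3 (ZMod 2))) =>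
    ((x : GL I6 (ZMod 2)) : Matrix I6 I6 (ZMod 2))) hg
  exact this

theorem card_GL4 : Nat.card (GL (Fin 4) (ZMod 2)) = 20160 := by
  rw [Matrix.card_GL_field]
  decide

/-- `GL₄(2)` embeds in the alternating group of degree 8. -/
theorem exists_GL4_to_A8 :
    ∃ f : GL (Fin 4) (ZMod 2) →* ↥(alternatingGroup (Fin 8)), Function.Injective f := by
  obtain ⟨e⟩ := Cfsg.Agent.S0825.result (F := ZMod 2) (ZMod.card 2)
  let f : GL (Fin 4) (ZMod 2) →* Equiv.Perm (Fin 8) := e.toMonoidHom.comp comp2Hom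
  have hf : Function.Injective f := e.injective.comp comp2Hom_injective
  have hcard : Nat.card f.range = 20160 := by
    rw [← card_GL4]
    exact (Nat.card_congr (MonoidHom.ofInjective hf).toEquiv).symm
  have hidx : f.range.index = 2 := by
    have h1 := f.range.card_mul_index
    rw [hcard, Nat.card_perm, Nat.card_eq_fintype_card, Fintype.card_fin] at h1
    have : (8 : ℕ).factorial = 20160 * 2 := by decide
    rw [this] at h1
    exact Nat.eq_of_mul_eq_mul_left (by norm_num) h1
  have hr : f.range = alternatingGroup (Fin 8) :=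
    Equiv.Perm.eq_alternatingGroup_of_index_eq_two hidx
  refine ⟨f.codRestrict (alternatingGroup (Fin 8)) (fun g => hr ▸ ⟨g, rfl⟩), ?_⟩
  intro a b hab
  apply hf
  exact congrArg Subtype.val hab

end Cfsg.Agent.Lib.Helper60
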