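import Mathlib

/-!
# S3663, piece PG-FINAL: two finite groups with the same element-order data have the same
prime graph

Delivered for helper7 (statement from note 1794).  Mathlib only.
-/

set_option autoImplicit false

namespace Cfsg.Agent.Lib.Helper60.PGFinal

theorem prime_cases {p : ℕ} (hp : p.Prime)
    (h : p ∣ 20 ∨ p ∣ 50 ∨ p ∣ 75 ∨ p ∣ 13) : p = 2 ∨ p = 3 ∨ p = 5 ∨ p = 13 := by
  have h20 : (20 : ℕ) = 2 * 2 * 5 := by norm_num
  have h50 : (50 : ℕ) = 2 * 5 * 5 := by norm_num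
  have h75 : (75 : ℕ) = 3 * 5 * 5 := by norm_num
  have key : ∀ a : ℕ, a.Prime → p ∣ a → p = a := fun a ha hpa =>
    (Nat.prime_dvd_prime_iff_eq hp ha).mp hpa
  rcases h with h | h | h | h
  · rw [h20] at h
    rcases (Nat.Prime.dvd_mul hp).mp h with h | h
    · rcases (Nat.Prime.dvd_mul hp).mp h with h | h
      · exact Or.inl (key 2 Nat.prime_two h)
      · exact Or.inl (key 2 Nat.prime_two h)
    · exact Or.inr (Or.inr (Or.inl (key 5 Nat.prime_five h)))
  · rw [h50] at h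
    rcases (Nat.Prime.dvd_mul hp).mp h with h | h
    · rcases (Nat.Prime.dvd_mul hp).mp h with h | h
      · exact Or.inl (key 2 Nat.prime_two h)
      · exact Or.inr (Or.inr (Or.inl (key 5 Nat.prime_five h)))
    · exact Or.inr (Or.inr (Or.inl (key 5 Nat.prime_five h)))
  · rw [h75] at h
    rcases (Nat.Prime.dvd_mul hp).mp h with h | h
    · rcases (Nat.Prime.dvd_mul hp).mp h with h | h
      · exact Or.inr (Or.inl (key 3 Nat.prime_three h))
      · exact Or.inr (Or.inr (Or.inl (key 5 Nat.prime_five h)))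
    · exact Or.inr (Or.inr (Or.inl (key 5 Nat.prime_five h)))
  · exact Or.inr (Or.inr (Or.inr (key 13 (by norm_num) h)))

theorem pair_cases {p q : ℕ} (hp : p.Prime) (hq : q.Prime) (hpq : p ≠ q)
    (h : p * q ∣ 20 ∨ p * q ∣ 50 ∨ p * q ∣ 75 ∨ p * q ∣ 13) : p * q = 10 ∨ p * q = 15 := by
  have hp' : p = 2 ∨ p = 3 ∨ p = 5 ∨ p = 13 := by
    apply prime_cases hp
    rcases h with h | h | h | h
    · exact Or.inl ((dvd_mul_right p q).trans h)
    · exact Or.inr (Or.inl ((dvd_mul_right p q).trans h))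
    · exact Or.inr (Or.inr (Or.inl ((dvd_mul_right p q).trans h)))
    · exact Or.inr (Or.inr (Or.inr ((dvd_mul_right p q).trans h)))
  have hq' : q = 2 ∨ q = 3 ∨ q = 5 ∨ q = 13 := by
    apply prime_cases hq
    rcases h with h | h | h | h
    · exact Or.inl ((dvd_mul_left q p).trans h)
    · exact Or.inr (Or.inl ((dvd_mul_left q p).trans h))
    · exact Or.inr (Or.inr (Or.inl ((dvd_mul_left q p).trans h)))
    · exact Or.inr (Or.inr (Or.inr ((dvd_mul_left q p).trans h)))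
  rcases hp' with rfl | rfl | rfl | rfl <;> rcases hq' with rfl | rfl | rfl | rfl <;> omega

section general

variable {X : Type*} [Group X] [Finite X]

theorem dvd_card_iff
    (hX : ∀ g : X, orderOf g ∣ 20 ∨ orderOf g ∣ 50 ∨ orderOf g ∣ 75 ∨ orderOf g ∣ 13)
    (h10 : ∃ g : X, orderOf g = 10) (h15 : ∃ g : X, orderOf g = 15)
    (h13 : ∃ g : X, orderOf g = 13) {p : ℕ} (hp : p.Prime) :
    p ∣ Nat.card X ↔ (p = 2 ∨ p = 3 ∨ p = 5 ∨ p = 13) := by
  constructor
  · intro hdvd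
    have : Fact p.Prime := ⟨hp⟩
    obtain ⟨x, hx⟩ := exists_prime_orderOf_dvd_card' p hdvd
    have := hX x
    rw [hx] at this
    exact prime_cases hp this
  · obtain ⟨a, ha⟩ := h10
    obtain ⟨b, hb⟩ := h15
    obtain ⟨c, hc⟩ := h13
    have d10 : 10 ∣ Nat.card X := ha ▸ orderOf_dvd_natCard a
    have d15 : 15 ∣ Nat.card X := hb ▸ orderOf_dvd_natCard b
    have d13 : 13 ∣ Nat.card X := hc ▸ orderOf_dvd_natCard c
    rintro (rfl | rfl | rfl | rfl)
    · exact (by norm_num : (2 : ℕ) ∣ 10).trans d10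
    · exact (by norm_num : (3 : ℕ) ∣ 15).trans d15
    · exact (by norm_num : (5 : ℕ) ∣ 10).trans d10
    · exact d13

omit [Finite X] in
theorem exists_order_iff
    (hX : ∀ g : X, orderOf g ∣ 20 ∨ orderOf g ∣ 50 ∨ orderOf g ∣ 75 ∨ orderOf g ∣ 13)
    (h10 : ∃ g : X, orderOf g = 10) (h15 : ∃ g : X, orderOf g = 15)
    {p q : ℕ} (hp : p.Prime) (hq : q.Prime) (hpq : p ≠ q) :
    (∃ g : X, orderOf g = p * q) ↔ (p * q = 10 ∨ p * q = 15) := by
  constructor
  · rintro ⟨g, hg⟩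
    have := hX g
    rw [hg] at this
    exact pair_cases hp hq hpq this
  · rintro (h | h)
    · rw [h]; exact h10
    · rw [h]; exact h15

end general

theorem pg_final {L : Type*} [Group L] [Finite L]
    (hL : ∀ g : L, g ^ 4 = 1 ∨ g ^ 10 = 1 ∨ g ^ 13 = 1 ∨ g ^ 15 = 1)
    (hL10 : ∃ g : L, orderOf g = 10) (hL15 : ∃ g : L, orderOf g = 15)
    (hL13 : ∃ g : L, orderOf g = 13)
    {H : Type} [Group H] [Finite H]
    (hH : ∀ g : H, orderOf g ∣ 20 ∨ orderOf g ∣ 50 ∨ orderOf g ∣ 75 ∨ orderOf g ∣ 13)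
    (hH10 : ∃ g : H, orderOf g = 10) (hH15 : ∃ g : H, orderOf g = 15)
    (hH13 : ∃ g : H, orderOf g = 13) :
    (∀ p : ℕ, p.Prime → (p ∣ Nat.card L ↔ p ∣ Nat.card H)) ∧
    (∀ p q : ℕ, p.Prime → q.Prime → p ≠ q →
      ((∃ g : L, orderOf g = p * q) ↔ (∃ g : H, orderOf g = p * q))) := by
  have hL' : ∀ g : L, orderOf g ∣ 20 ∨ orderOf g ∣ 50 ∨ orderOf g ∣ 75 ∨ orderOf g ∣ 13 := by
    intro g
    rcases hL g with h | h | h | h
    · exact Or.inl ((orderOf_dvd_of_pow_eq_one h).trans (by norm_num))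
    · exact Or.inr (Or.inl ((orderOf_dvd_of_pow_eq_one h).trans (by norm_num)))
    · exact Or.inr (Or.inr (Or.inr (orderOf_dvd_of_pow_eq_one h)))
    · exact Or.inr (Or.inr (Or.inl ((orderOf_dvd_of_pow_eq_one h).trans (by norm_num))))
  refine ⟨fun p hp => ?_, fun p q hp hq hpq => ?_⟩
  · rw [dvd_card_iff hL' hL10 hL15 hL13 hp, dvd_card_iff hH hH10 hH15 hH13 hp]
  · rw [exists_order_iff hL' hL10 hL15 hp hq hpq, exists_order_iff hH hH10 hH15 hp hq hpq]

end Cfsg.Agent.Lib.Helper60.PGFinal
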