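import Mathlib
import Cfsg.Agent.Lib.Helper93.Sp4Defs

/-!
# S2293 piece SP4-COMMR: two more commutation facts (helper60)
-/

set_option autoImplicit false

namespace Cfsg.Agent.Lib.Helper93.Sp4

variable {F : Type*} [Field F] {P : Type*} [Group P] {xa xb : F → P} {ta tb : P}

/-- COMMR -/
theorem comm_rest
    (hA : ∀ a d : F, Commute (xa a) (ta * xb d * ta⁻¹))
    (h1 : ∀ a : F, tb⁻¹ * ta * tb * xa a * (tb⁻¹ * ta * tb)⁻¹ = xa (-a))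
    (h2 : ∀ b : F, ta⁻¹ * tb * ta * xb b * (ta⁻¹ * tb * ta)⁻¹ = xb b) :
    (∀ a d : F, Commute (tb * xa a * tb⁻¹) (ta * xb d * ta⁻¹)) ∧
    (∀ b a : F, Commute (xb b) (tb * xa a * tb⁻¹)) := by
  have hfix : ∀ d : F, tb * (ta * xb d * ta⁻¹) * tb⁻¹ = ta * xb d * ta⁻¹ := by
    intro d
    calc tb * (ta * xb d * ta⁻¹) * tb⁻¹
        = ta * (ta⁻¹ * tb * ta * xb d * (ta⁻¹ * tb * ta)⁻¹) * ta⁻¹ := by group
      _ = ta * xb d * ta⁻¹ := by rw [h2 d]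
  have hc1 : ∀ a d : F, Commute (tb * xa a * tb⁻¹) (ta * xb d * ta⁻¹) := by
    intro a d
    have h := hA a d
    have h3 : Commute (tb * xa a * tb⁻¹) (tb * (ta * xb d * ta⁻¹) * tb⁻¹) := by
      unfold Commute SemiconjBy at h ⊢
      calc tb * xa a * tb⁻¹ * (tb * (ta * xb d * ta⁻¹) * tb⁻¹)
          = tb * (xa a * (ta * xb d * ta⁻¹)) * tb⁻¹ := by group
        _ = tb * ((ta * xb d * ta⁻¹) * xa a) * tb⁻¹ := by rw [h]
        _ = tb * (ta * xb d * ta⁻¹) * tb⁻¹ * (tb * xa a * tb⁻¹) := by group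
    rwa [hfix d] at h3
  refine ⟨hc1, ?_⟩
  intro b a
  have h := hc1 (-a) b
  have hx : ta⁻¹ * (tb * xa (-a) * tb⁻¹) * ta = tb * xa a * tb⁻¹ := by
    calc ta⁻¹ * (tb * xa (-a) * tb⁻¹) * ta
        = ta⁻¹ * (tb * (tb⁻¹ * ta * tb * xa a * (tb⁻¹ * ta * tb)⁻¹) * tb⁻¹) * ta := by
          rw [h1 a]
      _ = tb * xa a * tb⁻¹ := by group
  have hy : ta⁻¹ * (ta * xb b * ta⁻¹) * ta = xb b := by group
  have h5 : Commute (ta⁻¹ * (tb * xa (-a) * tb⁻¹) * ta) (ta⁻¹ * (ta * xb b * ta⁻¹) * ta) := by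
    unfold Commute SemiconjBy at h ⊢
    calc ta⁻¹ * (tb * xa (-a) * tb⁻¹) * ta * (ta⁻¹ * (ta * xb b * ta⁻¹) * ta)
        = ta⁻¹ * ((tb * xa (-a) * tb⁻¹) * (ta * xb b * ta⁻¹)) * ta := by group
      _ = ta⁻¹ * ((ta * xb b * ta⁻¹) * (tb * xa (-a) * tb⁻¹)) * ta := by rw [h]
      _ = ta⁻¹ * (ta * xb b * ta⁻¹) * ta * (ta⁻¹ * (tb * xa (-a) * tb⁻¹) * ta) := by group
  rw [hx, hy] at h5
  exact h5.symm

end Cfsg.Agent.Lib.Helper93.Sp4
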