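import Mathlib
import Cfsg.Agent.Lib.Helper93.Sp4Defs

/-!
# S2293 piece SP4-STC2: `[x_α(a), x_{α+β}(d)] ∈ x_{2α+β}` (helper60)

Expanding `[x_α(a) x_α(-d), x_β(1)]` with the commutator formula `hC1` on both sides gives
`x_α(a) x_{α+β}(d) x_α(a)⁻¹ = x_{α+β}(d) x_{2α+β}(-2ad)`.
-/

set_option autoImplicit false

namespace Cfsg.Agent.Lib.Helper93.Sp4

variable {F : Type*} [Field F] {P : Type*} [Group P] {xa xb : F → P} {ta tb : P}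

/-- STC2 -/
theorem stein_c2 (hadda : ∀ a b, xa (a + b) = xa a * xa b)
    (haddb : ∀ a b, xb (a + b) = xb a * xb b)
    (hC1 : ∀ a b : F, xa a * xb b * (xa a)⁻¹ * (xb b)⁻¹ =
      tb * xa (-(a * b)) * tb⁻¹ * (ta * xb (a ^ 2 * b) * ta⁻¹))
    (hA : ∀ a d : F, Commute (xa a) (ta * xb d * ta⁻¹))
    (hABAAB : ∀ a d : F, Commute (tb * xa a * tb⁻¹) (ta * xb d * ta⁻¹)) :
    ∀ a d : F, ∃ e : F, xa a * (tb * xa d * tb⁻¹) * (xa a)⁻¹ * (tb * xa d * tb⁻¹)⁻¹ =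
      ta * xb e * ta⁻¹ := by
  intro a d
  -- additivity of the conjugated root maps
  have hCadd : ∀ x y : F, tb * xa (x + y) * tb⁻¹ = tb * xa x * tb⁻¹ * (tb * xa y * tb⁻¹) := by
    intro x y
    rw [hadda]
    group
  have hEadd : ∀ x y : F, ta * xb (x + y) * ta⁻¹ = ta * xb x * ta⁻¹ * (ta * xb y * ta⁻¹) := by
    intro x y
    rw [haddb]
    group
  have hb0 : xb 0 = 1 := by
    have h := haddb 0 0
    rw [add_zero] at h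
    exact (mul_eq_left.1 h.symm)
  have hE0 : ta * xb 0 * ta⁻¹ = 1 := by
    rw [hb0]
    group
  have hEneg : ∀ x : F, ta * xb (-x) * ta⁻¹ = (ta * xb x * ta⁻¹)⁻¹ := by
    intro x
    have h := hEadd x (-x)
    rw [add_neg_cancel, hE0] at h
    exact (eq_inv_of_mul_eq_one_right h.symm)
  -- the three instances of `hC1`
  have h_i := hC1 (a + -d) 1
  have h_ii := hC1 a 1
  have h_iii := hC1 (-d) 1
  simp only [mul_one, neg_neg] at h_i h_ii h_iii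
  -- abbreviations
  set A : P := xa a with hAdef
  set Cd : P := tb * xa d * tb⁻¹ with hCd
  set Cma : P := tb * xa (-a) * tb⁻¹ with hCma
  set Es : P := ta * xb ((a + -d) ^ 2) * ta⁻¹ with hEs
  set Ea : P := ta * xb (a ^ 2) * ta⁻¹ with hEa
  set Ed : P := ta * xb ((-d) ^ 2) * ta⁻¹ with hEd
  have r2 : tb * xa (-(a + -d)) * tb⁻¹ = Cd * Cma := by
    have : -(a + -d) = d + -a := by ring
    rw [this, hCadd]
  rw [r2] at h_i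
  rw [hadda a (-d)] at h_i
  -- `Ed` commutes with `A`
  have hAEd : Commute A Ed := hA a _
  have r1 : Cd * Cma * Es = A * Cd * A⁻¹ * Ed * Cma * Ea := by
    calc Cd * Cma * Es = A * xa (-d) * xb 1 * (A * xa (-d))⁻¹ * (xb 1)⁻¹ := h_i.symm
      _ = A * (xa (-d) * xb 1 * (xa (-d))⁻¹ * (xb 1)⁻¹) * A⁻¹ *
            (A * xb 1 * A⁻¹ * (xb 1)⁻¹) := by group
      _ = A * (Cd * Ed) * A⁻¹ * (Cma * Ea) := by rw [h_iii, h_ii]
      _ = A * Cd * (Ed * A⁻¹) * Cma * Ea := by group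
      _ = A * Cd * (A⁻¹ * Ed) * Cma * Ea := by rw [(hAEd.inv_left).eq]
      _ = A * Cd * A⁻¹ * Ed * Cma * Ea := by group
  have hX : A * Cd * A⁻¹ = Cd * Cma * Es * Ea⁻¹ * Cma⁻¹ * Ed⁻¹ := by
    rw [r1]
    group
  have hc1 : Commute Cma (Es * Ea⁻¹) :=
    (hABAAB _ _).mul_right (hABAAB _ _).inv_right
  have hc2 : Commute Cd (Es * Ea⁻¹ * Ed⁻¹) :=
    ((hABAAB _ _).mul_right (hABAAB _ _).inv_right).mul_right (hABAAB _ _).inv_right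
  refine ⟨(a + -d) ^ 2 + -(a ^ 2) + -((-d) ^ 2), ?_⟩
  calc A * Cd * A⁻¹ * Cd⁻¹ = Cd * Cma * Es * Ea⁻¹ * Cma⁻¹ * Ed⁻¹ * Cd⁻¹ := by rw [hX]
    _ = Cd * (Cma * (Es * Ea⁻¹) * Cma⁻¹) * Ed⁻¹ * Cd⁻¹ := by group
    _ = Cd * (Es * Ea⁻¹) * Ed⁻¹ * Cd⁻¹ := by rw [hc1.eq, mul_inv_cancel_right]
    _ = Cd * (Es * Ea⁻¹ * Ed⁻¹) * Cd⁻¹ := by group
    _ = Es * Ea⁻¹ * Ed⁻¹ := by rw [hc2.eq, mul_inv_cancel_right]
    _ = ta * xb ((a + -d) ^ 2 + -(a ^ 2) + -((-d) ^ 2)) * ta⁻¹ := by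
        rw [hEadd, hEadd, hEneg, hEneg]

end Cfsg.Agent.Lib.Helper93.Sp4
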