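import Mathlib
import Cfsg.Agent.Lib.Helper93.Sp4Defs

/-!
# S2293 piece SP4-TORB: the order of the torus `⟨ha, hb⟩` (helper60)
-/

set_option autoImplicit false

namespace Cfsg.Agent.Lib.Helper93.Sp4

variable {P : Type*} [Group P]

/-- TORB -/
theorem torus2_card (ha hb : P) (m k : ℕ) (hm : 0 < m) (hk : 0 < k) (hh : ha * hb = hb * ha)
    (hma : ha ^ m = 1) (hkb : hb ^ k = 1) :
    Finite (torus2 ha hb) ∧ Nat.card (torus2 ha hb) ≤ m * k := by
  have hcomm : Commute ha hb := hh
  have hA : Nat.card (Subgroup.zpowers ha) ≤ m := by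
    rw [Nat.card_zpowers]
    exact orderOf_le_of_pow_eq_one hm hma
  have hB : Nat.card (Subgroup.zpowers hb) ≤ k := by
    rw [Nat.card_zpowers]
    exact orderOf_le_of_pow_eq_one hk hkb
  have hAfin : Finite (Subgroup.zpowers ha) := by
    apply Nat.finite_of_card_ne_zero
    rw [Nat.card_zpowers]
    exact (orderOf_pos_iff.2 (isOfFinOrder_iff_pow_eq_one.2 ⟨m, hm, hma⟩)).ne'
  have hBfin : Finite (Subgroup.zpowers hb) := by
    apply Nat.finite_of_card_ne_zero
    rw [Nat.card_zpowers]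
    exact (orderOf_pos_iff.2 (isOfFinOrder_iff_pow_eq_one.2 ⟨k, hk, hkb⟩)).ne'
  have hc2 : ∀ (a : Subgroup.zpowers ha) (b : Subgroup.zpowers hb),
      Commute ((Subgroup.zpowers ha).subtype a) ((Subgroup.zpowers hb).subtype b) := by
    rintro ⟨a, haa⟩ ⟨b, hbb⟩
    obtain ⟨i, rfl⟩ := Subgroup.mem_zpowers_iff.1 haa
    obtain ⟨j, rfl⟩ := Subgroup.mem_zpowers_iff.1 hbb
    exact Commute.zpow_zpow hcomm i j
  let φ : Subgroup.zpowers ha × Subgroup.zpowers hb →* P :=
    MonoidHom.noncommCoprod (Subgroup.zpowers ha).subtype (Subgroup.zpowers hb).subtype hc2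
  have hrange : φ.range = torus2 ha hb := by
    rw [MonoidHom.noncommCoprod_range, Subgroup.range_subtype, Subgroup.range_subtype]
    unfold torus2
    rw [Subgroup.zpowers_eq_closure, Subgroup.zpowers_eq_closure, ← Subgroup.closure_union]
    rfl
  rw [← hrange]
  have hfin : Finite φ.range := Finite.of_surjective φ.rangeRestrict φ.rangeRestrict_surjective
  refine ⟨hfin, ?_⟩
  calc Nat.card φ.range ≤ Nat.card (Subgroup.zpowers ha × Subgroup.zpowers hb) :=
        Nat.card_le_card_of_surjective φ.rangeRestrict φ.rangeRestrict_surjective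
    _ = Nat.card (Subgroup.zpowers ha) * Nat.card (Subgroup.zpowers hb) := Nat.card_prod _ _
    _ ≤ m * k := Nat.mul_le_mul hA hB

end Cfsg.Agent.Lib.Helper93.Sp4
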