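import Mathlib

/-!
# S1074 (project T2, helper99), piece T2-SIMP

A simplicity criterion: a perfect group with a solvable point stabiliser all of whose nontrivial
normal subgroups are transitive is simple.
-/

set_option autoImplicit false

namespace Cfsg.Agent.Lib.Helper99.T2

open scoped commutatorElement

theorem t2simp_commutator_top {Γ : Type*} [Group Γ] (T : Subgroup Γ)
    (hperf : ∀ x ∈ T, x ∈ ⁅T, T⁆) : commutator ↥T = ⊤ := by
  rw [eq_top_iff]
  intro y _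
  have h1 : (y : Γ) ∈ ⁅T, T⁆ := hperf y.1 y.2
  have h2 : Subgroup.map T.subtype ⁅(⊤ : Subgroup ↥T), (⊤ : Subgroup ↥T)⁆ = ⁅T, T⁆ := by
    rw [Subgroup.map_commutator, ← MonoidHom.range_eq_map, Subgroup.range_subtype]
  rw [← h2] at h1
  obtain ⟨z, hz, hzy⟩ := h1
  have hzy' : z = y := Subtype.ext hzy
  rw [← hzy']
  exact hz

theorem t2_simple_of_chain {Γ : Type*} [Group Γ] {Ω : Type*} [MulAction Γ Ω] (T P : Subgroup Γ)
    (n : ℕ) (u : Fin n → Γ) (ω : Ω) (i0 : Fin n) (h0 : u i0 = 1) (hPT : P ≤ T)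
    (hdec : ∀ g ∈ T, ∃ i, ∃ k ∈ P, g = u i * k) (hfix : ∀ k ∈ P, k • ω = ω)
    (hinj : ∀ i j, u i • ω = u j • ω → i = j)
    (hnt : ∃ x ∈ T, x ≠ 1)
    (hperf : ∀ x ∈ T, x ∈ ⁅T, T⁆)
    (hsolv : Group.IsSolvable ↥P)
    (htrans : ∀ N : Subgroup Γ, N ≤ T → (∀ g ∈ T, ∀ x ∈ N, g * x * g⁻¹ ∈ N) → N ≠ ⊥ →
      ∀ i, ∃ x ∈ N, x • ω = u i • ω) :
    IsSimpleGroup ↥T := by
  -- the stabiliser of `ω` in `T` is `P`
  have hstab : ∀ g ∈ T, g • ω = ω → g ∈ P := by
    intro g hg hgω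
    obtain ⟨i, k, hk, rfl⟩ := hdec g hg
    rw [mul_smul, hfix k hk] at hgω
    have hi : i = i0 := hinj i i0 (by rw [hgω, h0, one_smul])
    rw [hi, h0, one_mul]
    exact hk
  have hcomm : commutator ↥T = ⊤ := t2simp_commutator_top T hperf
  have hntT : Nontrivial ↥T := by
    obtain ⟨x, hx, hx1⟩ := hnt
    exact ⟨⟨⟨x, hx⟩, 1, fun h => hx1 (congrArg Subtype.val h)⟩⟩
  refine { exists_pair_ne := hntT.exists_pair_ne, eq_bot_or_eq_top_of_normal := ?_ }
  intro N' hN'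
  by_cases hbot : N' = ⊥
  · exact Or.inl hbot
  right
  -- the image of `N'` in `Γ`
  have hNT : N'.map T.subtype ≤ T := Subgroup.map_subtype_le N'
  have hNnorm : ∀ g ∈ T, ∀ x ∈ N'.map T.subtype, g * x * g⁻¹ ∈ N'.map T.subtype := by
    rintro g hg x ⟨y, hy, rfl⟩
    exact ⟨⟨g, hg⟩ * y * ⟨g, hg⟩⁻¹, hN'.conj_mem y hy ⟨g, hg⟩, rfl⟩
  have hNne : N'.map T.subtype ≠ ⊥ := by
    intro h
    apply hbot
    exact (Subgroup.map_eq_bot_iff_of_injective N' T.subtype_injective).mp h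
  have htr := htrans (N'.map T.subtype) hNT hNnorm hNne
  -- `P` maps onto `T ⧸ N'`
  have hsurj : Function.Surjective
      ((QuotientGroup.mk' N').comp (Subgroup.inclusion hPT)) := by
    intro q
    obtain ⟨g, rfl⟩ := QuotientGroup.mk'_surjective N' q
    obtain ⟨i, k, hk, hgk⟩ := hdec g.1 g.2
    obtain ⟨x, ⟨y, hy, rfl⟩, hxω⟩ := htr i
    have hui : u i ∈ T := by
      have h1 : u i = g.1 * k⁻¹ := by rw [hgk]; group
      rw [h1]
      exact T.mul_mem g.2 (T.inv_mem (hPT hk))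
    have hp1 : (y : Γ)⁻¹ * u i ∈ P := by
      apply hstab _ (T.mul_mem (T.inv_mem y.2) hui)
      rw [mul_smul, ← hxω]
      simp
    have hp : (y : Γ)⁻¹ * u i * k ∈ P := P.mul_mem hp1 hk
    refine ⟨⟨(y : Γ)⁻¹ * u i * k, hp⟩, ?_⟩
    have hg : g = y * Subgroup.inclusion hPT ⟨(y : Γ)⁻¹ * u i * k, hp⟩ := by
      apply Subtype.ext
      show (g : Γ) = (y : Γ) * ((y : Γ)⁻¹ * u i * k)
      rw [hgk]
      group
    rw [MonoidHom.comp_apply]
    conv_rhs => rw [hg, map_mul]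
    have hy1 : (QuotientGroup.mk' N') y = 1 := (QuotientGroup.eq_one_iff y).mpr hy
    rw [hy1, one_mul]
  have hsolvQ : Group.IsSolvable (↥T ⧸ N') := Group.isSolvable_of_surjective hsurj
  have hcommQ : commutator (↥T ⧸ N') = ⊤ := by
    have h1 : Subgroup.map (QuotientGroup.mk' N') ⁅(⊤ : Subgroup ↥T), (⊤ : Subgroup ↥T)⁆ =
        ⁅(⊤ : Subgroup (↥T ⧸ N')), (⊤ : Subgroup (↥T ⧸ N'))⁆ := by
      rw [Subgroup.map_commutator,
        Subgroup.map_top_of_surjective _ (QuotientGroup.mk'_surjective N')]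
    rw [commutator_def, ← h1, ← commutator_def, hcomm,
      Subgroup.map_top_of_surjective _ (QuotientGroup.mk'_surjective N')]
  have hsub : Subsingleton (↥T ⧸ N') := by
    by_contra hns
    rw [not_subsingleton_iff_nontrivial] at hns
    have h2 := Group.IsSolvable.commutator_lt_top_of_nontrivial (↥T ⧸ N')
    rw [hcommQ] at h2
    exact lt_irrefl _ h2
  exact QuotientGroup.subgroup_eq_top_of_subsingleton N' hsub

end Cfsg.Agent.Lib.Helper99.T2
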