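import Mathlib
import Cfsg.Agent.Lib.Helper60.U3Struct

set_option autoImplicit false
set_option linter.unusedSectionVars false
set_option linter.style.haveILetI false

/-! Automorphisms of a Sylow 2-subgroup of `PSU₃(4)`: no subgroup `S₃` (helper60). -/

namespace Cfsg.Agent.Lib.Helper60

open Cfsg.Agent.Lib.Helper7

/-- Counting fixed points of a map of order dividing 3 on an invariant finite set. -/
theorem mod3_count {α : Type*} [DecidableEq α] (S : Finset α) (g : α → α)
    (hS : ∀ x ∈ S, g x ∈ S) (h3 : ∀ x ∈ S, g (g (g x)) = x) :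
    S.card ≡ (S.filter (fun x => g x = x)).card [MOD 3] := by
  classical
  haveI : Fact (Nat.Prime 3) := ⟨Nat.prime_three⟩
  let f : Function.End ↥S := fun x => ⟨g x.1, hS x.1 x.2⟩
  have hf : f ^ 3 ^ 1 = 1 := by
    funext x
    apply Subtype.ext
    show g (g (g x.1)) = x.1
    exact h3 x.1 x.2
  have h := Equiv.Perm.card_fixedPoints_modEq (f := f) (p := 3) (n := 1) hf
  rw [Fintype.card_coe] at h
  have h4 : Fintype.card ↥(Function.fixedPoints f) = (S.filter (fun x => g x = x)).card := by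
    rw [← Fintype.card_coe]
    apply Fintype.card_congr
    exact
      { toFun := fun x => ⟨x.1.1, Finset.mem_filter.mpr ⟨x.1.2, congrArg Subtype.val x.2⟩⟩
        invFun := fun y => ⟨⟨y.1, (Finset.mem_filter.mp y.2).1⟩,
          Subtype.ext (Finset.mem_filter.mp y.2).2⟩
        left_inv := fun _ => rfl
        right_inv := fun _ => rfl }
  rw [h4] at h
  exact h

section F16

variable {F : Type*} [Field F] [Fintype F]

theorem pow16_of_card (hF : Fintype.card F = 4 ^ 2) (x : F) : x ^ 16 = x := by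
  have h := FiniteField.pow_card x
  rw [hF] at h
  exact h

theorem add_pow4 (h2 : (2 : F) = 0) (x y : F) : (x + y) ^ 4 = x ^ 4 + y ^ 4 := by
  linear_combination (2 * x ^ 3 * y + 3 * x ^ 2 * y ^ 2 + 2 * x * y ^ 3) * h2

theorem N_fix (hF : Fintype.card F = 4 ^ 2) (c : F) : (c * c ^ 4) ^ 4 = c * c ^ 4 := by
  have h := pow16_of_card hF c
  calc (c * c ^ 4) ^ 4 = c ^ 4 * c ^ 16 := by ring
    _ = c * c ^ 4 := by rw [h]; ring

theorem beta_fix (hF : Fintype.card F = 4 ^ 2) (h2 : (2 : F) = 0) (c d : F) :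
    (c * d ^ 4 + d * c ^ 4) ^ 4 = c * d ^ 4 + d * c ^ 4 := by
  have hc := pow16_of_card hF c
  have hd := pow16_of_card hF d
  rw [add_pow4 h2]
  calc (c * d ^ 4) ^ 4 + (d * c ^ 4) ^ 4 = c ^ 4 * d ^ 16 + d ^ 4 * c ^ 16 := by ring
    _ = c * d ^ 4 + d * c ^ 4 := by rw [hc, hd]; ring

theorem N_eq_zero_iff (c : F) : c * c ^ 4 = 0 ↔ c = 0 := by
  constructor
  · intro h
    rcases mul_eq_zero.mp h with h | h
    · exact h
    · exact pow_eq_zero_iff (by norm_num) |>.mp h
  · rintro rfl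
    ring

theorem N_add (h2 : (2 : F) = 0) (c d : F) :
    (c + d) * (c + d) ^ 4 = c * c ^ 4 + d * d ^ 4 + (c * d ^ 4 + d * c ^ 4) := by
  rw [add_pow4 h2]
  ring

theorem card_fixset (hF : Fintype.card F = 4 ^ 2) (h2 : (2 : F) = 0) [DecidableEq F] :
    (Finset.univ.filter (fun f : F => f ^ 4 = f)).card = 4 := by
  have h := card_Fixq hF h2
  rw [Nat.card_eq_fintype_card, Fintype.card_subtype] at h
  exact h

theorem fix4_cases (hF : Fintype.card F = 4 ^ 2) (h2 : (2 : F) = 0) {f g h : F}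
    (hf : f ^ 4 = f) (hg : g ^ 4 = g) (hh : h ^ 4 = h) (hf0 : f ≠ 0) (hg0 : g ≠ 0) (hfg : f ≠ g) :
    h = 0 ∨ h = f ∨ h = g ∨ h = f + g := by
  classical
  have hcard := card_fixset hF h2
  have hsub : ({0, f, g, f + g} : Finset F) ⊆ Finset.univ.filter (fun f : F => f ^ 4 = f) := by
    intro x hx
    simp only [Finset.mem_insert, Finset.mem_singleton] at hx
    rw [Finset.mem_filter]
    refine ⟨Finset.mem_univ _, ?_⟩
    rcases hx with rfl | rfl | rfl | rfl
    · ring
    · exact hf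
    · exact hg
    · rw [add_pow4 h2, hf, hg]
  have hfg0 : f + g ≠ 0 := by
    intro h0
    apply hfg
    linear_combination h0 - g * h2
  have hfgf : f + g ≠ f := by
    intro h0
    apply hg0
    linear_combination h0
  have hfgg : f + g ≠ g := by
    intro h0
    apply hf0
    linear_combination h0
  have hc4 : ({0, f, g, f + g} : Finset F).card = 4 := by
    rw [Finset.card_insert_of_notMem, Finset.card_insert_of_notMem, Finset.card_insert_of_notMem,
      Finset.card_singleton]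
    · simp only [Finset.mem_singleton]; exact fun h => hfgg h.symm
    · simp only [Finset.mem_insert, Finset.mem_singleton]
      rintro (h | h)
      · exact hfg h
      · exact hfgf h.symm
    · simp only [Finset.mem_insert, Finset.mem_singleton]
      rintro (h | h | h)
      · exact hf0 h.symm
      · exact hg0 h.symm
      · exact hfg0 h.symm
  have heq := Finset.eq_of_subset_of_card_le hsub (by rw [hcard, hc4])
  have hmem : h ∈ ({0, f, g, f + g} : Finset F) := by
    rw [heq, Finset.mem_filter]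
    exact ⟨Finset.mem_univ _, hh⟩
  simpa using hmem

theorem card_norm_fibre (hF : Fintype.card F = 4 ^ 2) [DecidableEq F] (y : F) (hy : y ^ 4 = y)
    (hy0 : y ≠ 0) : (Finset.univ.filter (fun c : F => c * c ^ 4 = y)).card = 5 := by
  obtain ⟨t, ht0, ht⟩ := herm_norm_surj hF y hy0 hy
  have h1 := herm_card_norm_one (F := F) hF
  have h5 : (4 : ℕ) + 1 = 5 := rfl
  rw [h5] at h1 ht
  rw [← h1]
  apply Finset.card_bij (fun c _ => c / t)
  · intro c hc
    rw [Finset.mem_filter] at hc ⊢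
    refine ⟨Finset.mem_univ _, ?_⟩
    rw [div_pow, ht]
    have : c ^ 5 = y := by rw [← hc.2]; ring
    rw [this, div_self hy0]
  · intro c _ c' _ h
    field_simp at h
    exact h
  · intro x hx
    rw [Finset.mem_filter] at hx
    refine ⟨x * t, ?_, ?_⟩
    · rw [Finset.mem_filter]
      refine ⟨Finset.mem_univ _, ?_⟩
      calc x * t * (x * t) ^ 4 = x ^ 5 * t ^ 5 := by ring
        _ = y := by rw [hx.2, ht, one_mul]
    · field_simp

theorem exists_ne_four (hF : Fintype.card F = 4 ^ 2) (w x y z : F) :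
    ∃ c : F, c ≠ w ∧ c ≠ x ∧ c ≠ y ∧ c ≠ z := by
  classical
  have h1 : ({w, x, y, z} : Finset F).card < (Finset.univ : Finset F).card := by
    rw [Finset.card_univ, hF]
    calc ({w, x, y, z} : Finset F).card ≤ 4 := Finset.card_le_four
      _ < 4 ^ 2 := by norm_num
  obtain ⟨c, -, hc⟩ := Finset.exists_mem_notMem_of_card_lt_card h1
  simp only [Finset.mem_insert, Finset.mem_singleton, not_or] at hc
  exact ⟨c, hc.1, hc.2.1, hc.2.2.1, hc.2.2.2⟩

/-- An additive map of order dividing 3 on `𝔽₁₆` preserving the norm to `𝔽₄` is the identity. -/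
theorem A_eq_id_of_norm (hF : Fintype.card F = 4 ^ 2) (h2 : (2 : F) = 0) (A : F → F)
    (hA3 : ∀ c, A (A (A c)) = c) (hAadd : ∀ c d, A (c + d) = A c + A d)
    (hNA : ∀ c, A c * (A c) ^ 4 = c * c ^ 4) : ∀ c, A c = c := by
  classical
  have hA0 : A 0 = 0 := by
    have h := hAadd 0 0
    rw [add_zero] at h
    linear_combination -h
  set CA : Finset F := Finset.univ.filter (fun c => A c = c) with hCA
  have hm : (Finset.univ : Finset F).card ≡ CA.card [MOD 3] :=
    mod3_count Finset.univ A (fun x _ => Finset.mem_univ _) (fun x _ => hA3 x)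
  rw [Finset.card_univ, hF] at hm
  -- the fixed points form an additive subgroup
  let H : AddSubgroup F :=
    { carrier := {c | A c = c}
      add_mem' := by
        intro a b ha hb
        show A (a + b) = a + b
        rw [hAadd, ha, hb]
      zero_mem' := hA0
      neg_mem' := by
        intro a ha
        show A (-a) = -a
        rw [neg_eq_self_of_two h2]
        exact ha }
  have hdvd : Nat.card H ∣ Nat.card F := AddSubgroup.card_addSubgroup_dvd_card H
  have hHcard : Nat.card H = CA.card := by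
    rw [Nat.card_eq_fintype_card]
    exact Fintype.card_subtype _
  rw [hHcard, Nat.card_eq_fintype_card, hF] at hdvd
  -- lower bound
  have hfib : ∀ c ∈ CA, c * c ^ 4 ∈ Finset.univ.filter (fun f : F => f ^ 4 = f) := by
    intro c _
    rw [Finset.mem_filter]
    exact ⟨Finset.mem_univ _, N_fix hF c⟩
  have hsum := Finset.card_eq_sum_card_fiberwise hfib
  have h0mem : (0 : F) ∈ Finset.univ.filter (fun f : F => f ^ 4 = f) := by
    rw [Finset.mem_filter]
    exact ⟨Finset.mem_univ _, by ring⟩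
  rw [← Finset.add_sum_erase _ _ h0mem] at hsum
  have hz : 1 ≤ (CA.filter (fun c => c * c ^ 4 = 0)).card := by
    rw [Nat.one_le_iff_ne_zero, Finset.card_ne_zero]
    refine ⟨0, ?_⟩
    rw [Finset.mem_filter, hCA, Finset.mem_filter]
    exact ⟨⟨Finset.mem_univ _, hA0⟩, by ring⟩
  have hy : ∀ y ∈ (Finset.univ.filter (fun f : F => f ^ 4 = f)).erase 0,
      2 ≤ (CA.filter (fun c => c * c ^ 4 = y)).card := by
    intro y hy
    rw [Finset.mem_erase, Finset.mem_filter] at hy
    have h5 := card_norm_fibre hF y hy.2.2 hy.1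
    have hmy := mod3_count (Finset.univ.filter (fun c : F => c * c ^ 4 = y)) A
      (fun x hx => by
        rw [Finset.mem_filter] at hx ⊢
        exact ⟨Finset.mem_univ _, by rw [hNA]; exact hx.2⟩)
      (fun x _ => hA3 x)
    rw [h5] at hmy
    have heq : CA.filter (fun c => c * c ^ 4 = y) =
        (Finset.univ.filter (fun c : F => c * c ^ 4 = y)).filter (fun x => A x = x) := by
      ext x
      simp only [hCA, Finset.mem_filter, Finset.mem_univ, true_and]
      tauto
    rw [heq]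
    unfold Nat.ModEq at hmy
    omega
  have hsum2 := Finset.card_nsmul_le_sum _ _ 2 hy
  have hc3 : ((Finset.univ.filter (fun f : F => f ^ 4 = f)).erase 0).card = 3 := by
    rw [Finset.card_erase_of_mem h0mem, card_fixset hF h2]
  rw [hc3] at hsum2
  have hge : 7 ≤ CA.card := by
    rw [hsum]
    simp only [smul_eq_mul] at hsum2
    omega
  -- conclude
  have hpow : (4 : ℕ) ^ 2 = 2 ^ 4 := by norm_num
  rw [hpow] at hdvd hm
  obtain ⟨k, hk, hCAk⟩ := (Nat.dvd_prime_pow Nat.prime_two).mp hdvd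
  have hall : CA.card = 16 := by
    unfold Nat.ModEq at hm
    interval_cases k <;> omega
  have huniv : CA = Finset.univ := by
    apply Finset.eq_univ_of_card
    rw [hall, hF]
    norm_num
  intro c
  have hc : c ∈ CA := by rw [huniv]; exact Finset.mem_univ _
  rw [hCA, Finset.mem_filter] at hc
  exact hc.2

/-- The key computation: no pair of "semilinear" data of type `S₃` on the pair
`(𝔽₁₆, 𝔽₄)` compatible with the norm and the trace form, acting faithfully through the
element of order 3. -/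
theorem no_S3_field (hF : Fintype.card F = 4 ^ 2) (h2 : (2 : F) = 0)
    (A A' B B' : F → F)
    (hA3 : ∀ c, A (A (A c)) = c) (hA'2 : ∀ c, A' (A' c) = c)
    (hrel : ∀ c, A' (A c) = A (A (A' c)))
    (hAadd : ∀ c d, A (c + d) = A c + A d) (hA'add : ∀ c d, A' (c + d) = A' c + A' d)
    (hBfix : ∀ f, f ^ 4 = f → (B f) ^ 4 = B f) (hB'fix : ∀ f, f ^ 4 = f → (B' f) ^ 4 = B' f)
    (hB3 : ∀ f, f ^ 4 = f → B (B (B f)) = f) (hB'2 : ∀ f, f ^ 4 = f → B' (B' f) = f)
    (hBrel : ∀ f, f ^ 4 = f → B' (B f) = B (B (B' f)))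
    (hBadd : ∀ f g, f ^ 4 = f → g ^ 4 = g → B (f + g) = B f + B g)
    (hB'add : ∀ f g, f ^ 4 = f → g ^ 4 = g → B' (f + g) = B' f + B' g)
    (hN : ∀ c, B (c * c ^ 4) = A c * (A c) ^ 4)
    (hN' : ∀ c, B' (c * c ^ 4) = A' c * (A' c) ^ 4)
    (hβ : ∀ c d, B (c * d ^ 4 + d * c ^ 4) = A c * (A d) ^ 4 + A d * (A c) ^ 4)
    (hβ' : ∀ c d, B' (c * d ^ 4 + d * c ^ 4) = A' c * (A' d) ^ 4 + A' d * (A' c) ^ 4)
    (hne : ¬ ((∀ c, A c = c) ∧ ∀ f, f ^ 4 = f → B f = f)) : False := by
  have hfix0 : (0 : F) ^ 4 = 0 := by ring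
  have hfixadd : ∀ f g : F, f ^ 4 = f → g ^ 4 = g → (f + g) ^ 4 = f + g := by
    intro f g hf hg
    rw [add_pow4 h2, hf, hg]
  have hA0 : A 0 = 0 := by
    have h := hAadd 0 0
    rw [add_zero] at h
    linear_combination -h
  have hA'0 : A' 0 = 0 := by
    have h := hA'add 0 0
    rw [add_zero] at h
    linear_combination -h
  have hB0 : B 0 = 0 := by
    have h := hBadd 0 0 hfix0 hfix0
    rw [add_zero] at h
    linear_combination -h
  have hB'0 : B' 0 = 0 := by
    have h := hB'add 0 0 hfix0 hfix0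
    rw [add_zero] at h
    linear_combination -h
  -- Step 1: `B` is not the identity on the fixed field
  have hBne : ∃ f₀, f₀ ^ 4 = f₀ ∧ B f₀ ≠ f₀ := by
    by_contra hcon
    push Not at hcon
    apply hne
    refine ⟨?_, hcon⟩
    apply A_eq_id_of_norm hF h2 A hA3 hAadd
    intro c
    rw [← hN, hcon _ (N_fix hF c)]
  obtain ⟨f₀, hf₀, hBf₀⟩ := hBne
  have hf₀0 : f₀ ≠ 0 := by
    rintro rfl
    exact hBf₀ hB0
  have F1 : ∀ f, f ^ 4 = f → B f = f → f = 0 := by
    intro f hf hBf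
    by_contra hf0
    have hff₀ : f ≠ f₀ := by
      rintro rfl
      exact hBf₀ hBf
    have h3 := hB3 f₀ hf₀
    rcases fix4_cases hF h2 hf hf₀ (hBfix f₀ hf₀) hf0 hf₀0 hff₀ with h | h | h | h
    · apply hf₀0
      rw [← h3, h, hB0, hB0]
    · apply hff₀
      rw [← h3, h, hBf, hBf]
    · exact hBf₀ h
    · apply hBf₀
      rw [h, hBadd f f₀ hf hf₀, hBf, h] at h3
      have e : f + (f + f₀) = f₀ := by linear_combination f * h2
      rw [e] at h3
      exact h3
  have F2 : ∀ c, A c = c → c = 0 := by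
    intro c hc
    have h := hN c
    rw [hc] at h
    exact (N_eq_zero_iff c).mp (F1 _ (N_fix hF c) h)
  have F3 : ∀ c, c + A c + A (A c) = 0 := by
    intro c
    apply F2
    rw [hAadd (c + A c) (A (A c)), hAadd c (A c), hA3]
    ring
  have F3B : ∀ f, f ^ 4 = f → f + B f + B (B f) = 0 := by
    intro f hf
    have hBf := hBfix f hf
    have hBBf := hBfix _ hBf
    apply F1 _ (hfixadd _ _ (hfixadd _ _ hf hBf) hBBf)
    rw [hBadd (f + B f) (B (B f)) (hfixadd _ _ hf hBf) hBBf, hBadd f (B f) hf hBf, hB3 f hf]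
    ring
  have hB'ne : ∃ f₁, f₁ ^ 4 = f₁ ∧ B' f₁ ≠ f₁ := by
    by_contra hcon
    push Not at hcon
    apply hBf₀
    have hBf := hBfix f₀ hf₀
    have hBBf := hBfix _ hBf
    have h1 : B' (B (B (B f₀))) = B (B (B' (B (B f₀)))) := hBrel _ hBBf
    rw [hB3 f₀ hf₀, hcon f₀ hf₀, hcon _ hBBf, hB3 _ hBf] at h1
    exact h1.symm
  obtain ⟨f₁, hf₁, hB'f₁⟩ := hB'ne
  obtain ⟨z₀, hz₀⟩ : ∃ z, z = f₁ + B' f₁ := ⟨_, rfl⟩
  have hz₀fix : z₀ ^ 4 = z₀ := by rw [hz₀]; exact hfixadd _ _ hf₁ (hB'fix _ hf₁)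
  have hz₀0 : z₀ ≠ 0 := by
    intro h
    apply hB'f₁
    linear_combination h - hz₀ - f₁ * h2
  have hB'z₀ : B' z₀ = z₀ := by
    rw [hz₀, hB'add _ _ hf₁ (hB'fix _ hf₁), hB'2 _ hf₁]
    ring
  have huniq : ∀ f, f ^ 4 = f → B' f = f → f = 0 ∨ f = z₀ := by
    intro f hf hB'f
    by_contra hcon
    push Not at hcon
    apply hB'f₁
    rcases fix4_cases hF h2 hz₀fix hf hf₁ hz₀0 hcon.1 (Ne.symm hcon.2) with h | h | h | h
    · rw [h]; exact hB'0
    · rw [h]; exact hB'z₀
    · rw [h]; exact hB'f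
    · rw [h, hB'add _ _ hz₀fix hf, hB'z₀, hB'f]
  -- two distinct nonzero fixed points of `A'`
  have hfixA' : ∃ a b, A' a = a ∧ A' b = b ∧ a ≠ 0 ∧ b ≠ 0 ∧ a ≠ b := by
    by_cases hid : ∀ c, A' c = c
    · obtain ⟨c, hc0, hc1, -, -⟩ := exists_ne_four hF (0 : F) 1 0 0
      exact ⟨1, c, hid 1, hid c, one_ne_zero, hc0, fun h => hc1 h.symm⟩
    · push Not at hid
      obtain ⟨c₁, hc₁⟩ := hid
      have ha0 : c₁ + A' c₁ ≠ 0 := by
        intro h
        apply hc₁
        linear_combination h - c₁ * h2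
      have haf : A' (c₁ + A' c₁) = c₁ + A' c₁ := by
        rw [hA'add c₁ (A' c₁), hA'2]; ring
      obtain ⟨c₂, h20, h2a, h21, h21'⟩ := exists_ne_four hF (0 : F) (c₁ + A' c₁) c₁ (A' c₁)
      have hbf : A' (c₂ + A' c₂) = c₂ + A' c₂ := by
        rw [hA'add c₂ (A' c₂), hA'2]; ring
      by_cases hb0 : c₂ + A' c₂ = 0
      · refine ⟨c₁ + A' c₁, c₂, haf, ?_, ha0, h20, fun h => h2a h.symm⟩
        linear_combination hb0 - c₂ * h2
      · by_cases hba : c₂ + A' c₂ = c₁ + A' c₁
        · refine ⟨c₁ + A' c₁, c₁ + c₂, haf, ?_, ha0, ?_, ?_⟩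
          · rw [hA'add c₁ c₂]
            linear_combination hba + (A' c₁ - c₂) * h2
          · intro h
            apply h21
            linear_combination h - c₁ * h2
          · intro h
            apply h21'
            linear_combination -h
        · exact ⟨c₁ + A' c₁, c₂ + A' c₂, haf, hbf, ha0, hb0, fun h => hba h.symm⟩
  obtain ⟨a, b, ha, hb, ha0, hb0, hab⟩ := hfixA'
  have hNz : ∀ c, A' c = c → c ≠ 0 → c * c ^ 4 = z₀ := by
    intro c hc hc0
    have h := hN' c
    rw [hc] at h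
    rcases huniq _ (N_fix hF c) h with h' | h'
    · exact absurd ((N_eq_zero_iff c).mp h') hc0
    · exact h'
  have hNa := hNz a ha ha0
  have hNb := hNz b hb hb0
  have hab0 : a + b ≠ 0 := by
    intro h
    apply hab
    linear_combination h - b * h2
  have hNab := hNz (a + b) (by rw [hA'add a b, ha, hb]) hab0
  have hβab : a * b ^ 4 + b * a ^ 4 = z₀ := by
    have h := N_add h2 a b
    rw [hNab, hNa, hNb] at h
    linear_combination -h - z₀ * h2
  obtain ⟨x, hx⟩ : ∃ x, x = a * (A b) ^ 4 + A b * a ^ 4 := ⟨_, rfl⟩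
  have hxfix : x ^ 4 = x := by rw [hx]; exact beta_fix hF h2 _ _
  have hB'x : B' x = a * (A (A b)) ^ 4 + A (A b) * a ^ 4 := by
    rw [hx, hβ', ha, hrel, hb]
  have E1 : z₀ + x + B' x = 0 := by
    have h := F3 b
    have hb' : b = A b + A (A b) := by linear_combination h - (A b + A (A b)) * h2
    have h4 : b ^ 4 = (A b) ^ 4 + (A (A b)) ^ 4 := by
      conv_lhs => rw [hb']
      exact add_pow4 h2 _ _
    rw [hB'x, hx, ← hβab]
    linear_combination a * h4 + (a * (A b) ^ 4 + a * (A (A b)) ^ 4) * h2 + a ^ 4 * h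
  have hBB'x : B (B' x) = A a * b ^ 4 + b * (A a) ^ 4 := by
    rw [hB'x, hβ, hA3]
  have hBx : B x = A a * (A (A b)) ^ 4 + A (A b) * (A a) ^ 4 := by
    rw [hx, hβ]
  have hBBx : B (B x) = A (A a) * b ^ 4 + b * (A (A a)) ^ 4 := by
    rw [hBx, hβ, hA3]
  have E2 : z₀ + B (B' x) + B (B x) = 0 := by
    have h := F3 a
    have ha' : a = A a + A (A a) := by linear_combination h - (A a + A (A a)) * h2
    have h4 : a ^ 4 = (A a) ^ 4 + (A (A a)) ^ 4 := by
      conv_lhs => rw [ha']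
      exact add_pow4 h2 _ _
    rw [hBB'x, hBBx, ← hβab]
    linear_combination b ^ 4 * h + b * h4 + (b * ((A a) ^ 4 + (A (A a)) ^ 4)) * h2
  have hB'x2 : B' x = z₀ + x := by linear_combination E1 - (z₀ + x) * h2
  have hBB'x2 : B (B' x) = B z₀ + B x := by rw [hB'x2, hBadd _ _ hz₀fix hxfix]
  have hx2 : x = z₀ + B z₀ := by
    have h := F3B x hxfix
    rw [hBB'x2] at E2
    linear_combination h - E2
  have hNAb : A b * (A b) ^ 4 = B z₀ := by rw [← hN, hNb]
  have hsum0 : (a + A b) * (a + A b) ^ 4 = 0 := by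
    rw [N_add h2, hNa, hNAb, ← hx, hx2]
    linear_combination (z₀ + B z₀) * h2
  have hAb : A b = a := by
    have h := (N_eq_zero_iff _).mp hsum0
    linear_combination h - a * h2
  have hBz : B z₀ = z₀ := by
    rw [← hNAb, hAb, hNa]
  exact hz₀0 (F1 z₀ hz₀fix hBz)

end F16

open scoped commutatorElement

section Coords

variable {F : Type*} [Field F] [Fintype F] {q : ℕ}

theorem U3_commutator_u (hF : Fintype.card F = q ^ 2) (h2 : (2 : F) = 0) (a b : ↥(U3 hF)) :
    (⁅a, b⁆).1.u = a.1.c * b.1.c ^ q + b.1.c * a.1.c ^ q := by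
  rw [commutatorElement_def]
  simp only [U3_mul_u, U3_mul_c, U3_inv_u' hF h2, U3_inv_c' hF h2]
  linear_combination
    (a.1.u + b.1.u + a.1.c * a.1.c ^ q + b.1.c * b.1.c ^ q + a.1.c * b.1.c ^ q) * h2

/-- A chosen element with prescribed first coordinate. -/
noncomputable def liftC (hF : Fintype.card F = q ^ 2) (c : F) : ↥(U3 hF) :=
  Classical.choose (U3_exists_c hF c)

theorem liftC_c (hF : Fintype.card F = q ^ 2) (c : F) : (liftC hF c).1.c = c :=
  Classical.choose_spec (U3_exists_c hF c)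

/-- The central element with prescribed second coordinate (junk value `1` when impossible). -/
noncomputable def zlift (hF : Fintype.card F = q ^ 2) (f : F) : ↥(U3 hF) := by
  classical
  exact if h : ∃ a : ↥(U3 hF), a.1.c = 0 ∧ a.1.u = f then Classical.choose h else 1

theorem zlift_spec (hF : Fintype.card F = q ^ 2) (h2 : (2 : F) = 0) (f : F) (hf : f ^ q = f) :
    (zlift hF f).1.c = 0 ∧ (zlift hF f).1.u = f := by
  have h := U3_exists_zero hF h2 f hf
  unfold zlift
  rw [dif_pos h]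
  exact Classical.choose_spec h

theorem zlift_eq (hF : Fintype.card F = q ^ 2) (h2 : (2 : F) = 0) (z : ↥(U3 hF))
    (hz : z.1.c = 0) : zlift hF z.1.u = z := by
  have h := zlift_spec hF h2 z.1.u (U3_fix_of_c_zero hF h2 z hz)
  exact U3_ext hF (by rw [h.1, hz]) h.2

/-- First coordinate action of an automorphism. -/
noncomputable def Acoord (hF : Fintype.card F = q ^ 2) (σ : MulAut ↥(U3 hF)) (c : F) : F :=
  (σ (liftC hF c)).1.c

/-- Second coordinate action of an automorphism (on the centre). -/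
noncomputable def Bcoord (hF : Fintype.card F = q ^ 2) (σ : MulAut ↥(U3 hF)) (f : F) : F :=
  (σ (zlift hF f)).1.u

theorem aut_c_zero (hF : Fintype.card F = q ^ 2) (h2 : (2 : F) = 0) (σ : MulAut ↥(U3 hF))
    (a : ↥(U3 hF)) (ha : a.1.c = 0) : (σ a).1.c = 0 := by
  rw [← U3_central_iff hF h2]
  intro b
  have h := (U3_central_iff hF h2 a).mpr ha (σ.symm b)
  have h1 := congrArg σ h
  rw [map_mul, map_mul, MulEquiv.apply_symm_apply] at h1
  exact h1

theorem Acoord_spec (hF : Fintype.card F = q ^ 2) (h2 : (2 : F) = 0) (σ : MulAut ↥(U3 hF))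
    (a : ↥(U3 hF)) : (σ a).1.c = Acoord hF σ a.1.c := by
  have h1 : ((liftC hF a.1.c)⁻¹ * a).1.c = 0 := by
    rw [U3_mul_c, U3_inv_c, liftC_c]
    ring
  have h3 := aut_c_zero hF h2 σ _ h1
  have h4 : σ a = σ (liftC hF a.1.c) * σ ((liftC hF a.1.c)⁻¹ * a) := by
    rw [← map_mul, mul_inv_cancel_left]
  rw [h4, U3_mul_c, h3, add_zero]
  rfl

theorem Acoord_add (hF : Fintype.card F = q ^ 2) (h2 : (2 : F) = 0) (σ : MulAut ↥(U3 hF))
    (c d : F) : Acoord hF σ (c + d) = Acoord hF σ c + Acoord hF σ d := by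
  have h := Acoord_spec hF h2 σ (liftC hF c * liftC hF d)
  rw [U3_mul_c, liftC_c, liftC_c, map_mul, U3_mul_c] at h
  exact h.symm

theorem Acoord_mul (hF : Fintype.card F = q ^ 2) (h2 : (2 : F) = 0) (σ τ : MulAut ↥(U3 hF))
    (c : F) : Acoord hF (σ * τ) c = Acoord hF σ (Acoord hF τ c) := by
  show (σ (τ (liftC hF c))).1.c = _
  rw [Acoord_spec hF h2 σ]
  rfl

theorem Acoord_one (hF : Fintype.card F = q ^ 2) (c : F) :
    Acoord hF (1 : MulAut ↥(U3 hF)) c = c :=
  liftC_c hF c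

theorem Bcoord_spec (hF : Fintype.card F = q ^ 2) (h2 : (2 : F) = 0) (σ : MulAut ↥(U3 hF))
    (z : ↥(U3 hF)) (hz : z.1.c = 0) : (σ z).1.u = Bcoord hF σ z.1.u := by
  unfold Bcoord
  rw [zlift_eq hF h2 z hz]

theorem Bcoord_fix (hF : Fintype.card F = q ^ 2) (h2 : (2 : F) = 0) (σ : MulAut ↥(U3 hF))
    (f : F) (hf : f ^ q = f) : (Bcoord hF σ f) ^ q = Bcoord hF σ f :=
  U3_fix_of_c_zero hF h2 _ (aut_c_zero hF h2 σ _ (zlift_spec hF h2 f hf).1)

theorem Bcoord_add (hF : Fintype.card F = q ^ 2) (h2 : (2 : F) = 0) (σ : MulAut ↥(U3 hF))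
    (f g : F) (hf : f ^ q = f) (hg : g ^ q = g) :
    Bcoord hF σ (f + g) = Bcoord hF σ f + Bcoord hF σ g := by
  have hzf := zlift_spec hF h2 f hf
  have hzg := zlift_spec hF h2 g hg
  have hc : (zlift hF f * zlift hF g).1.c = 0 := by
    rw [U3_mul_c, hzf.1, hzg.1, add_zero]
  have hu : (zlift hF f * zlift hF g).1.u = f + g := by
    rw [U3_mul_u, hzf.1, hzf.2, hzg.2, zero_mul, add_zero]
  have h := Bcoord_spec hF h2 σ _ hc
  rw [hu, map_mul, U3_mul_u, aut_c_zero hF h2 σ _ hzf.1, zero_mul, add_zero] at h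
  exact h.symm

theorem Bcoord_mul (hF : Fintype.card F = q ^ 2) (h2 : (2 : F) = 0) (σ τ : MulAut ↥(U3 hF))
    (f : F) (hf : f ^ q = f) : Bcoord hF (σ * τ) f = Bcoord hF σ (Bcoord hF τ f) := by
  show (σ (τ (zlift hF f))).1.u = _
  rw [Bcoord_spec hF h2 σ _ (aut_c_zero hF h2 τ _ (zlift_spec hF h2 f hf).1)]
  rfl

theorem Bcoord_one (hF : Fintype.card F = q ^ 2) (h2 : (2 : F) = 0) (f : F) (hf : f ^ q = f) :
    Bcoord hF (1 : MulAut ↥(U3 hF)) f = f :=
  (zlift_spec hF h2 f hf).2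

theorem Bcoord_norm (hF : Fintype.card F = q ^ 2) (h2 : (2 : F) = 0) (σ : MulAut ↥(U3 hF))
    (c : F) : Bcoord hF σ (c * c ^ q) = Acoord hF σ c * (Acoord hF σ c) ^ q := by
  have h := Bcoord_spec hF h2 σ (liftC hF c * liftC hF c) (U3_sq_c hF h2 _)
  rw [U3_sq_u hF h2, liftC_c, map_mul, U3_sq_u hF h2] at h
  exact h.symm

theorem Bcoord_beta (hF : Fintype.card F = q ^ 2) (h2 : (2 : F) = 0) (σ : MulAut ↥(U3 hF))
    (c d : F) : Bcoord hF σ (c * d ^ q + d * c ^ q) =
      Acoord hF σ c * (Acoord hF σ d) ^ q + Acoord hF σ d * (Acoord hF σ c) ^ q := by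
  have h := Bcoord_spec hF h2 σ ⁅liftC hF c, liftC hF d⁆ (U3_commutator_c hF _ _)
  rw [U3_commutator_u hF h2, liftC_c, liftC_c, map_commutatorElement, U3_commutator_u hF h2] at h
  exact h.symm

/-- An automorphism of order dividing 3 acting trivially on both coordinates is trivial. -/
theorem aut_eq_one_of_coords (hF : Fintype.card F = q ^ 2) (h2 : (2 : F) = 0)
    (s : MulAut ↥(U3 hF)) (hs3 : s * s * s = 1) (hA : ∀ c, Acoord hF s c = c)
    (hB : ∀ f, f ^ q = f → Bcoord hF s f = f) : s = 1 := by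
  have hfixz : ∀ z : ↥(U3 hF), z.1.c = 0 → s z = z := by
    intro z hz
    apply U3_ext hF
    · rw [aut_c_zero hF h2 s z hz, hz]
    · rw [Bcoord_spec hF h2 s z hz, hB _ (U3_fix_of_c_zero hF h2 z hz)]
  ext1 a
  show s a = a
  have hwc : (a⁻¹ * s a).1.c = 0 := by
    rw [U3_mul_c, U3_inv_c, Acoord_spec hF h2 s a, hA]
    ring
  have hw2 : (a⁻¹ * s a) * (a⁻¹ * s a) = 1 := (U3_sq_eq_one_iff hF h2 _).mpr hwc
  have hsw := hfixz _ hwc
  have hsa : s a = a * (a⁻¹ * s a) := by rw [mul_inv_cancel_left]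
  have hssa : s (s a) = s a * (a⁻¹ * s a) := by
    conv_lhs => rw [hsa, map_mul, hsw]
  have hsssa : s (s (s a)) = a := by
    have h := congrArg (fun f : MulAut ↥(U3 hF) => f a) hs3
    exact h
  have h3 : s (s (s a)) = s a := by
    rw [hssa, map_mul, hsw, hssa, mul_assoc, hw2, mul_one]
  exact h3.symm.trans hsssa

end Coords

section NoS3

variable {F : Type*} [Field F] [Fintype F]

/-- The automorphism group of `U3 hF` for `|F| = 16` has no subgroup `S₃`. -/
theorem U3_aut_no_S3 (hF : Fintype.card F = 4 ^ 2) (h2 : (2 : F) = 0)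
    (s t : MulAut ↥(U3 hF)) (hs : s ≠ 1) (hs3 : s * s * s = 1) (ht2 : t * t = 1)
    (hts : t * s = s * s * t) : False := by
  apply no_S3_field hF h2 (Acoord hF s) (Acoord hF t) (Bcoord hF s) (Bcoord hF t)
  · intro c
    rw [← Acoord_mul hF h2, ← Acoord_mul hF h2, hs3, Acoord_one]
  · intro c
    rw [← Acoord_mul hF h2, ht2, Acoord_one]
  · intro c
    rw [← Acoord_mul hF h2, ← Acoord_mul hF h2, ← Acoord_mul hF h2, hts]
  · exact Acoord_add hF h2 s
  · exact Acoord_add hF h2 t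
  · exact Bcoord_fix hF h2 s
  · exact Bcoord_fix hF h2 t
  · intro f hf
    rw [← Bcoord_mul hF h2 s s f hf, ← Bcoord_mul hF h2 s (s * s) f hf, ← mul_assoc, hs3,
      Bcoord_one hF h2 f hf]
  · intro f hf
    rw [← Bcoord_mul hF h2 t t f hf, ht2, Bcoord_one hF h2 f hf]
  · intro f hf
    rw [← Bcoord_mul hF h2 t s f hf, ← Bcoord_mul hF h2 s t f hf,
      ← Bcoord_mul hF h2 s (s * t) f hf, ← mul_assoc, hts]
  · exact Bcoord_add hF h2 s
  · exact Bcoord_add hF h2 t
  · exact Bcoord_norm hF h2 s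
  · exact Bcoord_norm hF h2 t
  · exact Bcoord_beta hF h2 s
  · exact Bcoord_beta hF h2 t
  · rintro ⟨hA, hB⟩
    exact hs (aut_eq_one_of_coords hF h2 s hs3 hA hB)

end NoS3

end Cfsg.Agent.Lib.Helper60
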